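import Cfsg.Agent.Lib.Spec.Basic

/-!
# Extensions by modules on which elements of certain prime orders act without fixed points
-/

namespace Cfsg.Lib.Unitary

open Cfsg.Lib.Spec Finset

variable {G : Type*} [Group G] [Finite G]

theorem sum_range_of_zpowers_eq {M : Type*} [AddCommMonoid M] {x y : G}
    (h : Subgroup.zpowers x = Subgroup.zpowers y) (φ : G → M) :
    ∑ i ∈ range (orderOf x), φ (x ^ i) = ∑ i ∈ range (orderOf y), φ (y ^ i) := by
  classical
  have := Fintype.ofFinite G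
  have key : ∀ x : G, ∑ i ∈ range (orderOf x), φ (x ^ i) =
      ∑ u ∈ (Subgroup.zpowers x : Set G).toFinset, φ u := fun x => by
    rw [← image_range_orderOf, sum_image]
    simpa using pow_injOn_Iio_orderOf
  simp only [key, h]

theorem exists_zpowers_eq_conj {p : ℕ} [hp : Fact p.Prime] (h : ¬ p ^ 2 ∣ Nat.card G) {x y : G}
    (hx : orderOf x = p) (hy : orderOf y = p) :
    ∃ k : G, Subgroup.zpowers x = Subgroup.zpowers (k * y * k⁻¹) := by
  have key : ∀ x : G, orderOf x = p → ∃ P : Sylow p G, (P : Subgroup G) = Subgroup.zpowers x :=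
    fun x hx => ⟨IsPGroup.toSylow (P := Subgroup.zpowers x)
      (IsPGroup.of_card (n := 1) (by rw [Nat.card_zpowers, hx, pow_one])) fun h' => h (by
      rw [← (Subgroup.zpowers x).card_mul_index, Nat.card_zpowers, hx, pow_two]
      exact Nat.mul_dvd_mul_left p h'), rfl⟩
  obtain ⟨P, hP⟩ := key x hx
  obtain ⟨Q, hQ⟩ := key y hy
  obtain ⟨k, rfl⟩ := MulAction.exists_smul_eq G Q P
  refine ⟨k, ?_⟩
  rw [← hP, Sylow.coe_subgroup_smul, hQ]
  exact MonoidHom.map_zpowers (MulAut.conj k).toMonoidHom y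

/-- It is enough to test one element of order `p` if `p²` does not divide the group order. -/
theorem sum_eq_zero_of_sylow {A : Type*} [AddCommMonoid A] {p : ℕ} [hp : Fact p.Prime]
    (h : ¬ p ^ 2 ∣ Nat.card G) {g : G} (hg : orderOf g = p) {f : G → A}
    (hf : ∀ y w, ∑ i ∈ range p, f (y * g ^ i * w) = 0) {x : G} (hx : orderOf x = p) (y w : G) :
    ∑ i ∈ range p, f (y * x ^ i * w) = 0 := by
  obtain ⟨k, hk⟩ := exists_zpowers_eq_conj h hx hg
  have := sum_range_of_zpowers_eq hk fun u => f (y * u * w)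
  rw [hx, show orderOf (k * g * k⁻¹) = p from
    ((MulAut.conj k).orderOf_eq g).trans hg] at this
  rw [this, ← hf (y * k) (k⁻¹ * w)]
  simp only [conj_pow]
  simp only [mul_assoc]

open Classical in
theorem exists_unb_cusp {A : Type*} [AddCommGroup A] [Finite A] {r : ℕ} (hr : r.Prime)
    (T : Set ℕ) {f : G → A} (h0 : f ≠ 0) (hf : ∀ x, r • f x = 0)
    (hT : ∀ t ∈ T, ∀ x : G, orderOf x = t → ∀ y w, ∑ i ∈ range t, f (y * x ^ i * w) = 0) :
    ∃ S, Unb S ∧ sp G ⊆ S ∧ (∀ n ∈ S, n ∈ sp G ∨ ∃ m ∈ sp G, n = m * r ∧ ∀ t ∈ T, ¬ t ∣ m) ∧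
      ∀ h y w : G, ∑ i ∈ range (orderOf h), f (y * h ^ i * w) ≠ 0 → orderOf h * r ∈ S := by
  let d : G → ℕ := fun h => if ∃ t ∈ T, t ∣ orderOf h then 1 else r
  have hm : f ∈ cusp A d := fun h y w => by
    simp only [d]
    split_ifs with h1
    · obtain ⟨t, ht, h1⟩ := h1
      exact smul_sum_eq_zero_of_prime h1 (fun x hx y w => by rw [hT t ht x hx, smul_zero]) y w
    · rw [smul_sum, sum_eq_zero fun i _ => hf _]
  have : Fact r.Prime := ⟨hr⟩
  refine ⟨_, unb_cusp d hm h0, sp_mono_of_injective _ SemidirectProduct.inr_injective, ?_, ?_⟩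
  · rintro _ ⟨x, rfl⟩
    have h1 : addOrderOf (x ^ orderOf x.right).left.toAdd.1 ∣ d x.right := by
      refine addOrderOf_dvd_of_nsmul_eq_zero (funext fun y => ?_)
      simpa [cusp_pow_left] using x.left.toAdd.2 x.right y 1
    rw [orderOf_cusp]
    simp only [d] at h1
    split_ifs at h1 with h2
    · exact Or.inl ⟨x.right, by rw [Nat.dvd_one.mp h1, mul_one]⟩
    · rcases (Nat.dvd_prime hr).mp h1 with h3 | h3
      · exact Or.inl ⟨x.right, by rw [h3, mul_one]⟩
      · exact Or.inr ⟨_, ⟨x.right, rfl⟩, by rw [h3], fun t ht h4 => h2 ⟨t, ht, h4⟩⟩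
  · intro h y w hs
    let x : CuspExt A d := ⟨cuspAct A d w (Multiplicative.ofAdd ⟨f, hm⟩), h⟩
    refine ⟨x, ?_⟩
    rw [orderOf_cusp]
    congr 1
    refine addOrderOf_eq_prime (funext fun z => ?_) fun e => hs ?_
    · rw [Pi.smul_apply, cusp_pow_left, smul_sum]
      exact sum_eq_zero fun i _ => hf _
    · have := congrFun e y
      rw [cusp_pow_left] at this
      exact this

theorem unb_samePG_cusp {A : Type*} [AddCommGroup A] [Finite A] {r : ℕ} (hr : r.Prime)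
    (T : Set ℕ) {f : G → A} (h0 : f ≠ 0) (hf : ∀ x, r • f x = 0)
    (hT : ∀ t ∈ T, ∀ x : G, orderOf x = t → ∀ y w, ∑ i ∈ range t, f (y * x ^ i * w) = 0)
    (h1 : r ∈ sp G) (h2 : ∀ s, s.Prime → s ≠ r → s ∈ sp G → s ∉ T → s * r ∈ sp G) :
    ∃ S, Unb S ∧ SamePG (sp G) S := by
  obtain ⟨S, hS, h3, h4, -⟩ := exists_unb_cusp hr T h0 hf hT
  refine ⟨S, hS, fun p hp => ⟨fun h => h3 h, fun h => ?_⟩, fun p q hp hq hpq =>
    ⟨fun h => h3 h, fun h => ?_⟩⟩
  · rcases h4 p h with h | ⟨m, -, e, -⟩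
    · exact h
    · rwa [← (Nat.prime_dvd_prime_iff_eq hr hp).mp ⟨m, e.trans (mul_comm _ _)⟩]
  · rcases h4 _ h with h | ⟨m, hm, e, h5⟩
    · exact h
    rcases (hr.dvd_mul (m := p) (n := q)).mp ⟨m, e.trans (mul_comm _ _)⟩ with h6 | h6
    · obtain rfl := (Nat.prime_dvd_prime_iff_eq hr hp).mp h6
      obtain rfl : q = m := Nat.eq_of_mul_eq_mul_left hp.pos (e.trans (mul_comm _ _))
      exact mul_comm q r ▸ h2 q hq hpq.symm hm fun ht => h5 q ht dvd_rfl
    · obtain rfl := (Nat.prime_dvd_prime_iff_eq hr hq).mp h6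
      obtain rfl : p = m := Nat.eq_of_mul_eq_mul_right hq.pos e
      exact h2 p hp hpq hm fun ht => h5 p ht dvd_rfl

end Cfsg.Lib.Unitary
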