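import Cfsg.Agent.Lib.GLC.Jordan
import Cfsg.Agent.Lib.GLC.CentU
import Cfsg.Agent.Lib.Unitary.Wall3

/-!
Centralizers of unipotent elements of unitary groups.
-/

set_option autoImplicit false

namespace Cfsg.Lib.Unitary

open Module Matrix Polynomial Cfsg.Lib.GLC LinearMap

variable {F V : Type*} [Field F] [AddCommGroup V] [Module F V] {ι : Type*} [Fintype ι] [DecidableEq ι]

/-- Generators of the Jordan blocks. -/
structure JGens (N : End F V) (d : ι → ℕ) (e : ι → V) (π : V →ₗ[F] ι → F) : Prop where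
  gen : ∀ k, π (e k) = Pi.single k 1
  ker : ∀ v, π v = 0 ↔ ∃ w, N w = v
  nil : ∀ k, (N ^ d k) (e k) = 0
  tri : ∀ i v, (N ^ i) v = 0 → ∀ l, i < d l → π v l = 0
  hom : ∀ v : ι → V, (∀ k, (N ^ d k) (v k) = 0) → ∃ a, Commute a N ∧ ∀ k, a (e k) = v k
  nilp : IsNilpotent N

theorem exists_jGens [Finite F] {f : End F V} {c : F} {d : ι → ℕ} (hd : ∀ k, 0 < d k)
    (h : Blocks f (jt c (Finset.univ.val.map d))) : (∃ e π, JGens (f - c • 1) d e π) ∧
      Nat.card {a : End F V // Commute a f} = Nat.card F ^ (∑ k, ∑ l, min (d l) (d k)) := by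
  have hP : ∀ k, ((X - C c) ^ d k).Monic := fun k => (monic_X_sub_C c).pow _
  haveI := fun k => (hP k).finite_adjoinRoot
  haveI := h.finite
  have hb : Blocks (piMap fun k => cyc ((X - C c) ^ d k)) (jt c (Finset.univ.val.map d)) := by
    rw [jt, Multiset.map_map]; exact blocks_pi hP
  obtain ⟨E, hE⟩ := hb.sim h
  set g := piMap fun k => cyc ((X - C c) ^ d k)
  have hE' : (E : _ →ₗ[F] V) ∘ₗ g = f ∘ₗ E := ext hE
  have hN : ∀ j, (f - c • 1) ^ j = aeval f ((X - C c) ^ j) := fun j => by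
    simp [Algebra.algebraMap_eq_smul_one]
  have hN' : ∀ R w, aeval f R (E w) = E (aeval g R w) := fun R w => (map_aeval_of_comp hE' R w).symm
  let π : (∀ k, AdjoinRoot ((X - C c) ^ d k)) →ₗ[F] ι → F := piMap fun k => (AdjoinRoot.liftAlgHom _ (Algebra.ofId F F) c
    (by simp [(hd k).ne'])).toLinearMap
  have h1 : ∀ v k R, v k = AdjoinRoot.mk _ R → π v k = R.eval c := fun v k R h => by simp [π, h]
  refine ⟨⟨fun k => E (Pi.single k 1), π ∘ₗ E.symm, fun k => funext fun l => ?_, fun v => ?_, fun k => ?_,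
    fun i v hv l hl => ?_, fun v hv => ?_, Finset.univ.sup d, ?_⟩, ?_⟩
  · rcases eq_or_ne l k with rfl | h
    · simpa using h1 (Pi.single l 1) l 1 (by simp)
    · simpa [h] using h1 (Pi.single k 1) l 0 (by simp [h])
  · obtain ⟨v, rfl⟩ := E.surjective v
    rw [← pow_one (f - c • 1), hN, pow_one]
    simp only [coe_comp, LinearEquiv.coe_coe, Function.comp_apply, LinearEquiv.symm_apply_apply]
    refine ⟨fun hv => ?_, fun ⟨w, hw⟩ => ?_⟩
    · obtain ⟨R, hR, -⟩ := exists_sum_aeval (f := g) v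
      choose S hS using fun k => dvd_iff_isRoot.2 ((h1 v k _ (hR k)).symm.trans (congrFun hv k))
      refine ⟨E fun k => AdjoinRoot.mk _ (S k), (hN' _ _).trans (congrArg E (funext fun k => ?_))⟩
      rw [hR, hS, map_mul, aeval_piMap]; exact LinearMap.congr_fun (aeval_cyc _ _) _
    · obtain ⟨w, rfl⟩ := E.surjective w
      rw [hN', E.injective.eq_iff] at hw
      obtain ⟨R, hR, -⟩ := exists_sum_aeval (f := g) w
      funext k
      rw [h1 v k ((X - C c) * R k) (by
        rw [← hw, map_mul, ← hR, aeval_piMap]; exact LinearMap.congr_fun (aeval_cyc _ _) _)]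
      simp
  · rw [hN, hN', aeval_piMap_single, AdjoinRoot.mk_self, Pi.single_zero, map_zero]
  · obtain ⟨v, rfl⟩ := E.surjective v
    rw [hN, hN', E.map_eq_zero_iff] at hv
    obtain ⟨R, hR⟩ := AdjoinRoot.mk_surjective (v l)
    have := congrFun hv l
    rw [aeval_piMap] at this
    simp only [coe_piMap, Pi.map_apply, aeval_cyc, ← hR, Algebra.coe_lmul_eq_mul, LinearMap.mul_apply',
      ← map_mul, Pi.zero_apply, AdjoinRoot.mk_eq_zero] at this
    simpa using (h1 _ l R hR.symm).trans (dvd_iff_isRoot.1 ((mul_dvd_mul_iff_left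
      ((monic_X_sub_C c).pow i).ne_zero).1 (pow_succ (X - C c) _ ▸ (pow_dvd_pow _ hl).trans this)))
  · obtain ⟨a, ha, ha'⟩ := exists_hom (f := f) hP (v := v) fun k => hN _ ▸ hv k
    refine ⟨a ∘ₗ E.symm, .sub_right (ext fun w => ?_) ((Commute.one_right _).smul_right c),
      fun k => by simpa using ha' k⟩
    obtain ⟨w, rfl⟩ := E.surjective w
    have : a (g w) = f (a w) := LinearMap.congr_fun ha w
    simpa [← hE] using this
  · rw [hN]
    exact h.aeval_eq_zero_iff.2 (by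
      simpa [jt] using fun k => pow_dvd_pow _ (Finset.le_sup (f := d) (Finset.mem_univ k)))
  · refine (Nat.card_eq_of_bijective (fun a => ⟨a.1 ∘ₗ E, LinearMap.ext fun w =>
      (congrArg a.1 (hE w)).trans (LinearMap.congr_fun a.2 (E w))⟩) ⟨fun a b e => ?_,
      fun a => ⟨⟨a.1 ∘ₗ E.symm, LinearMap.ext fun w => ?_⟩, Subtype.ext (LinearMap.ext fun w => ?_)⟩⟩).trans
        ((card_hom (f := f) hP).trans ?_)
    · refine Subtype.ext (LinearMap.ext fun w => ?_)
      obtain ⟨w, rfl⟩ := E.surjective w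
      exact LinearMap.congr_fun (congrArg Subtype.val e) w
    · simp
    · simp [← (hb.sim h).kd_eq, g, kd_piMap, kd_cyc_pow (X_sub_C_ne_zero c)]
    · obtain ⟨w, rfl⟩ := E.surjective w
      have : a.1 (g w) = f (a.1 w) := LinearMap.congr_fun a.2 w
      simpa [← hE] using this

namespace JGens

variable {N : End F V} {d : ι → ℕ} {e : ι → V} {π : V →ₗ[F] ι → F} (h : JGens N d e π)
include h

theorem exists_eq (v : V) : ∃ w, v = ∑ k, π v k • e k + N w := by
  obtain ⟨w, hw⟩ := (h.ker (v - ∑ k, π v k • e k)).1 (by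
    ext l; simp [h.gen, Pi.single_apply])
  exact ⟨w, by simp [hw]⟩

theorem nil_le {k : ι} {i : ℕ} (hi : d k ≤ i) : (N ^ i) (e k) = 0 := by
  rw [← Nat.sub_add_cancel hi, pow_add, End.mul_apply, h.nil, map_zero]

theorem apply_eq {a : End F V} (ha : Commute a N) (v : V) :
    π (a v) = (of fun l k => π (a (e k)) l) *ᵥ π v := by
  obtain ⟨w, hw⟩ := h.exists_eq v
  conv_lhs => rw [hw, map_add, map_add, ← End.mul_apply, ha.eq, (h.ker ((N * a) w)).2 ⟨_, rfl⟩]
  ext l
  simp [mulVec, dotProduct, mul_comm]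

theorem blockTriangular {a : End F V} (ha : Commute a N) :
    (of fun l k => π (a (e k)) l).BlockTriangular d := fun l k hlk => h.tri (d k) _ (by
  rw [← End.mul_apply, ← (ha.pow_right _).eq, End.mul_apply, h.nil, map_zero]) l hlk

theorem isUnit_iff [Module.Finite F V] {a : End F V} (ha : Commute a N) :
    IsUnit a ↔ IsUnit (of fun l k => π (a (e k)) l) := by
  have h5 : Function.Surjective π := fun w => ⟨∑ k, w k • e k, by ext; simp [h.gen, Pi.single_apply]⟩
  rw [← mulVec_surjective_iff_isUnit, isUnit_iff_range_eq_top, range_eq_top]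
  refine ⟨fun h1 w => ?_, fun h1 v => ?_⟩
  · obtain ⟨v, rfl⟩ := (h5.comp h1) w
    exact ⟨_, (h.apply_eq ha v).symm⟩
  have : ∀ j v, ∃ u w, v = a u + (N ^ j) w := fun j => by
    induction j with
    | zero => exact fun v => ⟨0, v, by simp⟩
    | succ j ih =>
      intro v
      obtain ⟨u, w, rfl⟩ := ih v
      obtain ⟨u', h'⟩ := (h1.comp h5) (π w)
      obtain ⟨w', h'⟩ := (h.ker (w - a u')).1 (by rw [map_sub, h.apply_eq ha, sub_eq_zero]; exact h'.symm)
      exact ⟨u + (N ^ j) u', w', by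
        rw [pow_succ, End.mul_apply, h', map_add, ← End.mul_apply a, (ha.pow_right j).eq,
          End.mul_apply, map_sub, add_add_sub_cancel]⟩
  obtain ⟨j, hj⟩ := h.nilp
  obtain ⟨u, w, rfl⟩ := this j v
  exact ⟨u, by simp [hj]⟩

theorem isUnit_iff' [Module.Finite F V] {a : End F V} (ha : Commute a N) {D : Finset ℕ}
    (hD : ∀ k, d k ∈ D) :
    IsUnit a ↔ ∀ i : D, IsUnit ((of fun l k => π (a (e k)) l).toSquareBlock d i) := by
  rw [h.isUnit_iff ha, Matrix.isUnit_iff_isUnit_det, (h.blockTriangular ha).det,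
    Finset.prod_subset (s₂ := D) (by simpa [Finset.subset_iff]) fun i _ hi => by
      haveI : IsEmpty {k // d k = i} := ⟨fun k => hi (by simpa using ⟨_, k.2⟩)⟩; exact det_isEmpty,
    IsUnit.prod_iff]
  simp only [Matrix.isUnit_iff_isUnit_det, Subtype.forall]

theorem exists_block {D : Finset ℕ} (hD : ∀ k, d k ∈ D)
    (M : ∀ i : D, Matrix {k // d k = i} {k // d k = i} F) :
    ∃ a, Commute a N ∧ ∀ i : D, (of fun l k => π (a (e k)) l).toSquareBlock d i = M i := by
  obtain ⟨a, ha, ha'⟩ := h.hom (fun k => ∑ l : {l // d l = d k}, M ⟨d k, hD k⟩ l ⟨k, rfl⟩ • e l)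
    fun k => by simp [map_sum, fun l : {l // d l = d k} => h.nil_le l.2.le]
  refine ⟨a, ha, fun ⟨i, hi⟩ => Matrix.ext fun ⟨l, hl⟩ ⟨k, hk⟩ => ?_⟩
  obtain rfl : d k = i := hk
  simp only [toSquareBlock_def, of_apply, ha', map_sum, map_smul, h.gen, Finset.sum_apply,
    Pi.smul_apply, smul_eq_mul]
  rw [Finset.sum_eq_single ⟨l, hl⟩ (fun b _ hb => by
    rw [Pi.single_eq_of_ne (fun e => hb (Subtype.ext e.symm)), mul_zero]) (by simp)]
  simp

end JGens

variable {q : ℕ} {σ : F →+* F}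

section adj

variable {B : V →ₛₗ[σ] V →ₗ[F] F} {f : End F V}

theorem form_pow_left [Module.Finite F V] (hB : IsHerm σ B) (hf : ∀ x y, B (f x) (f y) = B x y) (j : ℕ) :
    ∀ x y, ((f - 1) ^ (j + 1)) y = 0 → B (((f - 1) ^ j) x) y = (-1) ^ j * B x (((f - 1) ^ j) y) := by
  have hi : Function.Injective f := (injective_iff_map_eq_zero f).2 fun x hx =>
    hB.nondeg x fun y => by rw [← hf, hx]; simp
  induction j with
  | zero => simp
  | succ j ih =>
    intro x y hy
    obtain ⟨y, rfl⟩ := injective_iff_surjective.1 hi y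
    have hc : ∀ i : ℕ, ((f - 1) ^ i) (f y) = f (((f - 1) ^ i) y) := fun i =>
      LinearMap.congr_fun (((Commute.refl f).sub_left (Commute.one_left f)).pow_left i).eq y
    have h1 : ((f - 1) ^ (j + 1 + 1)) y = 0 := hi (by rw [← hc, hy, map_zero])
    have h2 : f (((f - 1) ^ (j + 1)) y) = ((f - 1) ^ (j + 1)) y := by
      rwa [pow_succ', End.mul_apply, LinearMap.sub_apply, sub_eq_zero] at h1
    have h3 : B (((f - 1) ^ (j + 1)) x) (f y) = -B (((f - 1) ^ j) x) ((f - 1) y) := by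
      rw [pow_succ', End.mul_apply]; simp [hf]
    rw [h3, ih x _ (by rwa [← End.mul_apply, ← pow_succ]), hc, h2, ← End.mul_apply, ← pow_succ]
    ring

theorem form_pow_eq_zero [Module.Finite F V] (hB : IsHerm σ B) (hf : ∀ x y, B (f x) (f y) = B x y)
    {j : ℕ} (x : V) {y : V} (hy : ((f - 1) ^ j) y = 0) : B (((f - 1) ^ j) x) y = 0 := by
  rw [form_pow_left hB hf j x y (by rw [pow_succ', End.mul_apply, hy, map_zero]), hy, map_zero, mul_zero]

theorem perp_ker_pow [Module.Finite F V] (hB : IsHerm σ B) (hf : ∀ x y, B (f x) (f y) = B x y) (j : ℕ) :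
    perp B (ker ((f - 1) ^ j)) = range ((f - 1) ^ j) := by
  refine (Submodule.eq_of_le_of_finrank_eq ?_ ?_).symm
  · rintro _ ⟨x, rfl⟩ y hy
    exact hB.eq_zero_comm.1 (form_pow_eq_zero hB hf x hy)
  · have := hB.finrank_add_finrank_perp (ker ((f - 1) ^ j))
    have := finrank_range_add_finrank_ker ((f - 1) ^ j)
    omega

variable {d : ι → ℕ} {e : ι → V} {π : V →ₗ[F] ι → F}

theorem JGens.form_eq [Module.Finite F V] (h : JGens (f - 1) d e π) (hB : IsHerm σ B)
    (hf : ∀ x y, B (f x) (f y) = B x y) {i : ℕ} {x y : V} (hx : ((f - 1) ^ (i + 1)) x = 0)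
    (hy : ((f - 1) ^ (i + 1)) y = 0) : B y (((f - 1) ^ i) x) =
      ∑ l : {l // d l = i + 1}, B y (((f - 1) ^ i) (e l)) * π x l := by
  obtain ⟨w, hw⟩ := h.exists_eq x
  conv_lhs => rw [hw, map_add, map_add, ← End.mul_apply, ← pow_succ,
    hB.eq_zero_comm.1 (form_pow_eq_zero hB hf w hy), add_zero, map_sum, map_sum]
  rw [← Finset.sum_subtype (Finset.univ.filter (d · = i + 1)) (by simp)
    fun l => B y (((f - 1) ^ i) (e l)) * π x l, Finset.sum_filter]
  refine Finset.sum_congr rfl fun l _ => ?_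
  split_ifs with h1
  · simp [mul_comm]
  · rcases lt_or_gt_of_ne h1 with h1 | h1
    · simp [h.nil_le (Nat.le_of_lt_succ h1)]
    · simp [h.tri _ x hx l h1]

theorem JGens.isUnit_gram [Module.Finite F V] (h : JGens (f - 1) d e π) (hB : IsHerm σ B)
    (hf : ∀ x y, B (f x) (f y) = B x y) (i : ℕ) : IsUnit (of fun k l : {l // d l = i + 1} =>
      B (e k) (((f - 1) ^ i) (e l))) := by
  rw [← mulVec_injective_iff_isUnit, ← coe_mulVecLin, ← ker_eq_bot, ker_eq_bot']
  intro c hc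
  have hx : ((f - 1) ^ (i + 1)) (∑ l, c l • e l.1) = 0 := by
    simp [map_sum, fun l : {l // d l = i + 1} => h.nil_le l.2.le]
  obtain ⟨w, hw⟩ : ((f - 1) ^ i) (∑ l, c l • e l.1) ∈ range ((f - 1) ^ (i + 1)) := by
    rw [← perp_ker_pow hB hf]
    intro y hy
    rw [hB.eq_zero_comm, form_pow_left hB hf _ _ _ hy, h.form_eq hB hf hy hx, Finset.sum_eq_zero, mul_zero]
    intro l _
    have h1 := form_pow_left hB hf i (∑ l, c l • e l.1) _ (h.nil_le l.2.le)
    have h2 : B (e l) (((f - 1) ^ i) (∑ l, c l • e l.1)) = 0 := by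
      simpa [mulVec, dotProduct, map_sum, mul_comm] using congrFun hc l
    rw [hB.eq_zero_comm.1 h2, eq_comm, mul_eq_zero, or_iff_right (by simp)] at h1
    rw [h1, zero_mul]
  funext l
  have := h.tri i (∑ l, c l • e l.1 - (f - 1) w) (by
    rw [map_sub, ← hw, ← End.mul_apply, ← pow_succ, sub_self]) l (by simp [l.2])
  rw [map_sub, (h.ker ((f - 1) w)).2 ⟨_, rfl⟩] at this
  simp only [map_sum, map_smul, h.gen, sub_zero, Finset.sum_apply, Pi.smul_apply, smul_eq_mul] at this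
  rw [Finset.sum_eq_single l (fun b _ hb => by
    rw [Pi.single_eq_of_ne (fun e => hb (Subtype.ext e.symm)), mul_zero]) (by simp)] at this
  simpa using this

end adj

namespace IsBar

variable (hσ : IsBar q σ) {n : Type*} [Fintype n] [DecidableEq n]
include hσ

theorem card_commute_eq {u : GL n F} (hu : ctGL σ u = u⁻¹) :
    Nat.card {a : GL n F // Commute a u} = Nat.card {a : GL n F // ctGL σ a = a⁻¹ ∧ Commute a u} *
      Nat.card {a : GL n F // ctGL σ a = a ∧ Commute a u} := by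
  choose c hc hc' using fun s : {a : GL n F // ctGL σ a = a ∧ Commute a u} => hσ.exists_ct_mul s.2.1
  have h1 : ∀ s, Commute (c s) u := fun s => commute_gl_iff.2 (hc' s _ (commute_gl_iff.1 s.2.2))
  have h2 : ∀ (x : {a : GL n F // ctGL σ a = a⁻¹ ∧ Commute a u}) s,
      ctGL σ (x.1 * c s) * (x.1 * c s) = s := fun x s => by
    rw [ctGL_mul, x.2.1, ← hc]; group
  rw [← Nat.card_prod]
  symm
  refine Nat.card_eq_of_bijective (fun x => ⟨x.1.1 * c x.2, x.1.2.2.mul_left (h1 _)⟩) ⟨?_, fun a => ?_⟩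
  · rintro ⟨x, s⟩ ⟨y, t⟩ e
    have e' : x.1 * c s = y.1 * c t := congrArg Subtype.val e
    obtain rfl : s = t := Subtype.ext (by rw [← h2 x s, e', h2])
    rw [Subtype.ext (mul_right_cancel e')]
  · have h3 : Commute (ctGL σ a.1) u := by
      simpa [hu] using (commute_ctGL (σ := σ) a.2).inv_right
    let s : {a : GL n F // ctGL σ a = a ∧ Commute a u} :=
      ⟨ctGL σ a.1 * a.1, by rw [ctGL_mul, hσ.ctGL_ctGL], h3.mul_left a.2⟩
    refine ⟨⟨⟨a.1 * (c s)⁻¹, ?_, a.2.mul_left (h1 s).inv_left⟩, s⟩, Subtype.ext (by simp)⟩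
    rw [ctGL_mul, ctGL_inv, eq_mul_inv_iff_mul_eq.2 (hc s)]
    simp only [s]; group

theorem card_herm_gl {m : ℕ} (hm : Fintype.card n = m) :
    Nat.card (GL n F) = guOrder q m * Nat.card {a : Matrix n n F // ct σ a = a ∧ IsUnit a} := by
  haveI := hσ.finite
  haveI := Fintype.ofFinite F
  have h := hσ.card_commute_eq (u := (1 : GL n F)) (by simp)
  simp only [Commute.one_right, and_true] at h
  rw [Nat.card_congr (Equiv.subtypeUnivEquiv fun _ => trivial)] at h
  rw [h]
  congr 1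
  · rw [← hm, ← finrank_fintype_fun_eq_card F, ← (hσ.isHerm (ι := n)).card_UG hσ]
    refine Nat.card_congr ((Matrix.GeneralLinearGroup.toLin.trans
      (LinearMap.GeneralLinearGroup.generalLinearEquiv F _)).toEquiv.subtypeEquiv fun a => ?_)
    rw [eq_inv_iff_mul_eq_one, Units.ext_iff]
    exact (stdForm_mulVec_iff a.1).symm
  · exact Nat.card_eq_of_bijective (fun a => ⟨a.1.1, congrArg Units.val a.2, a.1.isUnit⟩)
      ⟨fun a b e => Subtype.ext (Units.ext (congrArg Subtype.val e)),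
        by rintro ⟨_, h, a, rfl⟩; exact ⟨⟨a, Units.ext h⟩, rfl⟩⟩

theorem card_herm_sq (S : Submodule F (Matrix n n F)) (hS : ∀ a ∈ S, ct σ a ∈ S) :
    Nat.card {a : S // ct σ a.1 = a.1} ^ 2 = Nat.card S := by
  rw [← hσ.card_fixed_sq (V := S) (.mk' (fun a => ⟨ct σ a.1, hS _ a.2⟩) fun a b =>
    Subtype.ext (map_add (ct σ) a.1 b.1)) (fun c v => Subtype.ext (ct_smul c v.1))
    fun v => Subtype.ext (hσ.ct_ct _)]
  exact congrArg (· ^ 2) (Nat.card_congr (Equiv.subtypeEquivRight fun a => by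
    simp [Subtype.ext_iff]))

theorem card_herm : Nat.card {a : Matrix n n F // ct σ a = a} = q ^ Fintype.card n ^ 2 := by
  haveI := hσ.finite
  have := hσ.card_fixed_sq (ct σ : Matrix n n F →+ _) ct_smul hσ.ct_ct
  rw [natCard_eq_pow_finrank (K := F) (V := Matrix n n F), hσ.card, finrank_matrix, finrank_self, mul_one,
    pow_right_comm, ← sq] at this
  exact Nat.pow_left_injective two_ne_zero this

set_option maxHeartbeats 800000 in
theorem card_herm_commute {u : GL n F} (hu : ctGL σ u = u⁻¹) {d : ι → ℕ} (hd : ∀ k, 0 < d k)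
    (h : Blocks (toLin' u.1) (jt 1 (Finset.univ.val.map d))) {D : Finset ℕ} (hD : ∀ k, d k ∈ D) :
    Nat.card {a : GL n F // ctGL σ a = a ∧ Commute a u} * q ^ ∑ i ∈ D, Fintype.card {k // d k = i} ^ 2 =
      q ^ (∑ k, ∑ l, min (d l) (d k)) * ∏ i : D,
        Nat.card {a : Matrix {k // d k = i} {k // d k = i} F // ct σ a = a ∧ IsUnit a} := by
  haveI := hσ.finite
  obtain ⟨⟨e, π, hJ⟩, hc⟩ := exists_jGens hd h
  rw [one_smul] at hJ
  have hB := hσ.isHerm (ι := n)
  have hu' : ct σ u.1 = (u⁻¹).1 := congrArg Units.val hu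
  have hf : ∀ x y, stdForm σ n (toLin' u.1 x) (toLin' u.1 y) = stdForm σ n x y :=
    (stdForm_mulVec_iff u.1).2 (by rw [← ct_apply, hu', Units.inv_mul])
  obtain ⟨δ, hδ, hδ'⟩ := hσ.exists_skew
  obtain ⟨θ, hθ⟩ := hσ.exists_trace_eq (map_one σ)
  set N := toLin' u.1 - 1
  have hN : ∀ a : Matrix n n F, Commute a u.1 ↔ Commute (toLin' a) N := fun a => by
    rw [← commute_toLin'_iff]
    exact ⟨fun h => h.sub_right (Commute.one_right _), fun h => by
      simpa [N] using h.add_right (Commute.one_right _)⟩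
  have hct : ∀ a : Matrix n n F, Commute a u.1 → Commute (ct σ a) u.1 := fun a ha => by
    have := commute_ct (σ := σ) ha
    rw [hu'] at this
    simpa using this.units_inv_right
  let Ψ : Matrix n n F →ₗ[F] ∀ i : D, Matrix {k // d k = i} {k // d k = i} F :=
    { toFun := fun a i => of fun k l => δ ^ (i.1 - 1) * stdForm σ n (e k) ((N ^ (i.1 - 1)) (a *ᵥ e l))
      map_add' := fun a b => by ext; simp [add_mulVec, mul_add]
      map_smul' := fun c a => by ext; simp [smul_mulVec, mul_left_comm] }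
  have h0 : ∀ a : Matrix n n F, Commute a u.1 → ∀ j v, (N ^ j) (a *ᵥ v) = a *ᵥ (N ^ j) v := fun a ha j v =>
    (LinearMap.congr_fun (((hN a).1 ha).pow_right j).eq v).symm
  have h1 : ∀ a, Commute a u.1 → ∀ i, Ψ (ct σ a) i = ct σ (Ψ a i) := by
    rintro a ha ⟨i, hi⟩
    ext ⟨k, hk⟩ ⟨l, hl⟩
    obtain ⟨i, rfl⟩ : ∃ j, i = j + 1 := ⟨i - 1, by have := hd k; simp only at hk; omega⟩
    simp only [Ψ, ct_apply, LinearMap.coe_mk, AddHom.coe_mk, of_apply, transpose_apply, map_apply,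
      Nat.add_sub_cancel, map_mul, map_pow, hδ', hB.symm]
    rw [form_pow_left hB hf _ _ _ (hJ.nil_le hl.le), stdForm_mulVec_left, ← ct_apply, h0 _ (hct a ha),
      neg_pow δ]
    have : ((-1 : F) ^ i) * (-1) ^ i = 1 := by rw [← mul_pow]; simp
    linear_combination (exp := 1) -(δ ^ i * stdForm σ n (e k) (ct σ a *ᵥ (N ^ i) (e l))) * this
  have h2 : ∀ a, Commute a u.1 → ∀ i, Ψ a i =
      Ψ 1 i * (of fun l k => π (toLin' a (e k)) l).toSquareBlock d i := by
    rintro a ha ⟨i, hi⟩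
    ext ⟨k, hk⟩ ⟨l, hl⟩
    obtain ⟨i, rfl⟩ : ∃ j, i = j + 1 := ⟨i - 1, by have := hd k; simp only at hk; omega⟩
    simp only [Ψ, LinearMap.coe_mk, AddHom.coe_mk, of_apply, Nat.add_sub_cancel, Matrix.mul_apply,
      one_mulVec, toSquareBlock_def, toLin'_apply]
    rw [hJ.form_eq hB hf (by rw [h0 a ha, hJ.nil_le hl.le, mulVec_zero]) (hJ.nil_le hk.le),
      Finset.mul_sum]
    simp only [mul_assoc]; rfl
  have h3 : ∀ i, IsUnit (Ψ 1 i) := by
    rintro ⟨i, hi⟩
    rcases i with _ | i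
    · haveI : IsEmpty {k // d k = 0} := ⟨fun k => (hd k).ne' k.2⟩
      exact isUnit_of_subsingleton _
    have := (hJ.isUnit_gram hB hf i).smul (Units.mk0 (δ ^ i) (pow_ne_zero _ hδ))
    convert this using 1
    ext; simp [Ψ, N]
  let S : Submodule F (Matrix n n F) :=
    ⟨⟨⟨{a | Commute a u.1}, Commute.add_left⟩, Commute.zero_left _⟩, fun c _ h => h.smul_left c⟩
  let H : AddSubgroup S := ⟨⟨⟨{a | ct σ a.1 = a.1}, fun {a b} ha hb => by
    simp_all⟩, by simp⟩, fun {a} ha => by simp_all⟩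
  let K : ∀ i : D, AddSubgroup (Matrix {k // d k = i} {k // d k = i} F) := fun i =>
    ⟨⟨⟨{a | ct σ a = a}, fun {a b} ha hb => by simp_all⟩, by simp⟩, fun {a} ha => by simp_all⟩
  let ψ : H →+ ∀ i, K i := .mk' (fun a i => ⟨Ψ a.1.1 i, (h1 _ a.1.2 i).symm.trans (by
    rw [show ct σ a.1.1 = a.1.1 from a.2])⟩) fun a b => funext fun i => Subtype.ext (by simp)
  have h4 : Function.Surjective ψ := fun M => by
    obtain ⟨a, ha, ha'⟩ := hJ.exists_block hD fun i => ((h3 i).unit⁻¹).1 * (M i).1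
    obtain ⟨a, rfl⟩ := toLin'.surjective a
    rw [← hN] at ha
    have h5 : ∀ i, Ψ a i = M i := fun i => by rw [h2 a ha, ha', ← mul_assoc, IsUnit.mul_val_inv, one_mul]
    refine ⟨⟨⟨θ • a + σ θ • ct σ a, (ha.smul_left θ).add_left ((hct a ha).smul_left _)⟩, ?_⟩,
      funext fun i => Subtype.ext ?_⟩
    · change ct σ (θ • a + σ θ • ct σ a) = θ • a + σ θ • ct σ a
      rw [map_add, ct_smul, ct_smul, hσ.invol, hσ.ct_ct, add_comm]
    · change Ψ (θ • a + σ θ • ct σ a) i = M i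
      rw [map_add, map_smul, map_smul, Pi.add_apply, Pi.smul_apply, Pi.smul_apply, h1 a ha, h5,
        show ct σ (M i).1 = (M i).1 from (M i).2, ← add_smul, hθ, one_smul]
  have := card_subtype_comp_mul ψ h4 fun M => ∀ i, IsUnit (M i).1
  rw [Nat.card_congr (Equiv.subtypePiEquivPi (p := fun i (M : K i) => IsUnit M.1)), Nat.card_pi,
    Nat.card_pi] at this
  have e1 : Nat.card {a : GL n F // ctGL σ a = a ∧ Commute a u} =
      Nat.card {a : H // ∀ i, IsUnit (ψ a i).1} := by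
    refine Nat.card_eq_of_bijective (fun a => ⟨⟨⟨a.1.1, commute_gl_iff.1 a.2.2⟩,
      congrArg Units.val a.2.1⟩, fun i => ?_⟩) ⟨fun a b e => Subtype.ext (Units.ext
        (congrArg (·.1.1.1) e)), ?_⟩
    · change IsUnit (Ψ a.1.1 i)
      rw [h2 _ (commute_gl_iff.1 a.2.2)]
      exact (h3 i).mul ((hJ.isUnit_iff' ((hN _).1 (commute_gl_iff.1 a.2.2)) hD).1 (isUnit_toLin'_gl _) i)
    · rintro ⟨⟨⟨a, ha⟩, ha'⟩, h5⟩
      obtain ⟨a, rfl⟩ : IsUnit a := by
        have := (hJ.isUnit_iff' ((hN _).1 ha) hD).2 fun i =>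
          isUnit_of_mul_isUnit_right (h2 a ha i ▸ (show IsUnit (Ψ a i) from h5 i))
        exact (isUnit_map_iff toLinAlgEquiv' a).1 this
      exact ⟨⟨a, Units.ext ha', commute_gl_iff.2 ha⟩, rfl⟩
  have e2 : q ^ ∑ i ∈ D, Fintype.card {k // d k = i} ^ 2 = ∏ i, Nat.card (K i) := by
    rw [← Finset.prod_pow_eq_pow_sum, ← Finset.prod_coe_sort]
    exact Finset.prod_congr rfl fun i _ => hσ.card_herm.symm
  have e3 : q ^ (∑ k, ∑ l, min (d l) (d k)) = Nat.card H := by
    have := hσ.card_herm_sq S hct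
    have e4 : Nat.card S = Nat.card {a : End F (n → F) // Commute a (toLin' u.1)} :=
      Nat.card_congr ((toLin' : Matrix n n F ≃ₗ[F] _).toEquiv.subtypeEquiv fun a =>
        (commute_toLin'_iff (A := a) (B := u.1)).symm)
    rw [e4, hc, hσ.card, pow_right_comm] at this
    exact (Nat.pow_left_injective two_ne_zero this).symm
  rw [e1, e2, e3, this]
  exact congrArg _ (Finset.prod_congr rfl fun i _ =>
    Nat.card_congr (Equiv.subtypeSubtypeEquivSubtypeInter (fun a => ct σ a = a) IsUnit))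

theorem card_commute_unip {u : GL n F} (hu : ctGL σ u = u⁻¹) {d : ι → ℕ} (hd : ∀ k, 0 < d k)
    (h : Blocks (toLin' u.1) (jt 1 (Finset.univ.val.map d))) {D : Finset ℕ} (hD : ∀ k, d k ∈ D) :
    Nat.card {a : GL n F // ctGL σ a = a⁻¹ ∧ Commute a u} *
      q ^ ∑ i ∈ D, Fintype.card {k // d k = i} ^ 2 =
      q ^ (∑ k, ∑ l, min (d l) (d k)) * ∏ i ∈ D, guOrder q (Fintype.card {k // d k = i}) := by
  haveI := hσ.finite
  have h1 := card_commute_jt hd h hD
  have h2 := hσ.card_herm_commute hu hd h hD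
  rw [← card_commute_gl, Nat.card_congr (Equiv.subtypeEquivRight fun a => commute_gl_iff.symm),
    hσ.card_commute_eq hu, hσ.card, ← Finset.prod_coe_sort,
    Finset.prod_congr rfl fun i _ => hσ.card_herm_gl rfl, Finset.prod_mul_distrib,
    Finset.prod_coe_sort D fun i => guOrder q (Fintype.card {k // d k = i})] at h1
  refine Nat.eq_of_mul_eq_mul_right (Nat.mul_pos (pow_pos (by have := hσ.two_le; omega) _)
    (Finset.prod_pos fun i _ => Nat.card_pos_iff.2 ⟨⟨⟨1, ct_one, isUnit_one⟩⟩, inferInstance⟩))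
    ((congrArg _ h2.symm).trans ?_)
  rw [pow_right_comm, pow_right_comm q 2] at h1
  linear_combination h1

end IsBar

end Cfsg.Lib.Unitary
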