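import Cfsg.Agent.Lib.Unitary.U3
import Cfsg.Agent.Lib.Unitary.Transv

/-!
# Involutions of `SU₃(q)`, `q` odd, and non-isotropic points
-/

set_option autoImplicit false

namespace Cfsg.Lib.Unitary

open Module

variable {F V : Type*} [Field F] [AddCommGroup V] [Module F V] {σ : F →+* F}
  {B : V →ₛₗ[σ] V →ₗ[F] F} {q : ℕ} {G : Type*} [Group G]

/-- `t` is the involution attached to the unit vector `v`. -/
def IsI (e : G ≃* SUG B) (t : G) (v : V) : Prop :=
  B v v = 1 ∧ ∀ x, (e t).1 x = -x + (2 * B v x) • v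

variable {e : G ≃* SUG B} {t t' : G} {v w : V}

theorem IsI.unique (h1 : IsI e t v) (h2 : IsI e t' v) : t = t' :=
  e.injective (Subtype.ext (LinearEquiv.ext fun x => (h1.2 x).trans (h2.2 x).symm))

theorem IsI.smul (h1 : IsI e t v) {a : F} (ha : a * σ a = 1) : IsI e t (a • v) := by
  refine ⟨?_, fun x => ?_⟩
  · simp only [map_smul, LinearMap.map_smulₛₗ, LinearMap.smul_apply, smul_eq_mul, h1.1]
    linear_combination ha
  · rw [h1.2]
    simp only [LinearMap.map_smulₛₗ, LinearMap.smul_apply, smul_eq_mul, smul_smul]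
    congr 2
    linear_combination -(2 * B v x) * ha

theorem IsI.apply_self (h1 : IsI e t v) : (e t).1 v = v := by
  rw [h1.2, h1.1]; module

theorem IsI.eq_smul (h2 : (2 : F) ≠ 0) (h1 : IsI e t v) (hw : (e t).1 w = w) :
    w = B v w • v := by
  rw [h1.2] at hw
  refine smul_right_injective V h2 ?_
  linear_combination (norm := module) -hw

theorem norm_of_eq_smul (hv : B v v = 1) (hw : B w w = 1) {a : F} (h : w = a • v) :
    a * σ a = 1 := by
  rw [h] at hw
  simpa [LinearMap.map_smulₛₗ, hv] using hw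

theorem IsI.conj (h1 : IsI e t v) (g : G) : IsI e (g * t * g⁻¹) ((e g).1 v) := by
  refine ⟨((e g).2.1 v v).trans h1.1, fun x => ?_⟩
  simp only [map_mul, map_inv, Subgroup.coe_mul, Subgroup.coe_inv, LinearEquiv.mul_apply, h1.2,
    map_add, map_neg, map_smul, UG_apply_left (e g).2.1]
  simp

theorem IsI.mul_self (h1 : IsI e t v) : t * t = 1 :=
  e.injective (Subtype.ext (LinearEquiv.ext fun x => by
    simp only [map_mul, Subgroup.coe_mul, LinearEquiv.mul_apply, h1.2, map_add, map_neg, map_smul,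
      smul_eq_mul, h1.1, map_one, Subgroup.coe_one, LinearEquiv.coe_one, id]
    module))

theorem IsI.commute_iff (h : IsHerm σ B) (h2 : (2 : F) ≠ 0) (h1 : IsI e t v) (h1' : IsI e t' w) :
    Commute t t' ↔ t = t' ∨ B v w = 0 := by
  constructor
  · intro hc
    have h3 := h1.conj t'
    rw [← hc.eq, mul_inv_cancel_right] at h3
    have h4 := h1.eq_smul h2 h3.apply_self
    refine or_iff_not_imp_right.2 fun h0 => ?_
    have h5 : 2 * B w v ≠ 0 := mul_ne_zero h2 fun h' => h0 (h.eq_zero_comm.1 h')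
    have h6 : w = ((2 * B w v)⁻¹ * (1 + B v ((e t').1 v))) • v := by
      rw [mul_smul, eq_inv_smul_iff₀ h5, add_smul, ← h4, h1'.2]; module
    exact (h1.smul (norm_of_eq_smul h1.1 h1'.1 h6)).unique (h6 ▸ h1')
  · rintro (rfl | h0)
    · exact Commute.refl _
    have h3 := h1.conj t'
    rw [h1'.2, h.eq_zero_comm.1 h0, mul_zero, zero_smul, add_zero, ← neg_one_smul F] at h3
    have := (h1.smul (a := -1) (by simp)).unique h3
    exact (mul_inv_eq_iff_eq_mul.1 this.symm).symm

theorem IsI.ne_of_perp (h2 : (2 : F) ≠ 0) (h1 : IsI e t v) (h1' : IsI e t' w) (h0 : B v w = 0) :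
    t ≠ t' := by
  rintro rfl
  have := h1.eq_smul h2 h1'.apply_self
  rw [h0, zero_smul] at this
  simpa [this] using h1'.1

variable [FiniteDimensional F V] (h : IsHerm σ B) (hn : finrank F V = 3) (h2 : (2 : F) ≠ 0)
include h hn

theorem exists_isI (e : G ≃* SUG B) (hv : B v v = 1) : ∃ t, IsI e t v := by
  let r := elem B v (-2) (by simp only [map_neg, map_ofNat, hv]; ring)
  have hr : r ∈ UG B := h.elem_mem_UG _ _ _
  refine ⟨e.symm ⟨LinearEquiv.neg F * r, mem_SUG'.2 ⟨fun x y => ?_, ?_⟩⟩, hv, fun x => ?_⟩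
  · simpa using hr x y
  · have : ((LinearEquiv.neg F * r : V ≃ₗ[F] V) : V →ₗ[F] V) = (-1 : F) • (r : V →ₗ[F] V) := by
      ext x; simp
    rw [this, LinearMap.det_smul, hn, det_elem, hv]; ring
  · simp only [MulEquiv.apply_symm_apply, LinearEquiv.mul_apply, LinearEquiv.neg_apply, r,
      elem_apply]
    module

include h2 in
theorem IsI.ne_one (h1 : IsI e t v) : t ≠ 1 := by
  rintro rfl
  obtain ⟨z, hz, hz'⟩ := h.exists_nonisotropic_perp_of_finrank (W := F ∙ v) (by
    have := finrank_span_le_card (R := F) ({v} : Set V)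
    simp at this; omega)
  have := h1.eq_smul h2 (w := z) (by simp)
  rw [mem_perp_singleton.1 hz, zero_smul] at this
  simp [this] at hz'

include h2 in
theorem exists_isI_of_inv [Finite F] (e : G ≃* SUG B) (ht : t ≠ 1) (ht2 : t * t = 1) :
    ∃ v, IsI e t v := by
  set g := (e t).1 with hg
  have hgg : ∀ x, g (g x) = x := fun x => by
    have := congrArg (fun y => (e y).1 x) ht2
    simpa using this
  let g' : V ≃ₗ[F] V := LinearEquiv.neg F * g
  have hg' : g' ∈ UG B := fun x y => by simpa [g'] using (e t).2.1 x y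
  have hd : LinearMap.det (g' : V →ₗ[F] V) = -1 := by
    have : (g' : V →ₗ[F] V) = (-1 : F) • (g : V →ₗ[F] V) := by ext x; simp [g']
    rw [this, LinearMap.det_smul, hn, (mem_SUG'.1 (e t).2).2]; ring
  have hc : IsCompl (LinearMap.range (dev g)) (LinearMap.range (dev g')) := by
    constructor
    · rw [Submodule.disjoint_def]
      rintro _ ⟨x, rfl⟩ ⟨y, hy⟩
      have e1 := congrArg g hy
      simp only [dev_apply, g', LinearEquiv.mul_apply, LinearEquiv.neg_apply, map_sub, map_neg,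
        hgg] at hy e1 ⊢
      refine smul_right_injective V h2 ?_
      linear_combination (norm := module) e1 - hy
    · rw [codisjoint_iff, eq_top_iff]
      intro x _
      refine Submodule.mem_sup.2 ⟨_, ⟨(-(2 : F)⁻¹) • x, rfl⟩, _, ⟨(-(2 : F)⁻¹) • x, rfl⟩, ?_⟩
      simp only [dev_apply, g', LinearEquiv.mul_apply, LinearEquiv.neg_apply, map_smul]
      have : x = ((2 : F)⁻¹ * 2) • x := by rw [inv_mul_cancel₀ h2, one_smul]
      linear_combination (norm := module) -this
  have hs := Submodule.finrank_add_eq_of_isCompl hc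
  have h0 : finrank F (LinearMap.range (dev g)) ≠ 0 := fun h0 => ht (e.injective (Subtype.ext
    (LinearEquiv.ext fun x => by
      have := LinearMap.mem_range_self (dev g) x
      rw [Submodule.finrank_eq_zero.1 h0, Submodule.mem_bot, dev_apply, sub_eq_zero] at this
      simpa using this)))
  have h0' : finrank F (LinearMap.range (dev g')) ≠ 0 := fun h0 => by
    have : (g' : V →ₗ[F] V) = LinearMap.id := LinearMap.ext fun x => by
      have := LinearMap.mem_range_self (dev g') x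
      rwa [Submodule.finrank_eq_zero.1 h0, Submodule.mem_bot, dev_apply, sub_eq_zero] at this
    rw [this, LinearMap.det_id] at hd
    exact h2 (by linear_combination hd)
  have h1 : finrank F (LinearMap.range (dev g)) ≠ 1 := fun h1 => by
    obtain ⟨u, c, hu, hc, hu0, hc0, e1⟩ := h.exists_transv_of_rank_one (e t).2 h1
    obtain ⟨x, hx⟩ := h.exists_eq_one hu0
    have := hgg x
    rw [hg, e1] at this
    simp only [transv_apply, map_add, map_smul, hu, hx, smul_eq_mul, mul_zero, add_zero,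
      mul_one] at this
    have h3 : (2 * c) • u = 0 := by linear_combination (norm := module) this
    exact hu0 ((smul_eq_zero.1 h3).resolve_left (mul_ne_zero h2 hc0))
  obtain ⟨u, c, hu0, hc0, e1⟩ := h.exists_eq_of_rank_one hg' (by omega)
  have h3 := det_of_apply_eq (g := (g' : V →ₗ[F] V)) e1
  have h4 : c * B u u = -2 := by linear_combination -h3 + hd
  have h5 : B u u ≠ 0 := fun h0 => h2 (by rw [h0] at h4; linear_combination h4)
  obtain ⟨a, ha⟩ := h.exists_norm_eq (μ := (B u u)⁻¹) (by rw [map_inv₀, h.self_fixed])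
  refine ⟨a • u, ?_, fun x => ?_⟩
  · simp only [map_smul, LinearMap.map_smulₛₗ, LinearMap.smul_apply, smul_eq_mul]
    rw [← mul_assoc, ha, inv_mul_cancel₀ h5]
  · have := e1 x
    simp only [g', LinearEquiv.mul_apply, LinearEquiv.neg_apply] at this
    simp only [LinearMap.map_smulₛₗ, LinearMap.smul_apply, smul_eq_mul, smul_smul]
    have h6 : 2 * (σ a * B u x) * a = -(c * B u x) := by
      have : c = -2 * (a * σ a) := by rw [ha, ← h4]; field_simp
      rw [this]; ring
    rw [h6]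
    linear_combination (norm := module) -this

theorem exists_smul_of_perp_two (hv : B v v = 1) (hw : B w w = 1) (hvw : B v w = 0) {z z' : V}
    (hz : z ≠ 0) (h1 : B v z = 0) (h1' : B w z = 0) (h3 : B v z' = 0) (h3' : B w z' = 0) :
    ∃ c : F, z' = c • z := by
  have hli : LinearIndependent F ![v, w] := linearIndependent_of_orthonormal (B := B) fun i j => by
    fin_cases i <;> fin_cases j <;> simp [hv, hw, hvw, h.eq_zero_comm.1 hvw]
  have hd := h.finrank_add_finrank_perp (Submodule.span F (Set.range ![v, w]))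
  rw [finrank_span_eq_card hli, Fintype.card_fin, hn] at hd
  have hm : ∀ y, B v y = 0 → B w y = 0 → y ∈ perp B (Submodule.span F (Set.range ![v, w])) :=
    fun y e1 e2 => mem_perp_span.2 (by rintro _ ⟨i, rfl⟩; fin_cases i <;> simpa)
  have hd' : finrank F (perp B (Submodule.span F (Set.range ![v, w]))) = 1 := by omega
  obtain ⟨c, hc⟩ := (finrank_eq_one_iff_of_nonzero' (⟨z, hm z h1 h1'⟩ : perp B _)
    (by simpa using hz)).1 hd' ⟨z', hm z' h3 h3'⟩
  exact ⟨c, (congrArg Subtype.val hc).symm⟩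

theorem exists_unit_perp_iff [Finite F] (hv : B v v = 1) (hw : w ≠ 0) (hvw : B v w = 0) :
    (∃ u, B u u = 1 ∧ B v u = 0 ∧ B w u = 0) ↔ B w w ≠ 0 := by
  classical
  constructor
  · rintro ⟨u, hu, h1, h1'⟩ h0
    refine hw (h.nondeg w fun x => ?_)
    obtain ⟨c, hc⟩ := exists_smul_of_perp_two h hn hv hu h1 hw hvw (h.eq_zero_comm.1 h1')
      (z' := x - B v x • v - B u x • u) (by simp [hv, h1]) (by simp [hu, h.eq_zero_comm.1 h1])
    have := congrArg (B w) hc
    simpa [h0, h1', h.eq_zero_comm.1 hvw] using this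
  · intro h0
    obtain ⟨z, hz, hz'⟩ := h.exists_nonisotropic_perp (W := Submodule.span F {v, w}) fun hle => by
      have hd := h.finrank_add_finrank_perp (Submodule.span F {v, w})
      have h3 := finrank_span_le_card (R := F) ({v, w} : Set V)
      have h4 : ({v, w} : Set V).toFinset.card ≤ 2 := by
        rw [Set.toFinset_insert, Set.toFinset_singleton]; exact Finset.card_le_two
      obtain ⟨z, hz, hz0⟩ := (Submodule.ne_bot_iff _).1 (show perp B (Submodule.span F {v, w}) ≠ ⊥
        from fun e => by rw [e, finrank_bot] at hd; omega)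
      obtain ⟨a, b, rfl⟩ := Submodule.mem_span_pair.1 (hle hz)
      have e1 := mem_perp_span.1 hz v (by simp)
      have e2 := mem_perp_span.1 hz w (by simp)
      simp only [map_add, map_smul, hv, hvw, h.eq_zero_comm.1 hvw, smul_eq_mul, mul_one, mul_zero,
        add_zero, zero_add, mul_eq_zero, h0, or_false] at e1 e2
      simp [e1, e2] at hz0
    obtain ⟨c, -, hc⟩ := h.exists_smul_norm_eq hz' one_ne_zero (map_one σ)
    exact ⟨c • z, hc, by simp [mem_perp_span.1 hz v (by simp)],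
      by simp [mem_perp_span.1 hz w (by simp)]⟩

include h2 in
theorem card_inv_mul (hσ : IsBar q σ) (e : G ≃* SUG B) {P : G → Prop} {Q : V → Prop}
    (hPQ : ∀ t w, IsI e t w → (P t ↔ Q w)) :
    Nat.card {x : G // x ≠ 1 ∧ x * x = 1 ∧ P x} * (q + 1) =
      Nat.card {w : V // B w w = 1 ∧ Q w} := by
  have := hσ.finite
  choose f hf using fun x : {x : G // x ≠ 1 ∧ x * x = 1 ∧ P x} =>
    exists_isI_of_inv h hn h2 e x.2.1 x.2.2.1
  rw [← hσ.card_norm_one, ← Nat.card_prod]
  refine Nat.card_congr (Equiv.ofBijective (fun p => ⟨p.2.1 • f p.1, ((hf p.1).smul p.2.2).1,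
    (hPQ _ _ ((hf p.1).smul p.2.2)).1 p.1.2.2.2⟩) ⟨?_, ?_⟩)
  · rintro ⟨x, a⟩ ⟨y, b⟩ hxy
    have e1 : a.1 • f x = b.1 • f y := congrArg Subtype.val hxy
    obtain rfl : x = y := Subtype.ext (((hf x).smul a.2).unique (e1 ▸ (hf y).smul b.2))
    have : f x ≠ 0 := fun h0 => by simpa [h0] using (hf x).1
    exact Prod.ext rfl (Subtype.ext (smul_left_injective F this e1))
  · rintro ⟨w, hw, hQ⟩
    obtain ⟨t, ht⟩ := exists_isI h hn e hw
    let x : {x : G // x ≠ 1 ∧ x * x = 1 ∧ P x} :=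
      ⟨t, ht.ne_one h hn h2, ht.mul_self, (hPQ _ _ ht).2 hQ⟩
    have e1 := (hf x).eq_smul h2 ht.apply_self
    exact ⟨(x, ⟨_, norm_of_eq_smul (hf x).1 hw e1⟩), Subtype.ext e1.symm⟩

theorem card_unit_three (hσ : IsBar q σ) :
    Nat.card {w : V // B w w = 1 ∧ True} = q ^ 2 * (q ^ 2 - q + 1) * (q + 1) := by
  have := h.card_norm_one hσ (n := 2) hn
  simp only [and_true]
  rw [this, uf, if_pos even_two, mul_assoc]
  congr 1
  obtain ⟨k, hk⟩ := Nat.exists_eq_add_of_le (Nat.le_self_pow two_ne_zero q)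
  rw [hk, Nat.add_sub_cancel_left, pow_succ, hk]
  nlinarith

theorem finrank_perp_unit (hv : B v v = 1) : finrank F (perp B (F ∙ v)) = 2 := by
  have := h.finrank_perp_singleton (u := v) (by rintro rfl; simp at hv)
  omega

theorem card_unit_perp (hσ : IsBar q σ) (hv : B v v = 1) :
    Nat.card {w : V // B w w = 1 ∧ B v w = 0} = q * (q - 1) * (q + 1) := by
  have h1 := h.restrict_perp (IsHerm.disjoint_perp_singleton (u := v) (by simp [hv]))
  have := h1.card_norm_one hσ (n := 1) (finrank_perp_unit h hn hv)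
  rw [uf, if_neg (by decide), pow_one] at this
  rw [mul_assoc, mul_comm (q - 1), ← Nat.sq_sub_sq, ← this]
  exact Nat.card_congr ⟨fun w => ⟨⟨w.1, mem_perp_singleton.2 w.2.2⟩, w.2.1⟩,
    fun w => ⟨w.1.1, w.2, mem_perp_singleton.1 w.1.2⟩, fun _ => rfl, fun _ => rfl⟩

theorem card_unit_deg (hσ : IsBar q σ) (hv : B v v = 1) :
    Nat.card {w : V // B w w = 1 ∧ (w - B v w • v ≠ 0 ∧
      B (w - B v w • v) (w - B v w • v) = 0)} = (q + 1) * (q ^ 2 - 1) * (q + 1) := by
  have := hσ.finite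
  haveI : Finite V := Module.finite_of_finite F
  have h1 := h.restrict_perp (IsHerm.disjoint_perp_singleton (u := v) (by simp [hv]))
  have h3 := h1.card_isotropic hσ (n := 0) (finrank_perp_unit h hn hv)
  rw [uf, if_neg (by decide), uf_zero] at h3
  have h4 : Nat.card {u : V // u ≠ 0 ∧ B v u = 0 ∧ B u u = 0} = (q + 1) * (q ^ 2 - 1) := by
    classical
    have := Nat.card_congr (Equiv.optionSubtypeNe
      (⟨0, by simp⟩ : {u : perp B (F ∙ v) // B.domRestrict₁₂ _ _ u u = 0}))
    rw [Finite.card_option, h3, Nat.add_right_cancel_iff] at this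
    rw [mul_comm, ← this]
    exact Nat.card_congr ⟨fun u => ⟨⟨⟨u.1, mem_perp_singleton.2 u.2.2.1⟩, u.2.2.2⟩,
      fun e => u.2.1 (congrArg (·.1.1) e)⟩,
      fun u => ⟨u.1.1.1, fun e => u.2 (Subtype.ext (Subtype.ext e)), mem_perp_singleton.1 u.1.1.2,
        u.1.2⟩, fun _ => rfl, fun _ => rfl⟩
  rw [← h4, ← hσ.card_norm_one, ← Nat.card_prod]
  refine (Nat.card_congr (Equiv.ofBijective (fun p : {u : V // u ≠ 0 ∧ B v u = 0 ∧ B u u = 0} ×
    {x : F // x * σ x = 1} => ⟨p.1.1 + p.2.1 • v,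
      by simp [LinearMap.map_smulₛₗ, hv, p.1.2.2, h.eq_zero_comm.1 p.1.2.2.1, p.2.2,
        mul_comm (σ _)],
      by simp [hv, p.1.2.2, p.1.2.1]⟩) ⟨?_, ?_⟩)).symm
  · rintro ⟨u, a⟩ ⟨u', a'⟩ e
    have e1 : u.1 + a.1 • v = u'.1 + a'.1 • v := congrArg Subtype.val e
    have e2 : a.1 = a'.1 := by simpa [hv, u.2.2.1, u'.2.2.1] using congrArg (B v) e1
    rw [e2, add_left_inj] at e1
    exact Prod.ext (Subtype.ext e1) (Subtype.ext e2)
  · rintro ⟨w, hw, h5, h6⟩
    refine ⟨(⟨_, h5, by simp [hv], h6⟩, ⟨B v w, ?_⟩), Subtype.ext (by simp)⟩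
    simp only [map_sub, map_smul, LinearMap.map_smulₛₗ, LinearMap.sub_apply, LinearMap.smul_apply,
      smul_eq_mul, hv, hw, h.symm] at h6
    rw [h.symm]
    linear_combination -h6

include h2 in
/-- A common neighbour exists iff the line through the two points is non-degenerate. -/
theorem IsI.exists_common_iff [Finite F] (h1 : IsI e t v) (h1' : IsI e t' w) (hc : ¬ Commute t t') :
    (∃ y : G, y ≠ 1 ∧ y * y = 1 ∧ Commute t y ∧ Commute y t') ↔
      B (w - B v w • v) (w - B v w • v) ≠ 0 := by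
  have h0 : w - B v w • v ≠ 0 := fun h0 => hc (by
    rw [sub_eq_zero] at h0
    rw [(h1.smul (norm_of_eq_smul h1.1 h1'.1 h0)).unique (h0 ▸ h1')])
  rw [← exists_unit_perp_iff h hn h1.1 h0 (by simp [h1.1])]
  constructor
  · rintro ⟨y, hy, hy2, c1, c2⟩
    obtain ⟨u, hu⟩ := exists_isI_of_inv h hn h2 e hy hy2
    have e1 := ((h1.commute_iff h h2 hu).1 c1).resolve_left (by rintro rfl; exact hc c2)
    have e2 := ((hu.commute_iff h h2 h1').1 c2).resolve_left (by rintro rfl; exact hc c1)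
    exact ⟨u, hu.1, e1, by simp [LinearMap.map_smulₛₗ, e1, h.eq_zero_comm.1 e2]⟩
  · rintro ⟨u, hu, e1, e2⟩
    obtain ⟨y, hy⟩ := exists_isI h hn e hu
    refine ⟨y, hy.ne_one h hn h2, hy.mul_self, (h1.commute_iff h h2 hy).2 (.inr e1),
      (hy.commute_iff h h2 h1').2 (.inr (h.eq_zero_comm.1 ?_))⟩
    simpa [LinearMap.map_smulₛₗ, e1] using e2

omit [FiniteDimensional F V] hn in
include h2 in
theorem IsI.not_commute_iff (h1 : IsI e t v) (h1' : IsI e t' w) :
    ¬ Commute t t' ↔ w - B v w • v ≠ 0 ∧ B v w ≠ 0 := by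
  rw [h1.commute_iff h h2 h1', not_or]
  refine and_congr_left' (not_congr ⟨?_, fun h0 => ?_⟩)
  · rintro rfl
    exact sub_eq_zero.2 (h1.eq_smul h2 h1'.apply_self)
  · rw [sub_eq_zero] at h0
    exact (h1.smul (norm_of_eq_smul h1.1 h1'.1 h0)).unique (h0 ▸ h1')

include h2 in
theorem IsI.exists_path (hσ : IsBar q σ) (hq : q ≠ 2) (h1 : IsI e t v) (h1' : IsI e t' w) :
    ∃ y z : G, y ≠ 1 ∧ y * y = 1 ∧ z ≠ 1 ∧ z * z = 1 ∧
      Commute t y ∧ Commute y z ∧ Commute z t' := by
  have := hσ.finite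
  by_cases hc : Commute t t'
  · exact ⟨t, t, h1.ne_one h hn h2, h1.mul_self, h1.ne_one h hn h2, h1.mul_self, .refl _, .refl _,
      hc⟩
  by_cases h0 : B (w - B v w • v) (w - B v w • v) = 0
  swap
  · obtain ⟨y, hy, hy2, c1, c2⟩ := (h1.exists_common_iff h hn h2 h1' hc).2 h0
    exact ⟨y, y, hy, hy2, hy, hy2, c1, .refl _, c2⟩
  have h3 := ((h1.not_commute_iff h h2 h1').1 hc).1
  set w' := w - B v w • v with hw'
  have h4 : B v w' = 0 := by simp [hw', h1.1]
  obtain ⟨x, hx⟩ := h.exists_eq_one h3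
  obtain ⟨s, hs, hs0, hs1⟩ := hσ.exists_fixed_ne hq
  set x' := x - B v x • v with hx'
  have h5 : B v x' = 0 := by simp [hx', h1.1]
  have h6 : B w' x' = 1 := by simp [hx', hx, h.eq_zero_comm.1 h4]
  have h6' : B x' w' = 1 := by rw [← h.symm, h6, map_one]
  obtain ⟨c, hc'⟩ := h.exists_trace_eq (s := s - B x' x') (by rw [map_sub, hs, h.self_fixed])
  obtain ⟨a, ha⟩ := h.exists_norm_eq (μ := s⁻¹) (by rw [map_inv₀, hs])
  set u := a • (x' + c • w') with hu
  have h7 : B u u = 1 := by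
    simp only [hu, map_smul, LinearMap.map_smulₛₗ, LinearMap.smul_apply, smul_eq_mul, map_add,
      LinearMap.add_apply, h6, h6', h0]
    have : a * σ a * s = 1 := by rw [ha, inv_mul_cancel₀ hs0]
    linear_combination a * σ a * hc' + this
  have h8 : B v u = 0 := by simp [hu, h4, h5]
  have h9 : B u w = σ a := by
    rw [show w = w' + B v w • v by simp [hw'], map_add, (B u).map_smul, h.eq_zero_comm.1 h8]
    simp [hu, LinearMap.map_smulₛₗ, h6', h0]
  obtain ⟨y, hy⟩ := exists_isI h hn e h7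
  have c1 := (h1.commute_iff h h2 hy).2 (.inr h8)
  by_cases hc2 : Commute y t'
  · exact ⟨y, y, hy.ne_one h hn h2, hy.mul_self, hy.ne_one h hn h2, hy.mul_self, c1, .refl _, hc2⟩
  obtain ⟨z, hz, hz2, c2, c3⟩ := (hy.exists_common_iff h hn h2 h1' hc2).2 (by
    have h10 : B w u = a := by rw [← h.symm, h9, h.invol]
    simp only [map_sub, map_smul, LinearMap.map_smulₛₗ, LinearMap.sub_apply, LinearMap.smul_apply,
      smul_eq_mul, h7, h1'.1, h9, h10, h.invol]
    intro h11
    exact hs1 (inv_eq_one.1 (by rw [← ha]; linear_combination -h11)))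
  exact ⟨y, z, hy.ne_one h hn h2, hy.mul_self, hz, hz2, c1, c2, c3⟩

end Cfsg.Lib.Unitary
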