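import Cfsg.Agent.Lib.Unitary.Parab
import Cfsg.Agent.Lib.Unitary.Eichler
import Cfsg.Agent.Lib.Sz.Weights

/-!
# The Landazuri–Seitz bound for the unitary groups
-/

namespace Cfsg.Lib.Unitary

open Module Cfsg.Lib.Sz

set_option linter.unusedSectionVars false

variable {F V : Type*} [Field F] [AddCommGroup V] [Module F V] {σ : F →+* F} {q : ℕ}

theorem card_fiber [Finite F] [FiniteDimensional F V] {l : V →ₗ[F] F} {v : V} (hv : l v = 1)
    (c : F) : Nat.card {x // l x = c} = Nat.card F ^ (finrank F V - 1) := by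
  have h1 := l.finrank_range_add_finrank_ker
  rw [LinearMap.range_eq_top.2 fun a => ⟨a • v, by simp [hv]⟩, finrank_top, finrank_self] at h1
  rw [← h1, Nat.add_sub_cancel_left, ← Module.natCard_eq_pow_finrank]
  exact Nat.card_congr ⟨fun x => ⟨x.1 - c • v, by simp [x.2, hv]⟩,
    fun x => ⟨x.1 + c • v, by simp [LinearMap.mem_ker.1 x.2, hv]⟩, fun x => by simp, fun x => by simp⟩

theorem exists_dual_one_zero {p : Submodule F V} {v : V} (hv : v ∉ p) :
    ∃ φ : V →ₗ[F] F, φ v = 1 ∧ ∀ x ∈ p, φ x = 0 := by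
  obtain ⟨φ, h1, h2⟩ := (0 : p →ₗ[F] F).exists_extend_of_notMem hv 1
  exact ⟨φ, h2, fun x hx => LinearMap.congr_fun h1 ⟨x, hx⟩⟩

/-- A character of the group of "hermitian forms". -/
structure IsW (σ : F →+* F) (μ : V × V → ℂ) : Prop where
  add : ∀ u x y, μ (u, x) * μ (u, y) = μ (u, x + y)
  swap : ∀ u x, μ (x, u) = μ (u, -x)
  smul : ∀ (a : F) u x, μ (a • u, x) = μ (u, σ a • x)
  ne : ∀ p, μ p ≠ 0

namespace IsW

variable {μ : V × V → ℂ} (h : IsW σ μ)
include h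

theorem zero (u : V) : μ (u, 0) = 1 :=
  mul_left_cancel₀ (h.ne (u, 0)) (by rw [h.add, add_zero, mul_one])

theorem add' (u u' x : V) : μ (u + u', x) = μ (u, x) * μ (u', x) := by
  rw [h.swap x, h.swap x u, h.swap x u', h.add, neg_add]

theorem inj {v : V} {c : F} (hc : μ (v, c • v) ≠ 1) {s t : F}
    (e : ∀ a, μ (v, (s * a) • v) = μ (v, (t * a) • v)) : s = t :=
  eq_of_forall_char (χ := fun a : F => μ (v, a • v)) (fun a b => by rw [h.add, add_smul])
    (fun _ => h.ne _) hc e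

theorem exists_phi [Finite F] {v : V} {c : F} (hc : μ (v, c • v) ≠ 1) :
    ∃ φ : V →ₗ[F] F, φ v = 1 ∧ ∀ x, μ (v, x) = μ (v, φ x • v) := by
  classical
  have := Fintype.ofFinite F
  let χ : V → AddChar F ℂ := fun x => ⟨fun a => μ (v, a • x), by simp [h.zero],
    fun a b => by rw [h.add, add_smul]⟩
  have h1 : Function.Bijective (χ v).mulShift := by
    rw [Fintype.bijective_iff_injective_and_card]
    exact ⟨fun s t e => h.inj hc fun a => DFunLike.congr_fun e a, AddChar.card_eq.symm⟩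
  choose φ hφ using fun x => h1.2 (χ x)
  replace hφ : ∀ x a, μ (v, (φ x * a) • v) = μ (v, a • x) := fun x a => DFunLike.congr_fun (hφ x) a
  refine ⟨⟨⟨φ, fun x y => h.inj hc fun a => ?_⟩, fun b x => h.inj hc fun a => ?_⟩,
    h.inj hc fun a => by rw [one_mul]; exact hφ v a, fun x => by simpa using (hφ x 1).symm⟩
  · rw [hφ, add_mul, add_smul, ← h.add, hφ, hφ, h.add, smul_add]
  · simp only [RingHom.id_apply, smul_eq_mul]
    rw [hφ, mul_comm b, mul_assoc, hφ, smul_smul, mul_comm]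

theorem phi_eq {v : V} {c : F} (hc : μ (v, c • v) ≠ 1) {φ φ' : V →ₗ[F] F}
    (e : ∀ x, μ (v, x) = μ (v, φ x • v)) (e' : ∀ x, μ (v, x) = μ (v, φ' x • v)) : φ = φ' :=
  LinearMap.ext fun x => h.inj hc fun a => by
    rw [mul_comm, mul_comm (φ' x), ← smul_eq_mul, ← smul_eq_mul, ← map_smul, ← map_smul, ← e, ← e']

theorem card_le [FiniteDimensional F V] (hσ : IsBar q σ) {v : V} {c : F} (hc : μ (v, c • v) ≠ 1) :
    Nat.card {u // ∀ a : F, μ (u, a • u) = μ (v, a • v)} ≤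
      (q + 1) * Nat.card F ^ (finrank F V - 1) := by
  classical
  have := hσ.finite
  have : Finite V := Module.finite_of_finite F
  have := Fintype.ofFinite V
  have := Fintype.ofFinite F
  obtain ⟨φ, h1, h2⟩ := h.exists_phi hc
  have h3 : ∀ (b : F) x, φ x = 0 → ∀ a : F, μ (b • v + x, a • (b • v + x)) =
      μ (v, (b * σ b * a) • v) * μ (x, a • x) := fun b x hx a => by
    rw [h.add', smul_add, ← h.add, ← h.add, h.smul, h.smul, h2 (σ b • a • x), h.swap _ x,
      smul_smul a, h.smul, h2 (σ (a * b) • -x), smul_smul]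
    simp [hx, h.zero, mul_comm, mul_left_comm, mul_assoc]
  rw [← card_fiber h1 0, Nat.card_eq_fintype_card, Nat.card_eq_fintype_card, Fintype.card_subtype,
    Fintype.card_subtype]
  refine Finset.card_le_mul_card_image_of_maps_to (f := fun u => u - φ u • v)
    (fun u _ => by simp [h1]) _ fun x hx => ?_
  rcases Finset.eq_empty_or_nonempty {a ∈ ({u | ∀ a : F, μ (u, a • u) = μ (v, a • v)} : Finset V) |
    a - φ a • v = x} with h4 | ⟨u, hu⟩
  · simp [h4]
  simp only [Finset.mem_filter, Finset.mem_univ, true_and] at hu hx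
  have h5 : (Finset.univ.filter fun b : F => b * σ b = φ u * σ (φ u)).card ≤ q + 1 := by
    rcases eq_or_ne (φ u * σ (φ u)) 0 with h0 | h0
    · rw [h0]
      exact (Finset.card_le_one.2 fun a ha b hb => by simp_all).trans (by omega)
    · rw [← Fintype.card_subtype, ← Nat.card_eq_fintype_card,
        hσ.card_norm_eq h0 (by rw [map_mul, hσ.invol, mul_comm])]
  refine le_trans (Finset.card_le_card_of_injOn φ (fun w hw => ?_) fun w hw w' hw' e => ?_) h5
  · simp only [Finset.coe_filter, Finset.mem_filter, Finset.mem_univ, true_and,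
      Set.mem_setOf_eq] at hw ⊢
    refine h.inj hc fun a => mul_right_cancel₀ (h.ne (x, a • x)) ?_
    rw [← h3 _ x hx, ← h3 _ x hx]
    nth_rw 1 2 [← hw.2]
    rw [← hu.2, add_sub_cancel, add_sub_cancel, hw.1, hu.1]
  · simp only [Finset.coe_filter, Set.mem_setOf_eq] at hw hw'
    have := hw.2.trans hw'.2.symm
    rwa [e, sub_left_inj] at this

end IsW

variable {B : V →ₛₗ[σ] V →ₗ[F] F} [FiniteDimensional F V] (h : IsHerm σ B) {P : Submodule F V}
  (hP : P ≤ perp B P)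

/-- The elements of the centre of the unipotent radical. -/
noncomputable def IsHerm.zE (p : P × P) : SUG B :=
  ⟨eichler B p.1 p.2 0 (hP p.1.2 _ p.1.2) (hP p.2.2 _ p.1.2) (hP p.1.2 _ p.2.2),
    h.eichler_mem_SUG _ _ _ (by simpa using hP p.2.2 _ p.2.2)⟩

theorem IsHerm.zE_apply (p : P × P) (y : V) :
    (h.zE hP p).1 y = y + B p.1 y • p.2.1 - B p.2 y • p.1.1 := by
  simp [IsHerm.zE, eichler_apply]

include hP in
theorem B_P (x y : P) : B x y = 0 := hP y.2 _ x.2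

namespace IsHerm

variable {M : Type*} [AddCommGroup M] [Module ℂ M] [FiniteDimensional ℂ M]
  (ρ : SUG B →* End ℂ M)

theorem zE_conj {g : SUG B} {a : P → P} (ha : ∀ x : P, g.1 x = a x) (p : P × P) :
    h.zE hP (a p.1, a p.2) * g = g * h.zE hP p :=
  Subtype.ext (LinearEquiv.ext fun y => by
    simp [zE_apply, ← ha, SUG_le_UG g.2 _ y])

theorem zE_comm (p p' : P × P) : h.zE hP p * h.zE hP p' = h.zE hP p' * h.zE hP p :=
  h.zE_conj hP (a := id) (fun x => by simp [zE_apply, B_P hP]) p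

theorem isW {μ : P × P → ℂ} {w : M} (hw : w ∈ wt (fun p => ρ (h.zE hP p)) μ) (h0 : w ≠ 0) :
    IsW σ μ where
  add u x y := wt_mul ρ hw h0 (Subtype.ext (LinearEquiv.ext fun v => by
    simp [zE_apply, B_P hP]; module))
  swap u x := smul_left_injective ℂ h0 (by
    simp only [← hw _]
    congr 2
    exact Subtype.ext (LinearEquiv.ext fun v => by simp [zE_apply]; module))
  smul a u x := smul_left_injective ℂ h0 (by
    simp only [← hw _]
    congr 2
    exact Subtype.ext (LinearEquiv.ext fun v => by simp [zE_apply, h.invol]; module))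
  ne := wt_ne_zero ρ hw h0

/-- The Heisenberg group acting on a weight space. -/
theorem le_finrank_wt (hσ : IsBar q σ) {z : V} (hz : z ∈ perp B P) (hz' : B z z ≠ 0)
    {μ : P × P → ℂ} {w : M} (hw : w ∈ wt (fun p => ρ (h.zE hP p)) μ) (h0 : w ≠ 0) {v : P} {c : F}
    (hc : μ (v, c • v) ≠ 1) : q ≤ finrank ℂ (wt (fun p => ρ (h.zE hP p)) μ) := by
  have := hσ.finite
  have hW := h.isW hP ρ hw h0
  have h1 : B v z = 0 := hz _ v.2
  have h2 : B z v = 0 := h.eq_zero_comm.1 h1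
  choose γ hγ using fun a : F => h.exists_eichler_param (a • z)
  let y : F → SUG B := fun a => ⟨eichler B v (a • z) (γ a) (B_P hP v v) (by simp [h1])
    (by simp [h2]), h.eichler_mem_SUG _ _ _ (hγ a)⟩
  have hy : ∀ a (x : P), (y a).1 x = x := fun a x => by
    simp [y, eichler_apply, B_P hP, h.eq_zero_comm.1 (hz _ x.2)]
  set W := wt (fun p => ρ (h.zE hP p)) μ
  have h3 : ∀ g : SUG B, (∀ x : P, g.1 x = x) → ∀ w ∈ W, ρ g w ∈ W := fun g hg w hw =>
    apply_mem_wt ρ hw (s := id) fun p => h.zE_conj hP (a := id) hg p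
  have h4 : ∀ a (x : P), (y a)⁻¹.1 x = x := fun a x => (y a).1.symm_apply_eq.2 (hy a x).symm
  let T : F → End ℂ W := fun a => (ρ (y a)).restrict (h3 _ (hy a))
  let T' : F → End ℂ W := fun a => (ρ (y a)⁻¹).restrict (h3 _ (h4 a))
  have h5 : ∀ a b, y b * y a = y a * h.zE hP (v, (σ a * B z z * b) • v) * y b := fun a b =>
    Subtype.ext (LinearEquiv.ext fun x => by
      simp [y, zE_apply, eichler_apply, B_P hP, h1, h2, h.invol, h.self_fixed]; module)
  have h6 : ∀ a, T a ∈ wt (fun b => LinearMap.mulLeftRight ℂ (T b, T' b))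
      fun b => μ (v, (σ a * B z z * b) • v) := fun a b => LinearMap.ext fun w => Subtype.ext (by
    change ρ _ (ρ _ (ρ _ w)) = _ • ρ _ w
    rw [← End.mul_apply, ← End.mul_apply, ← map_mul, ← map_mul, h5, mul_inv_cancel_right, map_mul,
      End.mul_apply, w.2, map_smul])
  have h7 := card_le_finrank _ (J := F) (fun a a' e => hσ.bijective.1
    (mul_right_cancel₀ hz' (hW.inj hc (congrFun e)))) fun a => ⟨_, h6 a, fun e =>
      h0 (apply_injective ρ (y a)
        ((congrArg Subtype.val (LinearMap.congr_fun e ⟨w, hw⟩)).trans (map_zero _).symm))⟩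
  rw [finrank_linearMap, ← sq, hσ.card] at h7
  exact (Nat.pow_le_pow_iff_left two_ne_zero).1 h7

include h hP

theorem exists_E (u : P) {φ : P →ₗ[F] F} (hφ : φ u = 0) :
    ∃ g ∈ SUG B, ∀ x : P, g x = x + φ x • u := by
  obtain ⟨ψ, hψ⟩ := φ.exists_extend
  obtain ⟨f, hf⟩ := h.exists_eq (-ψ)
  replace hf : ∀ x : P, B f x = -φ x := fun x => by rw [hf, ← hψ]; rfl
  have h1 : B f u = 0 := by simp [hf, hφ]
  obtain ⟨γ, hγ⟩ := h.exists_eichler_param f
  exact ⟨_, h.eichler_mem_SUG (B_P hP u u) (h.eq_zero_comm.1 h1) h1 hγ,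
    fun x => by simp [eichler_apply, B_P hP, hf]⟩

/-- Transitivity on the non-zero vectors of `P`. -/
theorem exists_move [Finite F] (hn : 3 ≤ finrank F V) {u v : P} (hu : u ≠ 0) (hv : v ≠ 0) :
    ∃ g ∈ SUG B, (∀ x : P, g x ∈ P) ∧ g v = u := by
  have h1 : ∀ u v : P, u ∉ F ∙ v → v ≠ 0 → ∃ g ∈ SUG B, (∀ x : P, g x ∈ P) ∧ g v = u :=
    fun u v hu hv => by
      obtain ⟨φ, h2, h3⟩ := exists_dual_one_zero (p := F ∙ (u - v)) (v := v) fun h2 => by
        obtain ⟨a, ha⟩ := Submodule.mem_span_singleton.1 h2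
        have h3 : a ≠ 0 := by rintro rfl; simp [hv.symm] at ha
        rw [← Submodule.smul_mem_iff _ h3, show a • u = (a + 1) • v by
          rw [add_smul, one_smul]; nth_rw 2 [← ha]; module] at hu
        exact hu (Submodule.smul_mem _ _ (Submodule.mem_span_singleton_self v))
      obtain ⟨g, hg, h4⟩ := h.exists_E hP (u - v) (h3 _ (Submodule.mem_span_singleton_self _))
      exact ⟨g, hg, fun x => by rw [h4]; exact add_mem x.2 (Submodule.smul_mem _ _ (u - v).2),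
        by simp [h4, h2]⟩
  by_cases h2 : ∀ w : P, w ∈ F ∙ v
  · obtain ⟨g, hg, h3⟩ := h.exists_SUG_vec hn (u := v) (u' := u) (by simpa) (by simpa)
      (by rw [B_P hP, B_P hP])
    refine ⟨g, hg, fun x => ?_, h3⟩
    obtain ⟨a, rfl⟩ := Submodule.mem_span_singleton.1 (h2 x)
    simpa [h3] using P.smul_mem a u.2
  by_cases h3 : u ∈ F ∙ v
  swap
  · exact h1 u v h3 hv
  push Not at h2
  obtain ⟨w, hw⟩ := h2
  have hw0 : w ≠ 0 := by rintro rfl; exact hw (zero_mem _)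
  obtain ⟨g, hg, h4, h5⟩ := h1 w v hw hv
  obtain ⟨k, hk, h6, h7⟩ := h1 u w (fun h6 => by
    obtain ⟨a, rfl⟩ := Submodule.mem_span_singleton.1 h6
    exact hw ((Submodule.smul_mem_iff _ (left_ne_zero_of_smul hu)).1 h3)) hw0
  exact ⟨k * g, mul_mem hk hg, fun x => h6 ⟨_, h4 x⟩, by simp [h5, h7]⟩

theorem exists_move' [Finite F] (hn : 3 ≤ finrank F V) {u v : P} {φ ψ : P →ₗ[F] F} (hu : φ u = 1)
    (hv : ψ v = 1) : ∃ g : SUG B, ∃ a : P →ₗ[F] P, (∀ x : P, g.1 x = a x) ∧ a u = v ∧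
      ∀ x, ψ (a x) = φ x := by
  obtain ⟨g, hg, h1, h2⟩ := h.exists_move hP hn (u := v) (v := u) (by rintro rfl; simp at hv)
    (by rintro rfl; simp at hu)
  let a : P →ₗ[F] P := g.toLinearMap.restrict fun x hx => h1 ⟨x, hx⟩
  have h3 : a u = v := Subtype.ext h2
  obtain ⟨k, hk, h4⟩ := h.exists_E hP u (φ := φ - ψ ∘ₗ a) (by simp [hu, h3, hv])
  refine ⟨⟨g * k, mul_mem hg hk⟩, a ∘ₗ (1 + (φ - ψ ∘ₗ a).smulRight u), fun x => ?_,
    by simp [hu, h3, hv], fun x => by simp [h3, hv]⟩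
  simp [h4, a]

theorem card_le_finrank_rep (hσ : IsBar q σ) (hn : 3 ≤ finrank F V) {d : ℕ}
    (hd : ∀ μ w, w ∈ wt (fun p => ρ (h.zE hP p)) μ → w ≠ 0 → ∀ (v : P) (c : F), μ (v, c • v) ≠ 1 →
      d ≤ finrank ℂ (wt (fun p => ρ (h.zE hP p)) μ))
    {v : P} {c : F} (hc : ρ (h.zE hP (v, c • v)) ≠ 1) :
    (Nat.card F ^ finrank F P - 1) * d ≤ (q + 1) * finrank ℂ M := by
  classical
  have := hσ.finite
  have : Finite V := Module.finite_of_finite F
  have : Finite (P →ₗ[F] F) := DFunLike.finite _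
  have : Finite (V ≃ₗ[F] V) := DFunLike.finite _
  obtain ⟨μ, h1, w, hw, h0⟩ := exists_wt_ne_one (f := fun p => ρ (h.zE hP p))
    (fun i j => by rw [← map_mul, ← map_mul, zE_comm]) hc (n := Nat.card (SUG B))
    (by simpa using Nat.card_pos.ne') (by rw [← map_pow, pow_card_eq_one', map_one])
  obtain ⟨ψ, h2, h3⟩ := (h.isW hP ρ hw h0).exists_phi h1
  have h4 : ∀ y : Σ u : P, {φ : P →ₗ[F] F // φ u = 1}, ∃ ν, (∃ w ∈ wt (fun p => ρ (h.zE hP p)) ν,
      w ≠ 0) ∧ (∀ a : F, ν (y.1, a • y.1) = μ (v, a • v)) ∧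
      ∀ x, ν (y.1, x) = ν (y.1, y.2.1 x • y.1) := fun ⟨u, φ, hφ⟩ => by
    obtain ⟨g, a, h4, h5, h6⟩ := h.exists_move' hP hn hφ h2
    refine ⟨fun p => μ (a p.1, a p.2), ⟨_, apply_mem_wt ρ hw (g := g⁻¹) fun p => ?_, fun e =>
      h0 (apply_injective ρ _ (e.trans (map_zero _).symm))⟩, fun b => by simp [h5],
      fun x => by simp [h5, h3 (a x), h6]⟩
    rw [eq_inv_mul_iff_mul_eq, ← mul_assoc, ← h.zE_conj hP h4, mul_inv_cancel_right]
  choose ν h4 h5 h6 using h4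
  have := Fintype.ofFinite P
  have := Fintype.ofFinite (P →ₗ[F] F)
  have h7 := card_mul_le_finrank (fun p => ρ (h.zE hP p)) (J := Set.range ν) Subtype.val_injective
    (d := d) fun ⟨_, y, rfl⟩ => by
      obtain ⟨w, h7, h8⟩ := h4 y
      exact hd _ w h7 h8 y.1 c ((h5 y c).trans_ne h1)
  have h8 : (Nat.card F ^ finrank F P - 1) * Nat.card F ^ (finrank F P - 1) ≤
      Fintype.card (Σ u : P, {φ : P →ₗ[F] F // φ u = 1}) := by
    rw [Fintype.card_sigma, ← Module.natCard_eq_pow_finrank, Nat.card_eq_fintype_card,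
      ← Finset.card_univ, ← Finset.card_erase_of_mem (Finset.mem_univ 0), ← smul_eq_mul]
    refine (Finset.card_nsmul_le_sum _ _ _ fun u hu => ?_).trans
      (Finset.sum_le_sum_of_subset (Finset.erase_subset _ _))
    obtain ⟨φ, hφ, -⟩ := exists_dual_one_zero (F := F) (p := ⊥) (Finset.ne_of_mem_erase hu)
    rw [← Nat.card_eq_fintype_card, ← Subspace.dual_finrank_eq]
    exact (card_fiber (l := Module.Dual.eval F P u) hφ 1).ge
  have h9 : Fintype.card (Σ u : P, {φ : P →ₗ[F] F // φ u = 1}) ≤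
      ((q + 1) * Nat.card F ^ (finrank F P - 1)) * Nat.card (Set.range ν) := by
    rw [Nat.card_coe_set_eq, ← Set.image_univ, ← Finset.coe_univ, ← Finset.coe_image,
      Set.ncard_coe_finset]
    refine Finset.card_le_mul_card_image _ _ fun _ hy => ?_
    obtain ⟨y, -, rfl⟩ := Finset.mem_image.1 hy
    obtain ⟨w, h9, h10⟩ := h4 y
    have hW := h.isW hP ρ h9 h10
    refine le_trans ?_ (hW.card_le hσ (v := y.1) (c := c) (by rwa [h5]))
    rw [← Fintype.card_subtype, ← Nat.card_eq_fintype_card]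
    refine Nat.card_le_card_of_injective (fun x => ⟨x.1.1, fun a => by
      rw [h5, ← h5 x.1, x.2]⟩) ?_
    rintro ⟨⟨u, φ⟩, e⟩ ⟨⟨u', φ'⟩, e'⟩ h11
    obtain rfl : u = u' := congrArg Subtype.val h11
    obtain rfl : φ = φ' := Subtype.ext (hW.phi_eq (v := u) (c := c)
      (by rw [← e, h5 ⟨u, φ⟩]; exact h1) (e ▸ h6 ⟨u, φ⟩) (e' ▸ h6 ⟨u, φ'⟩))
    rfl
  have h10 : (Nat.card F ^ finrank F P - 1) ≤ (q + 1) * Nat.card (Set.range ν) :=
    Nat.le_of_mul_le_mul_right (by linarith) (Nat.pow_pos (n := finrank F P - 1) Nat.card_pos)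
  calc _ ≤ (q + 1) * Nat.card (Set.range ν) * d := Nat.mul_le_mul_right _ h10
    _ ≤ _ := by rw [mul_assoc]; exact Nat.mul_le_mul_left _ h7

theorem exists_ne_one (hσ : IsBar q σ) (hn : 3 ≤ finrank F V) (h32 : ¬ (finrank F V = 3 ∧ q = 2))
    (hρ : ρ ≠ 1) (h0 : P ≠ ⊥) : ∃ (v : P) (c : F), ρ (h.zE hP (v, c • v)) ≠ 1 := by
  have := hσ.finite
  by_contra! h1
  obtain ⟨v, hv, hv0⟩ := Submodule.exists_mem_ne_zero_of_ne_bot h0
  obtain ⟨c, hc⟩ := hσ.exists_ne
  have h2 : c - σ c + σ (c - σ c) = 0 := by simp [h.invol]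
  have h3 : (h.zE hP (⟨v, hv⟩, c • ⟨v, hv⟩)).1 = transv B v _ (hP hv _ hv) h2 :=
    LinearEquiv.ext fun x => by simp [zE_apply]; module
  have h4 : TG B ≤ ρ.ker.map (SUG B).subtype := TG_le fun u d hu hd => by
    refine ⟨⟨_, h.transv_mem_SUG u d hu hd⟩, ?_, rfl⟩
    by_cases h4 : u = 0 ∨ d = 0
    · rw [show (⟨_, h.transv_mem_SUG u d hu hd⟩ : SUG B) = 1 from
        Subtype.ext (LinearEquiv.ext fun x => by rcases h4 with h4 | h4 <;> simp [h4])]
      exact one_mem _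
    push Not at h4
    obtain ⟨g, hg, h5⟩ := h.exists_conj_transv hn (hP hv _ hv) h2 hu hd hv0
      (sub_ne_zero.2 hc.symm) h4.1 h4.2
    rw [show (⟨_, h.transv_mem_SUG u d hu hd⟩ : SUG B) = ⟨g, hg⟩ * h.zE hP (⟨v, hv⟩, c • ⟨v, hv⟩) *
      ⟨g, hg⟩⁻¹ from Subtype.ext (h5.symm.trans (by rw [← h3]; rfl))]
    exact ρ.normal_ker.conj_mem _ (h1 ⟨v, hv⟩ c) ⟨g, hg⟩
  refine hρ (MonoidHom.ext fun g => ?_)
  obtain ⟨k, hk, e⟩ := h4 ((h.TG_eq_SUG hσ h32).ge g.2)
  rwa [← show k = g from Subtype.ext e]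

omit hP in
/-- The Landazuri–Seitz bound. -/
theorem minDeg (hσ : IsBar q σ) (hn : 3 ≤ finrank F V) (h32 : ¬ (finrank F V = 3 ∧ q = 2))
    (hρ : ρ ≠ 1) : ((q ^ 2) ^ (finrank F V / 2) - 1) * q ^ (finrank F V % 2) ≤
      (q + 1) * finrank ℂ M := by
  have := hσ.finite
  obtain ⟨P, h1, hP⟩ := h.exists_totIso (k := finrank F V / 2) (by omega)
  obtain ⟨v, c, hc⟩ := h.exists_ne_one hP ρ hσ hn h32 hρ fun e => by
    rw [e, finrank_bot] at h1; omega
  rw [← h1, ← hσ.card]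
  refine h.card_le_finrank_rep hP ρ hσ hn (fun μ w hw h0 v c hc => ?_) hc
  rcases Nat.mod_two_eq_zero_or_one (finrank F V) with h2 | h2
  · rw [h2, pow_zero]
    exact Nat.pos_of_ne_zero fun e =>
      (Submodule.ne_bot_iff _).2 ⟨w, hw, h0⟩ (Submodule.finrank_eq_zero.1 e)
  · obtain ⟨z, hz, hz'⟩ := h.exists_nonisotropic_perp_of_finrank (W := P) (by omega)
    rw [h2, pow_one]
    exact h.le_finrank_wt hP ρ hσ hz hz' hw h0 hc

end IsHerm

theorem minDeg_SU [Fintype F] {n : ℕ} (hF : Fintype.card F = q ^ 2) (hn : 3 ≤ n)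
    (h32 : ¬ (n = 3 ∧ q = 2)) {k : ℕ} (ρ : Representation ℂ (SU n F q) (Fin k → ℂ))
    (hρ : ρ.IsIrreducible) (hk : 2 ≤ k) : ((q ^ 2) ^ (n / 2) - 1) * q ^ (n % 2) ≤ (q + 1) * k := by
  obtain ⟨σ, hσ⟩ := exists_isBar hF
  have := (hσ.isHerm (ι := Fin n)).minDeg (MonoidHom.comp ρ (hσ.suEquiv n).symm.toMonoidHom) hσ
    (by simpa) (by simpa using h32) fun e => ?_
  · simpa using this
  have h1 : ∀ g, ρ g = 1 := fun g => by simpa using DFunLike.congr_fun e (hσ.suEquiv n g)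
  have := Module.nontrivial_of_finrank_pos (R := ℂ) (M := Fin k → ℂ) (by simp; omega)
  obtain ⟨v, hv⟩ := exists_ne (0 : Fin k → ℂ)
  rcases hρ.eq_bot_or_eq_top ⟨ℂ ∙ v, fun g w hw => by rwa [h1]⟩ with h3 | h3
  · exact hv (Submodule.span_singleton_eq_bot.1 (congrArg Subrepresentation.toSubmodule h3))
  · have h4 : (ℂ ∙ v) = ⊤ := congrArg Subrepresentation.toSubmodule h3
    have := finrank_span_singleton (K := ℂ) hv
    rw [h4, finrank_top] at this
    simp at this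
    omega

end Cfsg.Lib.Unitary
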