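import Mathlib
import Cfsg.Prelude.Def_PLocal
import Cfsg.Prelude.Def_LocalEven
import Cfsg.Agent.Lib.Unitary.TI

/-!
# `Qd(p)` is not involved in a group with TI Sylow `p`-subgroups
-/

namespace Cfsg.Lib.Unitary

open Matrix

theorem pow_eq_one_of_sq {p : ℕ} [Fact p.Prime] {g : qd p} (N : Matrix (Fin 3) (Fin 3) (ZMod p))
    (h1 : g.1.1 = 1 + N) (h2 : N * N = 0) : g ^ p = 1 := by
  have : ∀ n : ℕ, (1 + N) ^ n = 1 + (n : ZMod p) • N := fun n => by
    induction n with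
    | zero => simp
    | succ n ih => simp [pow_succ, ih, add_mul, mul_add, h2, add_smul, add_assoc, add_comm N]
  refine Subtype.ext (Subtype.ext ?_)
  simp [h1, this]

theorem not_sylowTI_qd {p : ℕ} [Fact p.Prime] (hp : p ≠ 2) : ¬ SylowTI p (qd p) := by
  intro h
  obtain ⟨mk, hmk⟩ : ∃ mk : ∀ a b c d : ZMod p, a * d = 0 → qd p, ∀ a b c d e,
      (mk a b c d e).1.1 = !![1, a, b; d, 1, c; 0, 0, 1] :=
    ⟨fun a b c d e => ⟨⟨!![1, a, b; d, 1, c; 0, 0, 1], by simp [det_fin_three, e]⟩,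
      Subgroup.subset_closure ⟨rfl, rfl, rfl⟩⟩, fun _ _ _ _ _ => rfl⟩
  have ext' : ∀ {a b : qd p}, a.1.1 = b.1.1 → a = b := fun e => Subtype.ext (Subtype.ext e)
  have hmul : ∀ a b : qd p, (a * b).1.1 = a.1.1 * b.1.1 := fun _ _ => rfl
  obtain ⟨k, hk⟩ := h.exists_pow_mul (x := mk 1 0 0 0 (by simp)) (y := mk 0 1 0 0 (by simp))
    (y' := mk 0 0 1 0 (by simp)) (z := mk 0 0 0 (-2) (by simp))
    (pow_eq_one_of_sq !![0, 1, 0; 0, 0, 0; 0, 0, 0]
      (by ext i j; fin_cases i <;> fin_cases j <;> simp [hmk])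
      (by ext i j; fin_cases i <;> fin_cases j <;> simp))
    (pow_eq_one_of_sq !![0, 0, 1; 0, 0, 0; 0, 0, 0]
      (by ext i j; fin_cases i <;> fin_cases j <;> simp [hmk])
      (by ext i j; fin_cases i <;> fin_cases j <;> simp))
    (pow_eq_one_of_sq !![0, 0, 0; 0, 0, 1; 0, 0, 0]
      (by ext i j; fin_cases i <;> fin_cases j <;> simp [hmk])
      (by ext i j; fin_cases i <;> fin_cases j <;> simp))
    (pow_eq_one_of_sq !![0, 0, 0; -2, 0, 0; 0, 0, 0]
      (by ext i j; fin_cases i <;> fin_cases j <;> simp [hmk])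
      (by ext i j; fin_cases i <;> fin_cases j <;> simp))
    (fun e => by simpa [hmk] using congrArg (fun g : qd p => g.1.1 0 2) e)
    (fun e => by simpa [hmk] using congrArg (fun g : qd p => g.1.1 1 2) e)
    (ext' (by rw [hmul, hmul]; simp [hmk])) (ext' (by rw [hmul, hmul]; simp [hmk]))
    (ext' (by rw [hmul, hmul]; simp [hmk]))
  set u := mk 1 0 0 0 (by simp) * mk 0 0 0 (-2) (by simp) with hu
  have h1 : u.1.1 = !![-1, 1, 0; -2, 1, 0; 0, 0, 1] := by
    rw [hu, hmul]; simp [hmk]; norm_num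
  have h2 : (u * u).1.1 = !![-1, 0, 0; 0, -1, 0; 0, 0, 1] := by
    rw [hmul]; simp [h1]; norm_num
  have h3 : u ^ 2 ^ 2 = 1 := by
    rw [show u ^ 2 ^ 2 = (u * u) * (u * u) by simp [pow_succ, mul_assoc]]
    refine ext' ?_
    rw [hmul, h2]
    simp [one_fin_three]
  have h4 : (2 ^ 2).Coprime (p ^ k) :=
    Nat.Coprime.pow _ _ ((Nat.coprime_primes Nat.prime_two Fact.out).mpr hp.symm)
  have h5 : orderOf u = 1 := Nat.eq_one_of_dvd_coprimes h4 (orderOf_dvd_of_pow_eq_one h3)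
    (orderOf_dvd_of_pow_eq_one hk)
  rw [orderOf_eq_one_iff.mp h5] at h1
  simpa using congrFun (congrFun h1 0) 1

theorem SylowTI.not_involves_qd {G : Type*} [Group G] [Finite G] {p : ℕ} [Fact p.Prime]
    (h : SylowTI p G) (hp : p ≠ 2) : ¬ Involves (qd p) G := by
  rintro ⟨K, R, _, ⟨e⟩⟩
  exact not_sylowTI_qd hp (h.of_section K _ e)

end Cfsg.Lib.Unitary
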