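import Cfsg.Agent.Lib.Unitary.MaxCore
import Cfsg.Agent.Lib.Unitary.CentU
import Cfsg.Agent.Lib.Linear.RegCyc

/-!
# Regular unipotent unitary elements: the Jordan chain
-/

set_option autoImplicit false

namespace Cfsg.Lib.Unitary

open Module

variable {F V : Type*} [Field F] [AddCommGroup V] [Module F V] {σ : F →+* F}
  {B : V →ₛₗ[σ] V →ₗ[F] F} {q : ℕ}

/-- The Jordan chain of `x` under `u - 1`. -/
def ch (u : V ≃ₗ[F] V) (x : V) (k : ℕ) : V := ((((u : V →ₗ[F] V) : End F V) - 1) ^ k) x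

@[simp] theorem ch_zero (u : V ≃ₗ[F] V) (x : V) : ch u x 0 = x := by simp [ch]

theorem ch_succ (u : V ≃ₗ[F] V) (x : V) (k : ℕ) : ch u x (k + 1) = u (ch u x k) - ch u x k := by
  rw [ch, pow_succ', End.mul_apply]; rfl

theorem apply_ch (u : V ≃ₗ[F] V) (x : V) (k : ℕ) : u (ch u x k) = ch u x k + ch u x (k + 1) := by
  rw [ch_succ, add_sub_cancel]

theorem ch_ch (u : V ≃ₗ[F] V) (x : V) (k j : ℕ) : ch u (ch u x k) j = ch u x (j + k) := by
  rw [ch, ch, ch, pow_add, End.mul_apply]

theorem ch_add (u : V ≃ₗ[F] V) (x y : V) (k : ℕ) : ch u (x + y) k = ch u x k + ch u y k :=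
  map_add _ _ _

theorem ch_smul (u : V ≃ₗ[F] V) (c : F) (x : V) (k : ℕ) : ch u (c • x) k = c • ch u x k :=
  map_smul _ _ _

theorem ch_zero_vec (u : V ≃ₗ[F] V) (k : ℕ) : ch u (0 : V) k = 0 := map_zero _

theorem ch_eq_zero_of_le {u : V ≃ₗ[F] V} {x : V} {k j : ℕ} (h : ch u x k = 0) (hj : k ≤ j) :
    ch u x j = 0 := by rw [← Nat.sub_add_cancel hj, ← ch_ch, h, ch_zero_vec]

theorem ch_mem {u : V ≃ₗ[F] V} {Z : Submodule F V} (hZ : ∀ x ∈ Z, u x ∈ Z) {x : V}
    (hx : x ∈ Z) (k : ℕ) : ch u x k ∈ Z := by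
  induction k with
  | zero => simpa
  | succ k ih => rw [ch_succ]; exact Z.sub_mem (hZ _ ih) ih

theorem ch_conj (g u : V ≃ₗ[F] V) (x : V) (k : ℕ) : ch (g * u * g⁻¹) (g x) k = g (ch u x k) := by
  induction k with
  | zero => simp
  | succ k ih => rw [ch_succ, ih, ch_succ]; simp

theorem linearIndependent_ch {u : V ≃ₗ[F] V} {x : V} {m : ℕ} (h0 : ch u x (m + 1) = 0)
    (h1 : ch u x m ≠ 0) : LinearIndependent F fun i : Fin (m + 1) => ch u x i := by
  refine Fintype.linearIndependent_iff.2 fun a ha i => ?_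
  induction i using Fin.strong_induction_on with | _ i ih => ?_
  have := congrArg (((((u : V →ₗ[F] V) : End F V) - 1) ^ (m - i.1) : End F V)) ha
  rw [map_sum, map_zero, Finset.sum_eq_single i] at this
  · rw [map_smul] at this
    change a i • ch u (ch u x i) (m - i) = 0 at this
    rwa [ch_ch, Nat.sub_add_cancel (Nat.le_of_lt_succ i.2), smul_eq_zero_iff_left h1] at this
  · intro j _ hj
    rcases lt_or_gt_of_ne hj with h | h
    · rw [ih j h, zero_smul, map_zero]
    · rw [map_smul]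
      change a j • ch u (ch u x j) (m - i) = 0
      rw [ch_ch, ch_eq_zero_of_le h0 (by
        have := Fin.lt_def.1 h
        omega), smul_zero]
  · simp

theorem lt_finrank_of_ch [FiniteDimensional F V] {u : V ≃ₗ[F] V} {N : ℕ} (hN : ∀ x, ch u x N = 0)
    {Z : Submodule F V} (hZ : ∀ x ∈ Z, u x ∈ Z) {x : V} (hx : x ∈ Z) {j : ℕ} (hj : ch u x j ≠ 0) :
    j < finrank F Z := by
  classical
  have hex : ∃ k, ch u x k = 0 := ⟨N, hN x⟩
  obtain ⟨m, hm⟩ : ∃ m, Nat.find hex = m + 1 := Nat.exists_eq_succ_of_ne_zero fun h0 =>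
    hj (ch_eq_zero_of_le (h0 ▸ Nat.find_spec hex) (Nat.zero_le j))
  have h0 : ch u x (m + 1) = 0 := hm ▸ Nat.find_spec hex
  have h1 := linearIndependent_ch h0 (Nat.find_min hex (by omega))
  have h2 : LinearIndependent F fun i : Fin (m + 1) => (⟨ch u x i, ch_mem hZ hx i⟩ : Z) :=
    LinearIndependent.of_comp Z.subtype h1
  have h3 := h2.fintype_card_le_finrank
  rw [Fintype.card_fin] at h3
  by_contra hc
  exact hj (ch_eq_zero_of_le h0 (by omega))

/-- A regular unipotent isometry with a generator `x`. -/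
structure RgU (σ : F →+* F) (B : V →ₛₗ[σ] V →ₗ[F] F) (u : V ≃ₗ[F] V) (x : V) (N : ℕ) : Prop where
  herm : IsHerm σ B
  mem : u ∈ UG B
  dim : finrank F V = N + 1
  nil : ∀ y, ch u y (N + 1) = 0
  ne : ch u x N ≠ 0

namespace RgU

variable [FiniteDimensional F V] {u : V ≃ₗ[F] V} {x : V} {N : ℕ}

omit [FiniteDimensional F V] in
theorem top (h : RgU σ B u x N) (y : V) {k : ℕ} (hk : N < k) : ch u y k = 0 :=
  ch_eq_zero_of_le (h.nil y) hk

theorem form_eq_zero (h : RgU σ B u x N) {k : ℕ} {y : V} (hy : ch u y k = 0) (z : V) :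
    B (ch u z k) y = 0 := form_pow_eq_zero (f := (u : V →ₗ[F] V)) h.herm h.mem z hy

theorem perp (h : RgU σ B u x N) (y z : V) {i j : ℕ} (hij : N < i + j) :
    B (ch u y i) (ch u z j) = 0 := h.form_eq_zero (by rw [ch_ch, h.top z hij]) y

theorem form_top (h : RgU σ B u x N) (y z : V) {i j : ℕ} (hij : i + j = N) :
    B (ch u y i) (ch u z j) = (-1) ^ i * B y (ch u z N) := by
  have := form_pow_left (f := (u : V →ₗ[F] V)) h.herm h.mem i y (ch u z j) (by
    change ch u (ch u z j) (i + 1) = 0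
    rw [ch_ch, h.top z (by omega)])
  change B (ch u y i) _ = _ * B y (ch u (ch u z j) i) at this
  rwa [ch_ch, hij] at this

omit [FiniteDimensional F V] in
theorem ne_of_le (h : RgU σ B u x N) {k : ℕ} (hk : k ≤ N) : ch u x k ≠ 0 := fun h0 =>
  h.ne (ch_eq_zero_of_le h0 hk)

omit [FiniteDimensional F V] in
theorem fix (h : RgU σ B u x N) : u (ch u x N) = ch u x N := by
  rw [apply_ch, h.nil, add_zero]

theorem eq_top (h : RgU σ B u x N) {Z : Submodule F V} (hZ : ∀ x ∈ Z, u x ∈ Z) (hx : x ∈ Z) :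
    Z = ⊤ := by
  have := lt_finrank_of_ch h.nil hZ hx h.ne
  exact Submodule.eq_top_of_finrank_eq (le_antisymm (Submodule.finrank_le Z) (by
    rw [h.dim]; omega))

theorem eq_zero (h : RgU σ B u x N) {v : V} (hv : ∀ k : ℕ, B v ((u ^ k) x) = 0) : v = 0 := by
  let Z : Submodule F V :=
    { carrier := {y | ∀ k : ℕ, B v ((u ^ k) y) = 0}
      add_mem' := fun ha hb k => by rw [map_add, map_add, ha k, hb k, add_zero]
      zero_mem' := fun k => by rw [map_zero, map_zero]
      smul_mem' := fun c y hy k => by rw [map_smul, map_smul, hy k, smul_zero] }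
  have hZ : Z = ⊤ := h.eq_top (fun y hy k => by
    rw [← LinearEquiv.mul_apply, ← pow_succ]; exact hy _) hv
  exact h.herm.nondeg v fun y => by simpa using (hZ ▸ Submodule.mem_top : y ∈ Z) 0

theorem delta_ne (h : RgU σ B u x N) : B x (ch u x N) ≠ 0 := fun h0 => by
  refine h.ne (h.eq_zero fun k => ?_)
  induction k with
  | zero => simpa using h.herm.eq_zero_comm.1 h0
  | succ k ih => rw [pow_succ', LinearEquiv.mul_apply, ← h.fix, h.mem, ih]

omit [FiniteDimensional F V] in
theorem conj (h : RgU σ B u x N) {g : V ≃ₗ[F] V} (hg : g ∈ UG B) :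
    RgU σ B (g * u * g⁻¹) (g x) N where
  herm := h.herm
  mem := mul_mem (mul_mem hg h.mem) (inv_mem hg)
  dim := h.dim
  nil y := by rw [← g.apply_symm_apply y, ch_conj, h.nil, map_zero]
  ne := by rw [ch_conj]; exact (map_ne_zero_iff g g.injective).2 h.ne

theorem mem_of_perp (h : RgU σ B u x (N + 1)) {Z : Submodule F V} (hZ : ∀ x ∈ Z, u x ∈ Z)
    (hZ' : ∀ z ∈ Z, B (ch u x (N + 1)) z = 0) {y : V} (hy : y ∈ Z) (hy' : B (ch u x N) y ≠ 0)
    {z : V} (hz : B (ch u x (N + 1)) z = 0) : z ∈ Z := by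
  by_contra hc
  have h1 := lt_finrank_of_ch h.nil hZ hy (j := N) fun h0 => hy' (h.form_eq_zero h0 x)
  have h2 : finrank F Z < finrank F ↥(Z ⊔ Submodule.span F {z}) :=
    Submodule.finrank_lt_finrank_of_lt (lt_of_le_of_ne le_sup_left fun h3 =>
      hc (h3 ▸ Submodule.mem_sup_right (Submodule.mem_span_singleton_self z)))
  have h3 : Z ⊔ Submodule.span F {z} = ⊤ :=
    Submodule.eq_top_of_finrank_eq (le_antisymm (Submodule.finrank_le _) (by rw [h.dim]; omega))
  obtain ⟨a, ha, b, hb, hab⟩ := Submodule.mem_sup.1 (h3 ▸ Submodule.mem_top : x ∈ Z ⊔ _)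
  obtain ⟨c, rfl⟩ := Submodule.mem_span_singleton.1 hb
  refine h.delta_ne (h.herm.eq_zero_comm.1 ?_)
  nth_rewrite 2 [← hab]
  rw [map_add, map_smul, hZ' a ha, hz, smul_zero, add_zero]

omit [FiniteDimensional F V] in
theorem li_two (h : RgU σ B u x N) {i j : ℕ} (hij : i < j) (hj : j ≤ N) {a b : F}
    (hab : a • ch u x i + b • ch u x j = 0) : a = 0 ∧ b = 0 := by
  have h1 := congrArg (fun y => ch u y (N - i)) hab
  simp only [ch_add, ch_smul, ch_ch, ch_zero_vec] at h1
  rw [Nat.sub_add_cancel (by omega), h.top x (k := N - i + j) (by omega), smul_zero,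
    add_zero, smul_eq_zero_iff_left h.ne] at h1
  rw [h1, zero_smul, zero_add, smul_eq_zero_iff_left (h.ne_of_le hj)] at hab
  exact ⟨h1, hab⟩

omit [FiniteDimensional F V] in
theorem shift (h : RgU σ B u x N) (s : F) {j : ℕ} (hj : 1 ≤ j) :
    RgU σ B u (x + s • ch u x j) N ∧ ch u (x + s • ch u x j) N = ch u x N := by
  have : ch u (x + s • ch u x j) N = ch u x N := by
    rw [ch_add, ch_smul, ch_ch, h.top x (k := N + j) (by omega), smul_zero, add_zero]
  exact ⟨⟨h.herm, h.mem, h.dim, h.nil, this ▸ h.ne⟩, this⟩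

omit [FiniteDimensional F V] in
theorem form_shift (s : F) (j a b : ℕ) :
    B (ch u (x + s • ch u x j) a) (ch u (x + s • ch u x j) b) = B (ch u x a) (ch u x b) +
      s * B (ch u x a) (ch u x (b + j)) + σ s * B (ch u x (a + j)) (ch u x b) +
        σ s * s * B (ch u x (a + j)) (ch u x (b + j)) := by
  simp only [ch_add, ch_smul, ch_ch, map_add, LinearMap.add_apply, map_smul, LinearMap.map_smulₛₗ,
    LinearMap.smul_apply, smul_eq_mul]
  ring

/-- A generator with good inner products. -/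
theorem exists_good (h : RgU σ B u x (2 * N + 4)) : ∃ y, RgU σ B u y (2 * N + 4) ∧
    B y y = 0 ∧ B y (ch u y 1) = 0 ∧ B y (ch u y 2) + σ (B y (ch u y 2)) ≠ 0 := by
  have hδ : ∀ {y}, RgU σ B u y (2 * N + 4) → σ (B y (ch u y (2 * N + 4))) = B y (ch u y (2 * N + 4)) :=
    fun {y} hy => by
      have := hy.form_top y y (i := 2 * N + 4) (j := 0) rfl
      rw [hy.herm.symm, ← ch_zero u y, ch_ch, this]
      simp [pow_add, pow_mul, show (-1 : F) ^ 4 = 1 by ring]
  have ev : ∀ k : ℕ, (-1 : F) ^ (2 * k) = 1 := fun k => by simp [pow_mul]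
  obtain ⟨t, ht⟩ := h.herm.exists_trace_eq (map_one σ)
  obtain ⟨y, hy, h4⟩ : ∃ y, RgU σ B u y (2 * N + 4) ∧ B (ch u y 2) (ch u y 2) ≠ 0 := by
    by_cases h0 : B (ch u x 2) (ch u x 2) = 0
    swap
    · exact ⟨x, h, h0⟩
    rcases Nat.eq_zero_or_pos N with rfl | hN
    · rw [h.form_top x x (i := 2) (j := 2) rfl] at h0
      exact absurd (by simpa using h0) h.delta_ne
    refine ⟨_, (h.shift t (j := 2 * N) (by omega)).1, ?_⟩
    rw [form_shift, h0, h.form_top x x (by omega), h.form_top x x (by omega),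
      h.perp x x (by omega), show 2 + 2 * N = 2 * (N + 1) by ring, ev]
    convert h.delta_ne using 1
    linear_combination B x (ch u x (2 * N + 4)) * ht
  clear h
  obtain ⟨y, hy, h4, h2⟩ : ∃ y, RgU σ B u y (2 * N + 4) ∧ B (ch u y 2) (ch u y 2) ≠ 0 ∧
      B (ch u y 1) (ch u y 1) = 0 := by
    refine ⟨_, (hy.shift (t * (B (ch u y 1) (ch u y 1) / B y (ch u y (2 * N + 4))))
      (j := 2 * N + 2) (by omega)).1, ?_, ?_⟩
    · rwa [form_shift, hy.perp y y (i := 2) (j := 2 + _) (by omega),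
        hy.perp y y (i := 2 + _) (j := 2) (by omega), hy.perp y y (i := 2 + _) (by omega),
        mul_zero, mul_zero, mul_zero, add_zero, add_zero, add_zero]
    · rw [form_shift, hy.form_top y y (i := 1) (j := 1 + _) (by omega),
        hy.form_top y y (i := 1 + _) (j := 1) (by omega), hy.perp y y (i := 1 + _) (by omega),
        show 1 + (2 * N + 2) = 2 * (N + 1) + 1 by ring, pow_succ _ (2 * (N + 1)), ev, map_mul,
        map_div₀, hδ hy, hy.herm.self_fixed]
      linear_combination (-B (ch u y 1) (ch u y 1)) * ht -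
        (t + σ t) * div_mul_cancel₀ (B (ch u y 1) (ch u y 1)) hy.delta_ne
  have tr : ∀ {y}, RgU σ B u y (2 * N + 4) → ∀ k, B (ch u y k) (ch u y (k + 1)) +
      σ (B (ch u y k) (ch u y (k + 1))) + B (ch u y (k + 1)) (ch u y (k + 1)) = 0 := fun {y} hy k => by
    have := hy.mem (ch u y k) (ch u y k)
    rw [apply_ch, map_add, map_add, LinearMap.add_apply, LinearMap.add_apply] at this
    rw [hy.herm.symm]
    linear_combination this
  obtain ⟨y, hy, h4, h2, h1⟩ : ∃ y, RgU σ B u y (2 * N + 4) ∧ B (ch u y 2) (ch u y 2) ≠ 0 ∧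
      B (ch u y 1) (ch u y 1) = 0 ∧ B (ch u y 0) (ch u y 1) = 0 := by
    refine ⟨_, (hy.shift (t * (-B (ch u y 0) (ch u y 1) / B y (ch u y (2 * N + 4))))
      (j := 2 * N + 3) (by omega)).1, ?_, ?_, ?_⟩
    · rwa [form_shift, hy.perp y y (i := 2) (j := 2 + _) (by omega),
        hy.perp y y (i := 2 + _) (j := 2) (by omega), hy.perp y y (i := 2 + _) (by omega),
        mul_zero, mul_zero, mul_zero, add_zero, add_zero, add_zero]
    · rwa [form_shift, hy.perp y y (i := 1) (j := 1 + _) (by omega),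
        hy.perp y y (i := 1 + _) (j := 1) (by omega), hy.perp y y (i := 1 + _) (by omega),
        mul_zero, mul_zero, mul_zero, add_zero, add_zero, add_zero]
    · have h3 := tr hy 0
      rw [form_shift, hy.form_top y y (i := 0) (j := 1 + _) (by omega),
        hy.form_top y y (i := 0 + _) (j := 1) (by omega), hy.perp y y (i := 0 + _) (by omega),
        show 0 + (2 * N + 3) = 2 * (N + 1) + 1 by ring, pow_succ _ (2 * (N + 1)), ev, map_mul,
        map_div₀, hδ hy, map_neg]
      rw [zero_add, h2] at h3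
      linear_combination (-B (ch u y 0) (ch u y 1)) * ht + σ t * h3 +
        t * div_mul_cancel₀ (-B (ch u y 0) (ch u y 1)) hy.delta_ne -
        σ t * div_mul_cancel₀ (-σ (B (ch u y 0) (ch u y 1))) hy.delta_ne
  obtain ⟨y, hy, h4, h2, h1, h0⟩ : ∃ y, RgU σ B u y (2 * N + 4) ∧ B (ch u y 2) (ch u y 2) ≠ 0 ∧
      B (ch u y 1) (ch u y 1) = 0 ∧ B (ch u y 0) (ch u y 1) = 0 ∧ B (ch u y 0) (ch u y 0) = 0 := by
    refine ⟨_, (hy.shift (t * (-B (ch u y 0) (ch u y 0) / B y (ch u y (2 * N + 4))))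
      (j := 2 * N + 4) (by omega)).1, ?_, ?_, ?_, ?_⟩
    · rwa [form_shift, hy.perp y y (i := 2) (j := 2 + _) (by omega),
        hy.perp y y (i := 2 + _) (j := 2) (by omega), hy.perp y y (i := 2 + _) (by omega),
        mul_zero, mul_zero, mul_zero, add_zero, add_zero, add_zero]
    · rwa [form_shift, hy.perp y y (i := 1) (j := 1 + _) (by omega),
        hy.perp y y (i := 1 + _) (j := 1) (by omega), hy.perp y y (i := 1 + _) (by omega),
        mul_zero, mul_zero, mul_zero, add_zero, add_zero, add_zero]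
    · rwa [form_shift, hy.perp y y (i := 0) (j := 1 + _) (by omega),
        hy.perp y y (i := 0 + _) (j := 1) (by omega), hy.perp y y (i := 0 + _) (by omega),
        mul_zero, mul_zero, mul_zero, add_zero, add_zero, add_zero]
    · rw [form_shift, hy.form_top y y (i := 0) (j := 0 + _) (by omega),
        hy.form_top y y (i := 0 + _) (j := 0) (by omega), hy.perp y y (i := 0 + _) (by omega),
        show 0 + (2 * N + 4) = 2 * (N + 2) by ring, ev, map_mul, map_div₀, hδ hy, map_neg,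
        hy.herm.self_fixed]
      linear_combination (-B (ch u y 0) (ch u y 0)) * ht +
        (t + σ t) * div_mul_cancel₀ (-B (ch u y 0) (ch u y 0)) hy.delta_ne
  refine ⟨y, hy, by simpa using h0, by simpa using h1, fun h5 => h4 ?_⟩
  have h6 := tr hy 1
  have h7 := hy.mem (ch u y 0) (ch u y 1)
  rw [apply_ch, apply_ch, map_add, map_add, LinearMap.add_apply, LinearMap.add_apply, h2,
    ch_zero] at h7
  have h8 : B (ch u y 1) (ch u y (1 + 1)) = -B y (ch u y 2) := by linear_combination h7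
  rw [h8, map_neg] at h6
  linear_combination h6 + h5

end RgU

end Cfsg.Lib.Unitary
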