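import Cfsg.Agent.Lib.Unitary.RegGenA
import Cfsg.Agent.Lib.Unitary.Wall2

/-!
# `SU_n(q)`, `n ≥ 5` odd, is generated by three conjugate regular unipotent elements
-/

set_option autoImplicit false

namespace Cfsg.Lib.Unitary

open Module

variable {F V : Type*} [Field F] [AddCommGroup V] [Module F V] {σ : F →+* F}
  {B : V →ₛₗ[σ] V →ₗ[F] F} {q : ℕ} {K : Subgroup (V ≃ₗ[F] V)}

/-- `K` contains the map given by a `2 × 2` matrix on the pair `e, x`. -/
def Sk (B : V →ₛₗ[σ] V →ₗ[F] F) (K : Subgroup (V ≃ₗ[F] V)) (e x : V) (p c' c r : F) : Prop :=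
  ∃ g ∈ K, ∀ v, g v = v + (p * B e v + c' * B x v) • e + (c * B e v + r * B x v) • x

/-- `K` contains the transvection with centre `e` and coefficient `a`. -/
def Tk (B : V →ₛₗ[σ] V →ₗ[F] F) (K : Subgroup (V ≃ₗ[F] V)) (e : V) (a : F) : Prop :=
  ∃ g ∈ K, ∀ v, g v = v + (a * B e v) • e

/-- A totally isotropic pair. -/
structure TiPair (B : V →ₛₗ[σ] V →ₗ[F] F) (e x : V) : Prop where
  ee : B e e = 0
  ex : B e x = 0
  xe : B x e = 0
  xx : B x x = 0

section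

variable {e x : V} {p c' c r p₁ c₁' c₁ r₁ a : F}

theorem Tk.sk_left (h : Tk B K e a) (x : V) : Sk B K e x a 0 0 0 :=
  h.imp fun _ hg => ⟨hg.1, fun v => by simp [hg.2]⟩

theorem Tk.sk_right (h : Tk B K x a) (e : V) : Sk B K e x 0 0 0 a :=
  h.imp fun _ hg => ⟨hg.1, fun v => by simp [hg.2]⟩

theorem Sk.tk (h : Sk B K e x a 0 0 0) : Tk B K e a :=
  h.imp fun _ hg => ⟨hg.1, fun v => by simp [hg.2]⟩

theorem Tk.conj (h : Tk B K e a) {k : V ≃ₗ[F] V} (hk : k ∈ K) (hu : k ∈ UG B) :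
    Tk B K (k e) a := by
  obtain ⟨g, hg, hg'⟩ := h
  refine ⟨k * g * k⁻¹, mul_mem (mul_mem hk hg) (inv_mem hk), fun v => ?_⟩
  obtain ⟨v, rfl⟩ := k.surjective v
  simp [hg', hu e v]

theorem Sk.conj (h : Sk B K e x p c' c r) {k : V ≃ₗ[F] V} (hk : k ∈ K) (hu : k ∈ UG B) :
    Sk B K (k e) (k x) p c' c r := by
  obtain ⟨g, hg, hg'⟩ := h
  refine ⟨k * g * k⁻¹, mul_mem (mul_mem hk hg) (inv_mem hk), fun v => ?_⟩
  obtain ⟨v, rfl⟩ := k.surjective v
  simp [hg', hu e v, hu x v]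

theorem Sk.add (t : TiPair B e x) (h : Sk B K e x p c' c r) (h₁ : Sk B K e x p₁ c₁' c₁ r₁) :
    Sk B K e x (p + p₁) (c' + c₁') (c + c₁) (r + r₁) := by
  obtain ⟨g, hg, hg'⟩ := h
  obtain ⟨k, hk, hk'⟩ := h₁
  refine ⟨g * k, mul_mem hg hk, fun v => ?_⟩
  simp only [LinearEquiv.mul_apply, hg', hk', map_add, map_smul, t.ee, t.ex, t.xe, t.xx,
    smul_eq_mul]
  module

theorem Sk.sub (t : TiPair B e x) (h : Sk B K e x p c' c r) (h₁ : Sk B K e x p₁ c₁' c₁ r₁) :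
    Sk B K e x (p - p₁) (c' - c₁') (c - c₁) (r - r₁) := by
  obtain ⟨g, hg, hg'⟩ := h
  obtain ⟨k, hk, hk'⟩ := h₁
  refine ⟨k⁻¹ * g, mul_mem (inv_mem hk) hg, fun v => ?_⟩
  rw [LinearEquiv.mul_apply, LinearEquiv.coe_inv, LinearEquiv.symm_apply_eq]
  simp only [hg', hk', map_add, map_smul, t.ee, t.ex, t.xe, t.xx, smul_eq_mul]
  module

theorem Sk.congr (h : Sk B K e x p c' c r) (h1 : p = p₁) (h2 : c' = c₁') (h3 : c = c₁)
    (h4 : r = r₁) : Sk B K e x p₁ c₁' c₁ r₁ := h1 ▸ h2 ▸ h3 ▸ h4 ▸ h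

theorem Sk.diff_up (t : TiPair B e x) (h : Sk B K e x p c' c r) {k : V ≃ₗ[F] V} (hk : k ∈ K)
    (hu : k ∈ UG B) {μ : F} (h1 : k e = e) (h2 : k x = x + μ • e) :
    Sk B K e x (c' * σ μ + c * μ + r * (μ * σ μ)) (r * μ) (r * σ μ) 0 := by
  have h3 : Sk B K e x (p + (c' * σ μ + c * μ + r * (μ * σ μ))) (c' + r * μ) (c + r * σ μ) r := by
    obtain ⟨g, hg, hg'⟩ := h.conj hk hu
    refine ⟨g, hg, fun v => ?_⟩
    simp only [hg', h1, h2, map_add, LinearMap.add_apply, LinearMap.map_smulₛₗ,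
      LinearMap.smul_apply, smul_eq_mul]
    module
  exact (h3.sub t h).congr (by ring) (by ring) (by ring) (by ring)

theorem Tk.diff_down (t : TiPair B e x) (h : Tk B K e a) {k : V ≃ₗ[F] V} (hk : k ∈ K)
    (hu : k ∈ UG B) {l : F} (h1 : k e = e + l • x) :
    Sk B K e x 0 (a * σ l) (a * l) (a * (l * σ l)) := by
  have h3 : Sk B K e x a (a * σ l) (a * l) (a * (l * σ l)) := by
    obtain ⟨g, hg, hg'⟩ := h.conj hk hu
    refine ⟨g, hg, fun v => ?_⟩
    simp only [hg', h1, map_add, LinearMap.add_apply, LinearMap.map_smulₛₗ,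
      LinearMap.smul_apply, smul_eq_mul]
    module
  exact (h3.sub t (h.sk_left x)).congr (by ring) (by ring) (by ring) (by ring)

end

/-- The coefficients of the transvections with centre `e` in `K`. -/
def tkCoef (K : Subgroup (V ≃ₗ[F] V)) {e : V} (he : B e e = 0) : AddSubgroup F where
  carrier := {a | Tk B K e a}
  zero_mem' := ⟨1, one_mem _, fun v => by simp⟩
  add_mem' := fun ha hb => (((ha.sk_left 0).add ⟨he, by simp, by simp, by simp⟩
    (hb.sk_left 0)).congr rfl (add_zero _) (add_zero _) (add_zero _)).tk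
  neg_mem' := fun ha => (((Tk.sk_left (a := 0) ⟨1, one_mem _, fun v => by simp⟩ 0).sub
    ⟨he, by simp, by simp, by simp⟩ (ha.sk_left 0)).congr (zero_sub _) (sub_zero _) (sub_zero _)
      (sub_zero _)).tk

theorem exists_fixedGen [Finite F] (σ : F →+* F) : ∃ s : F, s ≠ 0 ∧ σ s = s ∧
    ∀ R : Subring F, s ^ 2 ∈ R → ∀ a, σ a = a → a ∈ R := by
  obtain ⟨s, hs, h, -⟩ := Linear.exists_ringGen_sq (F := σ.eqLocusField (RingHom.id F))
  refine ⟨s, by simpa using hs, s.2, fun R hR a ha => ?_⟩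
  have := h (R.comap (σ.eqLocusField (RingHom.id F)).subtype) (by simpa using hR)
  exact (this ▸ Subring.mem_top _ :
    (⟨a, ha⟩ : σ.eqLocusField (RingHom.id F)) ∈ R.comap (σ.eqLocusField (RingHom.id F)).subtype)

theorem tk_of_mul {e : V} (he : B e e = 0) {c s : F} (hc : c ≠ 0) (hc' : c + σ c = 0)
    (h0 : Tk B K e c) (hs : ∀ R : Subring F, s ∈ R → ∀ a, σ a = a → a ∈ R)
    (h1 : ∀ a, Tk B K e a → Tk B K e (s * a)) (a : F) (ha : a + σ a = 0) : Tk B K e a := by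
  have := hs (Linear.mulStab (tkCoef K he)) (fun a ha => h1 a ha) (a / c) (by
    rw [map_div₀, eq_neg_of_add_eq_zero_right ha, eq_neg_of_add_eq_zero_right hc', neg_div_neg_eq])
    c h0
  rwa [div_mul_cancel₀ _ hc] at this

variable [FiniteDimensional F V] {u g : V ≃ₗ[F] V} {x : V} {N : ℕ}

theorem RgU.finish (R : RgU σ B u x (N + 2)) (hσ : IsBar q σ) (hN : 1 ≤ N) (hK : K ≤ UG B)
    (hu : u ∈ K) (hg : g ∈ UG B) (hw : g * u * g⁻¹ ∈ K) (hgx : g x = ch u x (N + 2)) {μ : F}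
    (hμ : μ ≠ 0) (hS : ∀ p c, p + σ p = 0 →
      Sk B K (ch u x (N + 2)) (ch u x (N + 2) + μ • ch u x (N + 1)) p (-σ c) c 0) : SUG B ≤ K := by
  have h := R.herm
  set e := ch u x (N + 2) with he
  set e₂ := ch u x (N + 1) with he₂
  set z := e + μ • e₂ with hz
  have hee : B e e = 0 := R.perp _ _ (by omega)
  have he2 : B e e₂ = 0 := R.perp _ _ (by omega)
  have h2e : B e₂ e = 0 := R.perp _ _ (by omega)
  have h22 : B e₂ e₂ = 0 := R.perp _ _ (by omega)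
  have hez : B e z = 0 := by simp [hz, hee, he2]
  have hze : B z e = 0 := h.eq_zero_comm.1 hez
  have hzz : B z z = 0 := by simp [hz, hee, he2, h2e, h22]
  let Y : V → Prop := fun y => ∀ a, a + σ a = 0 → Tk B K y a
  have Yc : ∀ y, Y y → ∀ k ∈ K, Y (k y) := fun y hy k hk a ha => (hy a ha).conj hk (hK hk)
  have Ye : Y e := fun a ha => ((hS a 0 ha).congr rfl (by simp) rfl rfl).tk
  have ex : ∀ v, v ≠ 0 → ∃ y, Y y ∧ B v y ≠ 0 := fun v hv => by
    by_contra! hc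
    exact hv ((R.conj hg).eq_zero fun k => hc _ (hgx ▸ Yc e Ye _ (pow_mem hw k)))
  obtain ⟨δ, hδ0, hδ⟩ := h.exists_skew
  have hδ' : δ + σ δ = 0 := by rw [hδ, add_neg_cancel]
  have σ0 : ∀ {a : F}, a ≠ 0 → σ a ≠ 0 := fun ha => (map_ne_zero σ).2 ha
  obtain ⟨x₁, hx₁, hx₁e⟩ := ex e R.ne
  obtain ⟨y, hy, hye, hyz⟩ : ∃ y, Y y ∧ B e y = 0 ∧ B z y ≠ 0 := by
    obtain ⟨x₂, hx₂, hx₂s⟩ := ex (σ (B z x₁) • e - σ (B e x₁) • z) fun h0 => by
      have := (R.li_two (Nat.lt_succ_self (N + 1)) le_rfl (a := -(σ (B e x₁) * μ))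
        (b := σ (B z x₁) - σ (B e x₁)) (by rw [← h0, hz]; module)).1
      exact mul_ne_zero (σ0 hx₁e) hμ (neg_eq_zero.1 this)
    simp only [map_sub, LinearMap.sub_apply, LinearMap.map_smulₛₗ, LinearMap.smul_apply,
      smul_eq_mul, h.invol] at hx₂s
    by_cases h0 : B e x₂ = 0
    · exact ⟨x₂, hx₂, h0, fun h1 => hx₂s (by rw [h0, h1]; ring)⟩
    have h1 : σ (B z x₂) * B x₁ e - σ (B e x₂) * B x₁ z ≠ 0 := fun h1 => σ0 hx₂s (by
      rw [map_sub, map_mul, map_mul, h.symm, h.symm e x₁]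
      linear_combination -h1)
    obtain ⟨t, ht⟩ : ∃ t, B x₁ x₂ + t * B e x₂ * (σ (B z x₂) * B x₁ e - σ (B e x₂) * B x₁ z) =
        -B e x₂ / (δ * B e x₁) :=
      ⟨(-B e x₂ / (δ * B e x₁) - B x₁ x₂) / (B e x₂ * (σ (B z x₂) * B x₁ e - σ (B e x₂) * B x₁ z)),
        by rw [mul_assoc, div_mul_cancel₀ _ (mul_ne_zero h0 h1), add_sub_cancel]⟩
    obtain ⟨k, hk, hk'⟩ := hS (t * σ (B z x₂) - σ (t * σ (B z x₂))) (-(t * σ (B e x₂)))
      (by rw [map_sub, h.invol]; ring)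
    obtain ⟨l, hl, hl'⟩ := hx₁ δ hδ'
    have h2 : k x₂ = x₂ + (t * B e x₂) • (σ (B z x₂) • e - σ (B e x₂) • z) := by
      rw [hk']
      simp only [map_mul, map_neg, h.invol]
      module
    have h3 : B x₁ (k x₂) = -B e x₂ / (δ * B e x₁) := by
      rw [h2, ← ht]
      simp only [map_add, map_smul, map_sub, smul_eq_mul]
    have h4 : B e (l (k x₂)) = 0 := by
      rw [hl', h3, map_add, map_smul, h2]
      simp only [map_add, map_smul, map_sub, smul_eq_mul, hee, hez]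
      field_simp
      ring
    refine ⟨_, Yc _ (Yc _ hx₂ k hk) l hl, h4, fun h5 => hx₂s ?_⟩
    rw [hl', map_add, map_smul] at h4 h5
    rw [h2] at h4 h5
    simp only [map_add, map_smul, map_sub, smul_eq_mul, hee, hez, hze, hzz] at h4 h5
    linear_combination B z x₁ * h4 - B e x₁ * h5
  let Z : Submodule F V :=
    { carrier := {w | ∀ b : F, b • w ∈ h.AE K hee}
      zero_mem' := fun b => by rw [smul_zero]; exact zero_mem _
      add_mem' := fun ha hb b => by rw [smul_add]; exact add_mem (ha b) (hb b)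
      smul_mem' := fun b w hw a => by rw [smul_smul]; exact hw _ }
  have hQ : QE B e ≤ K := h.QE_le_of_AE hee (by rw [R.dim]; omega) hK R.ne fun w hw => by
    have : w ∈ Z := R.mem_of_perp (Z := Z) (fun w hw b => by
        rw [← map_smul]; exact h.apply_mem_AE hee hK hu R.fix (hw b))
      (fun w hw => by simpa using (hw 1).1) (y := y) (fun b => by
        obtain ⟨l, hl, hl'⟩ := hy δ hδ'
        obtain ⟨k, hk, hk'⟩ := hS 0 (b / (δ * B y z)) (by simp)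
        have h1 := h.sub_mem_AE hee hK hl (by rw [hl', h.eq_zero_comm.1 hye]; simp)
          (w := (b / (δ * B y z)) • z) ⟨by simp [hez], k, hk, 0, fun v => by
            rw [hk']
            simp only [LinearMap.map_smulₛₗ, LinearMap.smul_apply, smul_eq_mul]
            module⟩
        rwa [hl', add_sub_cancel_left, map_smul, smul_eq_mul, mul_left_comm,
          div_mul_cancel₀ _ (mul_ne_zero hδ0 fun h0 => hyz (h.eq_zero_comm.1 h0))] at h1)
      (fun h0 => hyz (by simp [hz, hye, show B e₂ y = 0 from h0])) hw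
    simpa using this 1
  obtain ⟨l, hl, hl'⟩ := hx₁ δ hδ'
  refine h.SUG_le_of_QE hee hσ (by rw [R.dim]; omega) hK hQ hl ?_
  rw [hl', map_add, map_smul, hee, zero_add, smul_eq_mul]
  exact mul_ne_zero (mul_ne_zero hδ0 fun h0 => hx₁e (h.eq_zero_comm.1 h0)) hx₁e

theorem RgU.gen_of (R : RgU σ B u x (N + 2)) (hσ : IsBar q σ) (hN : 2 ≤ N) (h0 : B x x = 0)
    (h1 : B x (ch u x 1) = 0) {μ c s : F} (hμ : μ ≠ 0) (hc : c ≠ 0) (hc' : c + σ c = 0)
    (hs : ∀ R : Subring F, s ∈ R → ∀ a, σ a = a → a ∈ R) {l : F}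
    (hl : l = c * μ * σ (B x (ch u x 2))) (hl' : σ (l * μ) ≠ l * μ)
    (hA : s = 2 * (μ * σ μ) ∨ l * σ l = 1 ∧ s = l * μ + σ (l * μ)) :
    ∃ g ∈ SUG B, ∃ k ∈ SUG B, ∀ K ≤ UG B, u ∈ K → g * u * g⁻¹ ∈ K → k * u * k⁻¹ ∈ K →
      SUG B ≤ K := by
  have h := R.herm
  have := hσ.finite
  set e := ch u x (N + 2) with he
  set e₂ := ch u x (N + 1) with he₂
  have hee : B e e = 0 := R.perp _ _ (by omega)
  have he2 : B e e₂ = 0 := R.perp _ _ (by omega)
  have h2e : B e₂ e = 0 := R.perp _ _ (by omega)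
  have h22 : B e₂ e₂ = 0 := R.perp _ _ (by omega)
  have u₀ : u x = x + ch u x 1 := by simpa using apply_ch u x 0
  have u₁ : u e = e := R.fix
  have u₂ : u e₂ = e₂ + e := apply_ch _ _ _
  have h10 := h.eq_zero_comm.1 h1
  have h11 : B (ch u x 1) (ch u x 1) = 0 := by
    have := R.mem x x
    rwa [u₀, map_add, map_add, LinearMap.add_apply, LinearMap.add_apply, h0, h1, h10, zero_add,
      zero_add, zero_add] at this
  obtain ⟨g, hg, hg'⟩ := h.witt_family_SUG' (x := ![x, ch u x 1]) (y := ![e, μ • e₂])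
    (LinearIndependent.pair_iff.2 fun a b hab =>
      R.li_two (i := 0) one_pos (by omega) (by rwa [ch_zero]))
    (LinearIndependent.pair_iff.2 fun a b hab => by
      rw [smul_smul, add_comm] at hab
      have := R.li_two (Nat.lt_succ_self (N + 1)) le_rfl hab
      exact ⟨this.2, (mul_eq_zero_iff_right hμ).1 this.1⟩)
    (by
      intro i j
      fin_cases i <;> fin_cases j <;> simp [h0, h1, h10, h11, hee, he2, h2e, h22])
    (fun hle => by
      have a₁ := Submodule.finrank_mono hle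
      have a₂ := finrank_range_le_card (R := F) ![e, μ • e₂]
      rw [h.finrank_perp, R.dim] at a₁
      rw [Set.finrank, Fintype.card_fin] at a₂
      omega)
  have g₀ : g x = e := hg' 0
  have g₁ : g (ch u x 1) = μ • e₂ := hg' 1
  obtain ⟨t, ht⟩ := h.exists_trace_eq (map_one σ)
  have k₁ : B e ((-(c * t)) • e₂) = 0 := by simp [he2]
  have k₂ : B ((-(c * t)) • e₂) e = 0 := by simp [h2e]
  refine ⟨g, hg, eichler B e ((-(c * t)) • e₂) 0 hee k₁ k₂,
    h.QE_le_SUG R.ne hee (h.eichler_mem_QE (by simp [h22])), fun K hK hu hw hv => ?_⟩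
  have t₀ : Tk B K e c := by
    refine ⟨_, mul_mem hv (inv_mem hu), fun v => ?_⟩
    set k := eichler B e ((-(c * t)) • e₂) 0 hee k₁ k₂ with hk
    obtain ⟨v, rfl⟩ := (u * k).surjective v
    have a₁ : B e v = B e (u v) := by rw [← R.mem e, u₁]
    have a₂ : B e₂ v = B e₂ (u v) + B e (u v) := by
      rw [← R.mem e₂, u₂, map_add, LinearMap.add_apply]
    have a₃ : σ c = -c := eq_neg_of_add_eq_zero_right hc'
    have a₄ : σ t = 1 - t := eq_sub_of_add_eq' ht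
    simp only [LinearEquiv.mul_apply, LinearEquiv.coe_inv, LinearEquiv.symm_apply_apply]
    simp only [hk, eichler_apply, map_add, map_sub, map_smul, LinearMap.map_smulₛₗ,
      LinearMap.smul_apply, smul_eq_mul, u₁, u₂, a₁, a₂, hee, he2, map_neg, map_mul, a₃, a₄]
    module
  set w := g * u * g⁻¹ with hwdef
  have hwi : w ∈ UG B := hK hw
  have hwg : ∀ v, w (g v) = g (u v) := fun v => by simp [hwdef]
  set z := e + μ • e₂ with hz
  have w₁ : w e = z := by rw [← g₀, hwg, u₀, map_add, g₀, g₁]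
  have uz : u z = z + μ • e := by rw [hz, map_add, map_smul, u₁, u₂]; module
  have T : TiPair B e z := ⟨hee, by simp [hz, hee, he2], by simp [hz, hee, h2e],
    by simp [hz, hee, he2, h2e, h22]⟩
  have L₁ : ∀ a, Tk B K e a → Sk B K e z (a * (μ * σ μ)) (a * μ) (a * σ μ) 0 := fun a ha =>
    (((w₁ ▸ ha.conj hw hwi).sk_right e).diff_up T hu R.mem u₁ uz).congr (by ring) rfl rfl rfl
  obtain ⟨ρ, hρ, hρ'⟩ := (L₁ c t₀).conj hw hwi
  have hwz : B (w z) e = σ (B x (ch u x 2)) := by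
    rw [← w₁, ← g₀, hwg, hwg, hg.1, h.symm, u₀, map_add, u₀, apply_ch]
    simp [h0, h10]
  have ρ₁ : ρ e = e + l • z := by rw [hρ', w₁, T.xe, hwz, hl]; simp
  have L₂ : ∀ a, Tk B K e a → Sk B K e z 0 (a * σ l) (a * l) (a * (l * σ l)) := fun a ha =>
    ha.diff_down T hρ (hK hρ) ρ₁
  have hT : ∀ a, a + σ a = 0 → Tk B K e a := tk_of_mul hee hc hc' t₀ hs fun a ha => by
    rcases hA with rfl | ⟨hl1, rfl⟩
    · exact (((L₁ a ha).diff_up T hu R.mem u₁ uz).congr (by ring) (by ring) (by ring) rfl).tk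
    · have := ((L₂ a ha).diff_up T hu R.mem u₁ uz).sub T (L₁ a ha)
      rw [hl1] at this
      exact (this.congr (by rw [map_mul]; ring) (by ring) (by ring) (by ring)).tk
  have hn : ∀ a : F, σ (a * σ a) = a * σ a := fun a => by rw [map_mul, h.invol, mul_comm]
  have sk : ∀ {a b : F}, a + σ a = 0 → σ b = b → a * b + σ (a * b) = 0 := fun ha hb => by
    rw [map_mul, hb, ← add_mul, ha, zero_mul]
  refine R.finish hσ (by omega) hK hu hg.1 hw g₀ hμ fun p b hp => ?_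
  have hD : l * μ - σ (l * μ) ≠ 0 := sub_ne_zero.2 hl'.symm
  obtain ⟨a, ha, a', ha', hb⟩ : ∃ a, a + σ a = 0 ∧ ∃ a', a' + σ a' = 0 ∧ b = a * l + a' * σ μ := by
    refine ⟨(b * μ + σ (b * μ)) / (l * μ - σ (l * μ)), ?_,
      -(b * σ l + σ b * l) / (l * μ - σ (l * μ)), ?_, ?_⟩
    · rw [map_div₀, map_add, map_sub, h.invol, h.invol, ← neg_sub (l * μ), div_neg]
      ring
    · rw [map_div₀, map_neg, map_add, map_sub, h.invol, ← neg_sub (l * μ), div_neg, map_mul σ b,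
        map_mul σ (σ b), h.invol, h.invol]
      ring
    · rw [div_mul_eq_mul_div, div_mul_eq_mul_div, ← add_div, eq_div_iff hD]
      simp only [map_mul]
      ring
  have a₁ := (((L₂ a (hT a ha)).sub T ((w₁ ▸ (hT _ (sk ha (hn l))).conj hw hwi).sk_right e)).add T
    (L₁ a' (hT a' ha'))).add T ((hT (p - a' * (μ * σ μ)) (by
      rw [map_sub]; linear_combination hp - sk ha' (hn μ))).sk_left z)
  refine a₁.congr (by ring) ?_ (by rw [hb]; ring) (by ring)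
  rw [hb, map_add, map_mul, map_mul, h.invol, eq_neg_of_add_eq_zero_right ha,
    eq_neg_of_add_eq_zero_right ha']
  ring

theorem RgU.gen3 (R : RgU σ B u x (2 * N + 4)) (hσ : IsBar q σ) :
    ∃ g ∈ SUG B, ∃ k ∈ SUG B, ∀ K ≤ UG B, u ∈ K → g * u * g⁻¹ ∈ K → k * u * k⁻¹ ∈ K →
      SUG B ≤ K := by
  have := hσ.finite
  obtain ⟨x, R, h0, h1, h2⟩ := R.exists_good
  have h := R.herm
  obtain ⟨s, hs0, hs, hs'⟩ := exists_fixedGen σ
  set β := B x (ch u x 2) with hβ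
  have hβ0 : β ≠ 0 := fun h3 => h2 (by simp [h3])
  by_cases hp : (2 : F) = 0
  · have hC : CharP F 2 := CharTwo.of_one_ne_zero_of_two_eq_zero one_ne_zero hp
    have sq : ∀ a : F, ∃ b, b ^ 2 = a := fun a => (frobeniusEquiv F 2).surjective a
    obtain ⟨θ, hθ⟩ := h.exists_trace_eq (s := s ^ 2) (by rw [map_pow, hs])
    have hθ' : σ θ ≠ θ := fun h3 => pow_ne_zero 2 hs0 (by rw [← hθ, h3, CharTwo.add_self_eq_zero])
    have hθ0 : θ ≠ 0 := fun h3 => hθ' (by simp [h3])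
    have σ0 : ∀ {a : F}, a ≠ 0 → σ a ≠ 0 := fun ha => (map_ne_zero σ).2 ha
    obtain ⟨m, hm⟩ := sq (θ / σ β)
    have hm0 : m ≠ 0 := fun h3 => div_ne_zero hθ0 (σ0 hβ0) (by rw [← hm, h3]; simp)
    obtain ⟨r, hr⟩ := sq (θ * σ θ / (m * σ m))
    have hr0 : r ≠ 0 := fun h3 => div_ne_zero (mul_ne_zero hθ0 (σ0 hθ0))
      (mul_ne_zero hm0 (σ0 hm0)) (by rw [← hr, h3]; simp)
    have hrσ : σ r = r := (frobeniusEquiv F 2).injective (by
      change σ r ^ 2 = r ^ 2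
      rw [← map_pow, hr, map_div₀, map_mul, map_mul, h.invol, h.invol, mul_comm, mul_comm m])
    have hl : (r ^ 2)⁻¹ * (r * m) * σ β * (r * m) = θ := by
      have := σ0 hβ0
      rw [eq_div_iff this] at hm
      rw [← hm]
      field_simp
    refine RgU.gen_of (N := 2 * N + 2) R hσ (by omega) h0 h1 (μ := r * m) (c := (r ^ 2)⁻¹)
      (mul_ne_zero hr0 hm0) (inv_ne_zero (pow_ne_zero 2 hr0))
      (by rw [map_inv₀, map_pow, hrσ, CharTwo.add_self_eq_zero]) hs' rfl (by rwa [hl])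
      (Or.inr ⟨?_, by rw [hl, hθ]⟩)
    have h3 := congrArg σ hl
    rw [map_mul, map_mul σ r, hrσ] at h3
    have h4 : r * m * (r * σ m) ≠ 0 := mul_ne_zero (mul_ne_zero hr0 hm0) (mul_ne_zero hr0 (σ0 hm0))
    rw [eq_div_iff (mul_ne_zero hm0 (σ0 hm0))] at hr
    refine mul_right_cancel₀ h4 ?_
    rw [mul_mul_mul_comm, hl, h3, ← hr]
    ring
  · obtain ⟨δ, hδ0, hδ⟩ := h.exists_skew
    refine RgU.gen_of (N := 2 * N + 2) R hσ (by omega) h0 h1 (μ := s) (c := δ) (s := 2 * (s * σ s))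
      hs0 hδ0 (by rw [hδ, add_neg_cancel]) (fun S hS => hs' S ?_) rfl (fun h3 => h2 ?_) (Or.inl rfl)
    · rw [hs, ← sq] at hS
      exact Linear.subring_mem_of_mul (r := 2) (by simp) hp hS
    · simp only [map_mul, hs, hδ, h.invol] at h3
      refine mul_left_cancel₀ (mul_ne_zero hδ0 (mul_ne_zero hs0 hs0)) ?_
      linear_combination -h3

open Matrix Cfsg.Lib.GLC in
theorem IsBar.exists_su_gen3 (hσ : IsBar q σ) (N : ℕ) : ∃ u g k : SU (2 * N + 4 + 1) F q,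
    (IsNilpotent (u.1.1 - 1) ∧ (u.1.1 - 1) ^ (2 * N + 4) ≠ 0) ∧
      Subgroup.closure {u, g * u * g⁻¹, k * u * k⁻¹} = ⊤ := by
  have := hσ.finite
  obtain ⟨u, hu⟩ := hσ.exists_su_jt (n := 2 * N + 4 + 1) (d := {2 * N + 4 + 1}) (by simp)
  have h1 : ∀ k, (u.1.1 - 1) ^ k = 0 ↔ 2 * N + 4 + 1 ≤ k := fun k => by
    simpa [toLin'_sub_one_pow_eq_zero_iff] using hu.jt_pow_eq_zero_iff (k := k)
  set φ := hσ.suEquiv (2 * N + 4 + 1) with hφ
  have h2 : ∀ k x, ch (φ u).1 x k = (u.1.1 - 1) ^ k *ᵥ x := fun k x => by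
    induction k with
    | zero => simp
    | succ k ih => rw [ch_succ, ih, pow_succ', ← mulVec_mulVec, sub_mulVec, one_mulVec]; rfl
  have h3 : (u.1.1 - 1) ^ (2 * N + 4) ≠ 0 := fun h0 => by have := (h1 _).1 h0; omega
  obtain ⟨x, hx⟩ : ∃ x, (u.1.1 - 1) ^ (2 * N + 4) *ᵥ x ≠ 0 := by
    by_contra! hc
    exact h3 (Asch.mat_ext_mulVec fun v => by rw [hc, zero_mulVec])
  have R : RgU σ (stdForm σ (Fin (2 * N + 4 + 1))) (φ u).1 x (2 * N + 4) :=
    ⟨hσ.isHerm, (φ u).2.1, by simp, fun y => by rw [h2, (h1 _).2 le_rfl, zero_mulVec],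
      by rwa [h2]⟩
  obtain ⟨g, hg, k, hk, H⟩ := R.gen3 hσ
  obtain ⟨g, rfl⟩ : ∃ g', (φ g').1 = g := ⟨φ.symm ⟨g, hg⟩, by simp⟩
  obtain ⟨k, rfl⟩ : ∃ k', (φ k').1 = k := ⟨φ.symm ⟨k, hk⟩, by simp⟩
  refine ⟨u, g, k, ⟨⟨_, (h1 _).2 le_rfl⟩, h3⟩, eq_top_iff.2 fun s _ => ?_⟩
  obtain ⟨s', hs', h0⟩ := H ((Subgroup.closure {u, g * u * g⁻¹, k * u * k⁻¹}).map
      ((SUG _).subtype.comp φ.toMonoidHom)) (by rintro _ ⟨a, -, rfl⟩; exact (φ a).2.1)
    ⟨u, Subgroup.subset_closure (by simp), rfl⟩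
    ⟨g * u * g⁻¹, Subgroup.subset_closure (by simp), by simp⟩
    ⟨k * u * k⁻¹, Subgroup.subset_closure (by simp), by simp⟩ (φ s).2
  rwa [← φ.injective (Subtype.ext h0)]

end Cfsg.Lib.Unitary
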