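import Cfsg.Agent.Lib.Unitary.RegGenB
import Cfsg.Agent.Lib.Unitary.U3

/-!
# `SU_3(q)`, `q ≥ 3`, is generated by three conjugate regular unipotent elements
-/

set_option autoImplicit false

namespace Cfsg.Lib.Unitary

open Module

variable {F V : Type*} [Field F] [AddCommGroup V] [Module F V] {σ : F →+* F}
  {B : V →ₛₗ[σ] V →ₗ[F] F} {q : ℕ} {K : Subgroup (V ≃ₗ[F] V)}

theorem det_of_eigenbasis {ι : Type*} [Fintype ι] [DecidableEq ι] (b : Basis ι F V) (g : V →ₗ[F] V)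
    (d : ι → F) (h : ∀ i, g (b i) = d i • b i) : LinearMap.det g = ∏ i, d i := by
  rw [← LinearMap.det_toMatrix b, ← Matrix.det_diagonal]
  congr 1
  ext i j
  rw [LinearMap.toMatrix_apply, h, map_smul, b.repr_self, Matrix.diagonal_apply]
  by_cases hij : i = j
  · simp [hij]
  · simp [hij, Finsupp.single_apply, Ne.symm hij]

theorem Tk.smul {e : V} {a r : F} (h : Tk B K (r • e) a) : Tk B K e (r * σ r * a) :=
  h.imp fun _ hg => ⟨hg.1, fun v => by
    rw [hg.2, LinearMap.map_smulₛₗ, LinearMap.smul_apply, smul_smul, smul_eq_mul]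
    congr 2
    ring⟩

theorem IsHerm.gen3_three [FiniteDimensional F V] (h : IsHerm σ B) (hσ : IsBar q σ) (hq : q ≠ 2)
    (hn : finrank F V = 3) {r ρ c : F} (hr : σ r ≠ r) (hρ0 : ρ ≠ 0) (hρ : r * σ ρ ^ 2 = -ρ)
    (hc0 : c ≠ 0) (hc : σ c = -c) (hs : ∀ R : Subring F, r * σ r ∈ R → ∀ a, σ a = a → a ∈ R)
    (hA : ∀ A : AddSubgroup F, c * (r - σ r) ^ 2 / (r * σ r) ∈ A → ((2 : F) = 0 → c * (r - σ r) ∈ A) →
      c ∈ A) :
    ∃ u ∈ SUG B, (∀ y, ch u y 3 = 0) ∧ (∃ x, ch u x 2 ≠ 0) ∧ ∃ g ∈ SUG B, ∃ k ∈ SUG B,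
      ∀ K ≤ UG B, u ∈ K → g * u * g⁻¹ ∈ K → k * u * k⁻¹ ∈ K → SUG B ≤ K := by
  have := hσ.finite
  obtain ⟨e, he0, he⟩ := h.exists_isotropic (by omega)
  obtain ⟨f, hf, hef⟩ := h.exists_hyperbolic he0 he
  obtain ⟨z, hez, hfz, hzz, hz⟩ := h.exists_frame_three hn he hf hef
  have hfe : B f e = 1 := by rw [← h.symm, hef, map_one]
  have hze := h.eq_zero_comm.1 hez
  have hzf := h.eq_zero_comm.1 hfz
  have σ0 : ∀ {a : F}, a ≠ 0 → σ a ≠ 0 := fun ha => (map_ne_zero σ).2 ha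
  have hr0 : r ≠ 0 := fun h0 => hr (by simp [h0])
  have hr1 : r - σ r ≠ 0 := sub_ne_zero.2 hr.symm
  have hσr := σ0 hr0
  have hσρ := σ0 hρ0
  have hc' : c + σ c = 0 := by rw [hc, add_neg_cancel]
  obtain ⟨ζ, hζ⟩ := hσ.exists_norm_eq (μ := -(c * (r - σ r))) (by
    rw [map_neg, map_mul, map_sub, h.invol, hc]; ring)
  have hζ0 : ζ ≠ 0 := fun h0 => neg_ne_zero.2 (mul_ne_zero hc0 hr1) (by rw [← hζ, h0, zero_mul])
  have E₁ : ∀ a : F, B e (a • z) = 0 := fun a => by simp [hez]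
  have E₂ : ∀ a : F, B (a • z) e = 0 := fun a => by simp [hze]
  set u := eichler B e (ζ • z) (-(r * c)) he (E₁ ζ) (E₂ ζ) with hudef
  have hγ : -(r * c) + σ (-(r * c)) + B (ζ • z) (ζ • z) = 0 := by
    simp only [map_neg, map_mul, hc, LinearMap.map_smulₛₗ, LinearMap.smul_apply, map_smul,
      smul_eq_mul, hzz]
    linear_combination -hζ
  have huS : u ∈ SUG B := h.QE_le_SUG he0 he (h.eichler_mem_QE hγ)
  have hu' : ∀ v, u v = v + (B e v * ζ) • z + (-(r * c) * B e v - σ ζ * B z v) • e := fun v => by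
    simp only [hudef, eichler_apply, LinearMap.map_smulₛₗ, LinearMap.smul_apply, smul_eq_mul]
    module
  have c2 : ∀ y, ch u y 2 = (B e y * (ζ * σ ζ)) • e := fun y => by
    simp only [ch_succ, ch_zero, hu', map_add, map_sub, map_smul, he, hez, hze, hzz, smul_eq_mul]
    module
  refine ⟨u, huS, fun y => by rw [ch_succ, c2, map_smul, hu']; simp [he, hze], ⟨f, by
    rw [c2, hef, one_mul]; exact smul_ne_zero (mul_ne_zero hζ0 (σ0 hζ0)) he0⟩, ?_⟩
  -- the element `g`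
  obtain ⟨l, hl, hl'⟩ := hσ.exists_norm_eq_not_fixed (μ := 1) one_ne_zero (map_one σ)
  have hl0 : l ≠ 0 := fun h0 => by simp [h0] at hl
  obtain ⟨s, hs'⟩ := hσ.exists_norm_eq (μ := (l - σ l) / c / (ζ * σ ζ)) (by
    rw [map_div₀, map_div₀, map_sub, map_mul, h.invol, h.invol, hc, mul_comm (σ ζ), div_neg,
      ← neg_div, neg_sub])
  have hs0 : s * σ s ≠ 0 := hs' ▸ div_ne_zero (div_ne_zero (sub_ne_zero.2 hl'.symm) hc0)
    (mul_ne_zero hζ0 (σ0 hζ0))
  obtain ⟨t, ht⟩ := h.exists_trace_eq (map_one σ)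
  obtain ⟨ξ, hξ⟩ : ∃ ξ, s * σ s * (-(r * c) + σ ζ * ξ - ζ * σ ξ) = l / c := by
    refine ⟨(l / c / (s * σ s) + r * c) * t / σ ζ, ?_⟩
    have a₁ : σ (l / c / (s * σ s) + r * c) = -(l / c / (s * σ s) + r * c) := by
      rw [map_add, map_div₀, map_div₀, map_mul, map_mul, h.invol, hc, mul_comm (σ s), hs', hζ]
      have := sub_ne_zero.2 hl'.symm
      field_simp
      ring
    rw [map_div₀, map_mul, a₁, h.invol, mul_div_cancel₀ _ (σ0 hζ0), mul_div_cancel₀ _ hζ0]
    linear_combination s * σ s * (l / c / (s * σ s) + r * c) * ht + mul_div_cancel₀ (l / c) hs0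
  obtain ⟨γ₀, hγ₀⟩ := h.exists_trace_eq (s := ξ * σ ξ) (by rw [map_mul, h.invol, mul_comm])
  set x := s • (f + ξ • z + γ₀ • e) with hx
  have hxx : B x x = 0 := by
    simp only [hx, map_add, map_smul, LinearMap.map_smulₛₗ, LinearMap.add_apply,
      LinearMap.smul_apply, smul_eq_mul, he, hf, hef, hfe, hez, hze, hfz, hzf, hzz]
    linear_combination s * σ s * hγ₀
  have hxu : B x (u x) = l / c := by
    rw [hu', map_add, map_add, hxx, ← hξ]
    simp only [hx, map_add, map_smul, LinearMap.map_smulₛₗ, LinearMap.add_apply,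
      LinearMap.smul_apply, smul_eq_mul, he, hf, hef, hfe, hez, hze, hfz, hzf, hzz]
    ring
  have hlc : l / c ≠ 0 := div_ne_zero hl0 hc0
  obtain ⟨g, hg, hg'⟩ := h.witt_family_SUG (x := ![x, u x]) (y := ![e, (l / c) • f])
    (linearIndependent_pair_of_gram (B := B) (by
      rw [hxx, zero_mul, zero_sub, ← h.symm x, hxu]
      exact neg_ne_zero.2 (mul_ne_zero hlc (σ0 hlc))))
    (linearIndependent_pair_of_gram (B := B) (by simp [he, hef, hfe, hl0, hc0]))
    (by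
      intro i j
      fin_cases i <;> fin_cases j
      · simp [hxx, he]
      · simp [hxu, hef]
      · simp [← h.symm x, hxu, hfe]
      · simp [huS.1 x x, hxx, hf])
    (z := z) (by simp [hzz]) (by intro i; fin_cases i <;> simp [hze, hzf])
  have g₀ : g x = e := hg' 0
  have g₁ : g (u x) = (l / c) • f := hg' 1
  -- the element `k`
  have li : ∀ a b d : F, a ≠ 0 → b ≠ 0 → d ≠ 0 → LinearIndependent F ![a • e, b • f, d • z] :=
    fun a b d ha hb hd => Fintype.linearIndependent_iff.2 fun w hw i => by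
      rw [Fin.sum_univ_three] at hw
      have a₁ := congrArg (B e) hw
      have a₂ := congrArg (B f) hw
      have a₃ := congrArg (B z) hw
      simp [he, hf, hef, hfe, hez, hze, hfz, hzf, hzz, ha, hb, hd] at a₁ a₂ a₃
      fin_cases i
      exacts [a₂, a₁, a₃]
  have li₁ : LinearIndependent F ![e, f, z] := by simpa using li 1 1 1 one_ne_zero one_ne_zero one_ne_zero
  obtain ⟨k, hk, hk'⟩ := h.witt_family li₁ (li ρ (σ ρ)⁻¹ (σ ρ / ρ) hρ0 (inv_ne_zero hσρ)
    (div_ne_zero hσρ hρ0)) (by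
      intro i j
      fin_cases i <;> fin_cases j <;>
        simp [he, hf, hef, hfe, hez, hze, hfz, hzf, hzz, hρ0, hσρ, h.invol])
  have k₀ : k e = ρ • e := hk' 0
  have k₂ : k z = (σ ρ / ρ) • z := hk' 2
  have hkS : k ∈ SUG B := mem_SUG'.2 ⟨hk, by
    rw [det_of_eigenbasis (basisOfLinearIndependentOfCardEqFinrank li₁ (by simp [hn])) _
      ![ρ, (σ ρ)⁻¹, σ ρ / ρ] (fun i => by
        rw [coe_basisOfLinearIndependentOfCardEqFinrank]
        fin_cases i
        exacts [hk' 0, hk' 1, hk' 2]), Fin.prod_univ_three]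
    simp only [Matrix.cons_val_zero, Matrix.cons_val_one, Matrix.cons_val]
    field_simp⟩
  refine ⟨g, hg, k, hkS, fun K hK hu hw hv => ?_⟩
  have hρ' : σ r * ρ ^ 2 = -σ ρ := by simpa [h.invol] using congrArg σ hρ
  have hN : ρ * σ ρ * (r * σ r) = 1 := mul_right_cancel₀ (mul_ne_zero hρ0 hσρ) (by
    linear_combination (σ r * ρ ^ 2) * hρ - ρ * hρ')
  have hv' : ∀ v, (k * u * k⁻¹) v = v + B e v • (-(ζ / r)) • z - B ((-(ζ / r)) • z) v • e +
      (-(c / σ r) * B e v) • e := fun v => by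
    obtain ⟨v, rfl⟩ := k.surjective v
    have a₁ : B e v = σ ρ * B e (k v) := by rw [← hk e, k₀]; simp
    have a₂ : B z v = ρ / σ ρ * B z (k v) := by rw [← hk z, k₂]; simp [h.invol]
    simp only [LinearEquiv.mul_apply, LinearEquiv.coe_inv, LinearEquiv.symm_apply_apply, hu',
      map_add, map_smul, k₀, k₂, a₁, a₂, LinearMap.map_smulₛₗ, LinearMap.smul_apply, smul_eq_mul,
      map_neg, map_div₀]
    match_scalars
    · rfl
    · field_simp
      linear_combination B e (k v) * hρ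
    · field_simp
      linear_combination (-(B e (k v) * c * σ ρ)) * hN - σ ζ * B z (k v) * hρ'
  have A₁ : ζ • z ∈ h.AE K he := h.mem_AE_of_eichler he hu
  have A₂ : (-(ζ / r)) • z ∈ h.AE K he := ⟨E₁ _, _, hv, _, hv'⟩
  have t₀ : Tk B K e c := hA (tkCoef K he)
    ⟨_, h.transv_mem_of_AE he A₂ A₁ (c := c * (r - σ r) ^ 2 / (r * σ r)) (by
      rw [map_div₀, map_mul, map_mul, map_pow, map_sub, h.invol, hc, mul_comm (σ r)]; ring) (by
      simp only [LinearMap.map_smulₛₗ, LinearMap.smul_apply, map_smul, smul_eq_mul, hzz, map_neg,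
        map_div₀]
      field_simp
      linear_combination (r - σ r) * hζ), fun v => rfl⟩
    fun h2 => ⟨u * u, mul_mem hu hu, fun v => by
      simp only [LinearEquiv.mul_apply, hu', map_add, map_smul, he, hez, hze, hzz, smul_eq_mul]
      match_scalars <;> grind⟩
  set w := g * u * g⁻¹ with hwdef
  have w₁ : w e = (l / c) • f := by rw [← g₁, ← g₀]; simp [hwdef]
  have Tf : ∀ a, Tk B K e a → Tk B K f (-(a / c ^ 2)) := fun a ha => by
    have := (w₁ ▸ ha.conj hw (hK hw)).smul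
    rw [map_div₀, hc] at this
    convert this using 1
    field_simp
    linear_combination a * hl
  have wn : ∀ a, a ≠ 0 → Tk B K e a → Tk B K f (-a⁻¹) →
      ∃ n ∈ K, n e = (-a⁻¹) • f ∧ n f = a • e ∧ n z = z := by
    rintro a ha ⟨t₁, ht₁, ht₁'⟩ ⟨t₂, ht₂, ht₂'⟩
    refine ⟨t₁ * t₂ * t₁, mul_mem (mul_mem ht₁ ht₂) ht₁, ?_, ?_, ?_⟩ <;>
      simp only [LinearEquiv.mul_apply, ht₁', ht₂', map_add, map_smul, he, hf, hef, hfe, hez, hfz,
        smul_eq_mul] <;> match_scalars <;> field_simp <;> ring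
  obtain ⟨n, hn', n₁, n₂, n₃⟩ := wn c hc0 t₀ (by convert Tf c t₀ using 1; field_simp)
  have hm : (n * (k * u * k⁻¹) * n * u * n⁻¹) e = r • e := by
    have a₁ : n⁻¹ e = c⁻¹ • f := by
      rw [LinearEquiv.coe_inv, LinearEquiv.symm_apply_eq, map_smul, n₂, inv_smul_smul₀ hc0]
    rw [LinearEquiv.mul_apply, LinearEquiv.mul_apply, LinearEquiv.mul_apply, LinearEquiv.mul_apply,
      a₁]
    simp only [hv', hu', map_add, map_sub, map_smul, n₁, n₂, n₃, he, hef, hez, hze, hzf, hzz,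
      smul_eq_mul, LinearMap.map_smulₛₗ, LinearMap.smul_apply, map_neg, map_div₀]
    match_scalars
    · field_simp
      linear_combination c * hζ
    all_goals field_simp; ring
  have hmK : n * (k * u * k⁻¹) * n * u * n⁻¹ ∈ K :=
    mul_mem (mul_mem (mul_mem (mul_mem hn' hv) hn') hu) (inv_mem hn')
  have hT : ∀ a, a + σ a = 0 → Tk B K e a := tk_of_mul he hc0 hc' t₀ hs fun a ha =>
    (hm ▸ ha.conj hmK (hK hmK)).smul
  have hZ : ∀ a, σ a = a → ∀ b : F, b • z ∈ h.AE K he → (a * b) • z ∈ h.AE K he := by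
    intro a ha b hb
    rcases eq_or_ne a 0 with rfl | ha0
    · simp
    obtain ⟨m, hm, -, m₂, m₃⟩ := wn (-(a * c)) (neg_ne_zero.2 (mul_ne_zero ha0 hc0))
      (hT _ (by rw [map_neg, map_mul, ha, hc]; ring)) (by
        convert Tf _ (hT (-(c / a)) (by rw [map_neg, map_div₀, ha, hc]; ring)) using 1
        field_simp)
    have := h.conj_mem_AE he hK he (mul_mem hm hn') ha0 (by
      rw [LinearEquiv.mul_apply, n₁, map_smul, m₂, smul_smul]; congr 1; field_simp) hb
    rwa [LinearEquiv.mul_apply, map_smul, n₃, map_smul, m₃, ha, smul_smul] at this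
  have hQ : QE B e ≤ K := h.QE_le_of_AE he hn.ge hK he0 fun v hv => by
    obtain ⟨y, hy₁, hy₂, hy⟩ := h.hyp_decomp he hf hef v
    rw [hy, hv, zero_smul, add_zero, hz y hy₁ hy₂]
    refine add_mem ?_ (h.smul_self_mem_AE he _)
    set b := -B z y / ζ with hb
    have := add_mem (hZ ((b * r - σ (b * r)) / (r - σ r)) (by
        rw [map_div₀, map_sub, map_sub, h.invol, h.invol, ← neg_div_neg_eq, neg_sub, neg_sub]) _ A₁)
      (hZ (r * σ r * (b - σ b) / (r - σ r)) (by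
        rw [map_div₀, map_mul, map_mul, map_sub, map_sub, h.invol, h.invol, ← neg_div_neg_eq,
          neg_sub, ← mul_neg, neg_sub, mul_comm (σ r)]) _ A₂)
    rw [← add_smul] at this
    convert this using 2
    rw [← div_mul_cancel₀ (-B z y) hζ0, ← hb, map_mul]
    field_simp
    ring
  rw [← h.TG_eq_SUG hσ fun h3 => hq h3.2]
  exact h.TG_le_of_QE he ((hK hw e e).trans he) (by rw [w₁]; simpa [hef] using hlc) hK hQ
    (PtRel.of_apply hw e)

theorem IsBar.fixed_le_of_trace (hσ : IsBar q σ) (hq : q ≠ 2) (h2 : (2 : F) = 0) {η : F}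
    (hη : IsPrimitiveRoot η (q + 1)) (h1 : η ^ 3 + σ (η ^ 3) ≠ 1) (R : Subring F)
    (hR : η ^ 3 + σ (η ^ 3) ∈ R) (a : F) (ha : σ a = a) : a ∈ R := by
  have := hσ.finite
  have hq2 := hσ.two_le
  have hC : CharP F 2 := CharTwo.of_one_ne_zero_of_two_eq_zero one_ne_zero h2
  let S : Subfield F :=
    { R ⊓ (fixedField σ).toSubring with
      inv_mem' := fun x hx => ⟨Linear.subring_inv_mem hx.1, (fixedField σ).inv_mem hx.2⟩ }
  have hS : S ≤ fixedField σ := fun x hx => hx.2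
  by_contra haR
  have hlt : Nat.card S < q := by
    rw [← hσ.card_fixedField]
    exact Set.Finite.card_lt_card (Set.toFinite _) (Set.ssubset_iff_subset_ne.2
      ⟨hS, fun h0 => haR (((Set.ext_iff.1 h0 a).2 ha).1)⟩)
  have hdvd : Nat.card S ∣ q := by
    rw [← hσ.card_fixedField]
    exact AddSubgroup.card_dvd_of_le (H := S.toAddSubgroup) (K := (fixedField σ).toAddSubgroup) hS
  have := Fintype.ofFinite S
  obtain ⟨j, -, hj⟩ := FiniteField.card S 2
  rw [Nat.card_eq_fintype_card] at hlt hdvd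
  have hQ2 : 2 ≤ Fintype.card S := Fintype.one_lt_card
  have hn : η ^ 3 * σ (η ^ 3) = 1 := by
    rw [hσ.norm_eq, ← pow_mul, mul_comm, pow_mul, hη.pow_eq_one, one_pow]
  have h3 : (η ^ 3 + σ (η ^ 3)) ^ Fintype.card S = η ^ 3 + σ (η ^ 3) :=
    congrArg Subtype.val (FiniteField.pow_card (⟨η ^ 3 + σ (η ^ 3), hR, by
      refine mem_fixedField.2 ?_
      rw [map_add, hσ.invol, add_comm]⟩ : S))
  have h4 : (η ^ 3) ^ Fintype.card S * σ (η ^ 3) ^ Fintype.card S = 1 := by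
    rw [← mul_pow, hn, one_pow]
  rw [hj, add_pow_char_pow, ← hj] at h3
  have h5 : ((η ^ 3) ^ Fintype.card S - η ^ 3) * ((η ^ 3) ^ Fintype.card S * η ^ 3 - 1) = 0 := by
    linear_combination (η ^ 3 * (η ^ 3) ^ Fintype.card S) * h3 - η ^ 3 * h4 +
      (η ^ 3) ^ Fintype.card S * hn
  have hη0 : η ≠ 0 := hη.ne_zero (by omega)
  obtain ⟨k, hk⟩ := hdvd
  generalize Fintype.card S = Q at *
  have hk2 : 2 ≤ k := by
    rcases k with _ | _ | k <;> omega
  have hkQ : 2 * Q ≤ q := by rw [hk, mul_comm]; exact Nat.mul_le_mul_left _ hk2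
  have h8 : q = 8 := by
    rcases mul_eq_zero.1 h5 with h6 | h6
    · obtain ⟨Q, rfl⟩ : ∃ Q', Q = Q' + 1 := ⟨Q - 1, by omega⟩
      obtain ⟨m, hm⟩ := (hη.pow_eq_one_iff_dvd (3 * Q)).1 (mul_right_cancel₀ (pow_ne_zero 3 hη0) (by
        rw [pow_mul, ← pow_succ, one_mul]; exact sub_eq_zero.1 h6))
      have : m = 1 := by
        rcases m with _ | _ | m
        · omega
        · rfl
        · nlinarith
      subst this
      have : Q + 1 ∣ 4 := (Nat.dvd_add_right (Dvd.intro k rfl)).1 ⟨3, by omega⟩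
      have h4 : Q ≤ 3 := Nat.le_of_succ_le_succ (Nat.le_of_dvd (by omega) this)
      interval_cases Q <;> omega
    · obtain ⟨m, hm⟩ := (hη.pow_eq_one_iff_dvd (3 * (Q + 1))).1 (by
        rw [pow_mul, pow_succ]; exact sub_eq_zero.1 h6)
      have : m = 1 := by
        rcases m with _ | _ | m
        · omega
        · rfl
        · nlinarith
      subst this
      have : Q ∣ 2 := (Nat.dvd_add_right (Dvd.intro_left 3 rfl)).1 ⟨k, by omega⟩
      have := Nat.le_of_dvd (by omega) this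
      omega
  subst h8
  have h9 : η ^ 3 - 1 ≠ 0 := sub_ne_zero.2 (hη.pow_ne_one_of_pos_of_lt (by omega) (by omega))
  refine h1 (mul_left_cancel₀ (mul_ne_zero h9 (pow_ne_zero 3 hη0)) ?_)
  linear_combination (η ^ 3 - 1) * hn + hη.pow_eq_one - (η ^ 3 - 1) * η ^ 3 * h2

theorem IsHerm.gen3_three' [FiniteDimensional F V] (h : IsHerm σ B) (hσ : IsBar q σ) (hq : q ≠ 2)
    (hn : finrank F V = 3) :
    ∃ u ∈ SUG B, (∀ y, ch u y 3 = 0) ∧ (∃ x, ch u x 2 ≠ 0) ∧ ∃ g ∈ SUG B, ∃ k ∈ SUG B,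
      ∀ K ≤ UG B, u ∈ K → g * u * g⁻¹ ∈ K → k * u * k⁻¹ ∈ K → SUG B ≤ K := by
  have := hσ.finite
  have σ0 : ∀ {a : F}, a ≠ 0 → σ a ≠ 0 := fun ha => (map_ne_zero σ).2 ha
  obtain ⟨δ, hδ0, hδ⟩ := hσ.exists_skew
  obtain ⟨s, hs0, hs, hs1⟩ := Linear.exists_ringGen_sq (F := fixedField σ)
  have hs2 : ∀ R : Subring F, (s : F) ^ 2 ∈ R → ∀ a, σ a = a → a ∈ R := fun R hR a ha =>
    (hs (R.comap (fixedField σ).subtype) (by simpa using hR) ▸ Subring.mem_top _ :
      (⟨a, ha⟩ : fixedField σ) ∈ R.comap (fixedField σ).subtype)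
  have hs3 : (s : F) ≠ 0 := by simpa using hs0
  have hs4 : σ s = s := s.2
  by_cases h2 : (2 : F) = 0
  · have hC : CharP F 2 := CharTwo.of_one_ne_zero_of_two_eq_zero one_ne_zero h2
    obtain ⟨η, hη⟩ := hσ.exists_primitive_norm_one
    have hq2 := hσ.two_le
    have hη1 : η * σ η = 1 := by rw [hσ.norm_eq, hη.pow_eq_one]
    obtain ⟨ω, hω0, hω⟩ := hσ.exists_div_eq hη1
    have hη0 : η ≠ 0 := hη.ne_zero (by omega)
    have h9 : η ^ 3 - 1 ≠ 0 := sub_ne_zero.2 (hη.pow_ne_one_of_pos_of_lt (by omega) (by omega))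
    have hη2 : σ η = η⁻¹ := eq_inv_of_mul_eq_one_right hη1
    have key : ∀ t : F, t ≠ 0 → σ t = t → (∀ R : Subring F, (t ^ 2 * (η * ω ^ 2))⁻¹ ∈ R →
        ∀ a, σ a = a → a ∈ R) → (η ^ 3 + σ (η ^ 3) = 1 ∨ t * (η ^ 2 * ω) = η ^ 3 - 1) → _ :=
      fun t ht0 ht hR hc => h.gen3_three hσ hq hn (r := (t * (η ^ 2 * ω))⁻¹) (ρ := t * ω) (c := δ)
        (fun h0 => h9 (by
          simp only [map_inv₀, map_mul, map_pow, ht, hω, hη2] at h0
          field_simp at h0
          linear_combination h0))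
        (mul_ne_zero ht0 hω0) (by
          rw [map_mul, ht, hω, CharTwo.neg_eq]; field_simp) hδ0 hδ
        (fun R h0 => hR R (by
          convert h0 using 1
          simp only [map_inv₀, map_mul, map_pow, ht, hω, hη2]
          field_simp))
        fun A hA hA' => by
          rcases hc with hc | hc
          · convert hA using 1
            simp only [map_inv₀, map_mul, map_pow, ht, hω, hη2] at hc ⊢
            field_simp at hc ⊢
            grind
          · convert hA' h2 using 1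
            simp only [map_inv₀, map_mul, map_pow, ht, hω, hη2]
            field_simp
            grind
    by_cases h1 : η ^ 3 + σ (η ^ 3) = 1
    · obtain ⟨t, ht⟩ := (frobeniusEquiv F 2).surjective ((s : F) ^ 2 * (η * ω ^ 2))⁻¹
      change t ^ 2 = _ at ht
      have h3 : η * ω ^ 2 ≠ 0 := mul_ne_zero hη0 (pow_ne_zero 2 hω0)
      refine key t (fun h0 => inv_ne_zero (mul_ne_zero (pow_ne_zero 2 hs3) h3) (by
        rw [← ht, h0]; simp)) ((frobeniusEquiv F 2).injective ?_) (fun R hR => hs2 R ?_) (Or.inl h1)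
      · change σ t ^ 2 = t ^ 2
        rw [← map_pow, ht]
        simp only [map_inv₀, map_mul, map_pow, hs4, hω, hη2]
        field_simp
      · convert hR using 1
        rw [ht]
        field_simp
    · refine key ((η ^ 3 - 1) / (η ^ 2 * ω)) (div_ne_zero h9 (mul_ne_zero (pow_ne_zero 2 hη0) hω0))
        ?_ (fun R hR => hσ.fixed_le_of_trace hq h2 hη h1 R ?_) (Or.inr (by field_simp))
      · simp only [map_div₀, map_sub, map_one, map_mul, map_pow, hω, hη2]
        field_simp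
        grind
      · convert Linear.subring_inv_mem hR using 1
        simp only [map_pow, hη2]
        field_simp
        grind
  · obtain ⟨m, hm⟩ := hs1 ⟨δ * σ δ, by rw [mem_fixedField, map_mul, hσ.invol, mul_comm]⟩
      (fun h0 => mul_ne_zero hδ0 (σ0 hδ0) (congrArg Subtype.val h0))
    have hm' : (s : F) ^ m = δ * σ δ := congrArg Subtype.val hm
    obtain ⟨t, ht0, ht, ht'⟩ : ∃ t : F, t ≠ 0 ∧ σ t = t ∧
        ∀ R : Subring F, t ^ 2 * (δ * σ δ) ∈ R → (s : F) ^ 2 ∈ R := by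
      obtain ⟨i, rfl | rfl⟩ := Nat.even_or_odd' m
      · refine ⟨s / s ^ i, by simp [hs3], by simp [hs4], fun R hR => ?_⟩
        convert hR using 1
        rw [← hm']
        field_simp
        ring
      · refine ⟨1 / s ^ i, by simp [hs3], by simp [hs4], fun R hR => ?_⟩
        convert pow_mem hR 2 using 2
        rw [← hm']
        field_simp
        ring
    refine h.gen3_three hσ hq hn (r := t * δ) (ρ := -(t * δ)⁻¹) (c := δ) (fun h0 => ?_)
      (by simp [ht0, hδ0]) (by simp only [map_neg, map_inv₀, map_mul, ht, hδ]; field_simp) hδ0 hδ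
      (fun R hR => hs2 R (ht' R (by convert hR using 1; rw [map_mul, ht]; ring))) fun A hA _ => ?_
    · rw [map_mul, ht, hδ] at h0
      exact mul_ne_zero h2 (mul_ne_zero ht0 hδ0) (by linear_combination -h0)
    · have h4 : (-4 : F) ≠ 0 := by
        rw [show (-4 : F) = -(2 * 2) by norm_num]; exact neg_ne_zero.2 (mul_ne_zero h2 h2)
      have := Linear.subring_inv_mem (R := Linear.mulStab A) (r := -4) (by simp) _ hA
      convert this using 1
      rw [map_mul, ht, hδ, eq_inv_mul_iff_mul_eq₀ h4]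
      field_simp
      ring

open Matrix in
theorem IsBar.exists_su_three_gen3 (hσ : IsBar q σ) (hq : q ≠ 2) : ∃ u g k : SU 3 F q,
    (IsNilpotent (u.1.1 - 1) ∧ (u.1.1 - 1) ^ 2 ≠ 0) ∧
      Subgroup.closure {u, g * u * g⁻¹, k * u * k⁻¹} = ⊤ := by
  obtain ⟨u, hu, h1, ⟨x, hx⟩, g, hg, k, hk, H⟩ :=
    (hσ.isHerm (ι := Fin 3)).gen3_three' hσ hq (by simp)
  set φ := hσ.suEquiv 3 with hφ
  obtain ⟨u, rfl⟩ : ∃ g', (φ g').1 = u := ⟨φ.symm ⟨u, hu⟩, by simp⟩
  obtain ⟨g, rfl⟩ : ∃ g', (φ g').1 = g := ⟨φ.symm ⟨g, hg⟩, by simp⟩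
  obtain ⟨k, rfl⟩ : ∃ k', (φ k').1 = k := ⟨φ.symm ⟨k, hk⟩, by simp⟩
  have h2 : ∀ k x, ch (φ u).1 x k = (u.1.1 - 1) ^ k *ᵥ x := fun k x => by
    induction k with
    | zero => simp
    | succ k ih => rw [ch_succ, ih, pow_succ', ← mulVec_mulVec, sub_mulVec, one_mulVec]; rfl
  refine ⟨u, g, k, ⟨⟨3, Asch.mat_ext_mulVec fun v => by rw [← h2, h1, zero_mulVec]⟩,
    fun h0 => hx (by rw [h2, h0, zero_mulVec])⟩, eq_top_iff.2 fun s _ => ?_⟩
  obtain ⟨s', hs', h0⟩ := H ((Subgroup.closure {u, g * u * g⁻¹, k * u * k⁻¹}).map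
      ((SUG _).subtype.comp φ.toMonoidHom)) (by rintro _ ⟨a, -, rfl⟩; exact (φ a).2.1)
    ⟨u, Subgroup.subset_closure (by simp), rfl⟩
    ⟨g * u * g⁻¹, Subgroup.subset_closure (by simp), by simp⟩
    ⟨k * u * k⁻¹, Subgroup.subset_closure (by simp), by simp⟩ (φ s).2
  rwa [← φ.injective (Subtype.ext h0)]

end Cfsg.Lib.Unitary
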