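import Cfsg.Agent.Lib.Sz.Aut
import Cfsg.Agent.Lib.Linear.FieldAut
import Cfsg.Agent.Lib.Unitary.SmallField
import Cfsg.Agent.Lib.Unitary.PrimeGraph

/-!
# Groups of unbounded order with prime graph `3 - 2 - 7`, `2 - 5 - 3`, `13`: extensions of `Sz(8):3`
-/

namespace Cfsg.Lib.Unitary.Sz8

open Cfsg.Lib.Spec Cfsg.Lib.Sz Finset Matrix SemidirectProduct

/-- The prime graph of `PSp₆(3)`. -/
structure PG (S : Set ℕ) : Prop where
  dvd : ∀ m n, m ∣ n → n ∈ S → m ∈ S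
  vert : ∀ p, p.Prime → p ∈ S → p ∣ 2730
  h13 : 13 ∈ S
  edge : 6 ∈ S ∧ 10 ∈ S ∧ 14 ∈ S ∧ 15 ∈ S
  non : 21 ∉ S ∧ 35 ∉ S ∧ 91 ∉ S ∧ 26 ∉ S ∧ 39 ∉ S ∧ 65 ∉ S

theorem prime_cases {p : ℕ} (hp : p.Prime) (h : p ∣ 2730) :
    p = 2 ∨ p = 3 ∨ p = 5 ∨ p = 7 ∨ p = 13 := by
  have : p ∈ Nat.primeFactors 2730 := Nat.mem_primeFactors.mpr ⟨hp, h, by norm_num⟩
  rw [show Nat.primeFactors 2730 = {2, 3, 5, 7, 13} by decide +kernel] at this
  simpa using this

theorem PG.imp {S T : Set ℕ} (hS : PG S) (hT : PG T) :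
    (∀ p : ℕ, p.Prime → p ∈ S → p ∈ T) ∧
      ∀ p q : ℕ, p.Prime → q.Prime → p ≠ q → p * q ∈ S → p * q ∈ T := by
  obtain ⟨a1, a2, a3, a4⟩ := hT.edge
  obtain ⟨b1, b2, b3, b4, b5, b6⟩ := hS.non
  refine ⟨fun p hp h => ?_, fun p q hp hq hpq h => ?_⟩
  · rcases prime_cases hp (hS.vert p hp h) with rfl | rfl | rfl | rfl | rfl
    exacts [hT.dvd _ _ (by norm_num) a1, hT.dvd _ _ (by norm_num) a1, hT.dvd _ _ (by norm_num) a2,
      hT.dvd _ _ (by norm_num) a3, hT.h13]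
  · rcases prime_cases hp (hS.vert p hp (hS.dvd _ _ (dvd_mul_right p q) h)) with
      rfl | rfl | rfl | rfl | rfl <;>
    rcases prime_cases hq (hS.vert q hq (hS.dvd _ _ (dvd_mul_left q _) h)) with
      rfl | rfl | rfl | rfl | rfl <;>
    first | exact absurd rfl hpq | assumption | contradiction

theorem PG.same {S T : Set ℕ} (hS : PG S) (hT : PG T) : SamePG S T :=
  ⟨fun p hp => ⟨(hS.imp hT).1 p hp, (hT.imp hS).1 p hp⟩,
    fun p q hp hq h => ⟨(hS.imp hT).2 p q hp hq h, (hT.imp hS).2 p q hp hq h⟩⟩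

/-- The Tits endomorphism of the field with 8 elements. -/
def T : Tits K8 where
  σ := ⟨⟨⟨fun x => x * x * (x * x), by decide⟩, by decide⟩, by decide, by decide⟩
  σσ := by decide

instance instCharPK8 : CharP K8 2 := T.charP

/-- The group `Sz(8)`. -/
abbrev G : Type := T.szGL

/-- The model. -/
noncomputable abbrev M : Model K8 G := T.model

instance instFiniteG : Finite G := M.finite

/-- The group `Sz(8):3`. -/
abbrev H : Type := G ⋊[M.fieldAut] (K8 ≃+* K8)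

theorem card8 : Nat.card K8 = 8 := by rw [Nat.card_eq_fintype_card, card_K8]

theorem card_aut : Nat.card (K8 ≃+* K8) = 3 :=
  Lib.Linear.card_ringAut (p := 2) card_K8

instance instFiniteAut : Finite (K8 ≃+* K8) := Nat.finite_of_card_ne_zero (by simp [card_aut])

instance instFiniteH : Finite H := Finite.of_equiv _ SemidirectProduct.equivProd.symm

theorem card_H : Nat.card H = 87360 := by
  rw [Nat.card_congr SemidirectProduct.equivProd, Nat.card_prod, M.card_G, card8, card_aut]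
  norm_num

theorem exists_elt (A : Matrix (Fin 4) (Fin 4) K8) {p : ℕ} (hp : p.Prime)
    (h : (Aᵀ * wM K8 * A = wM K8 ∧ Lie.star4 A = A.map fun x => x * x * (x * x)) ∧
      A ≠ 1 ∧ A ^ p = 1) : ∃ g : G, M.mat g = A ∧ orderOf g = p := by
  obtain ⟨g, rfl⟩ := (M.range_iff A).2 h.1
  have : Fact p.Prime := ⟨hp⟩
  exact ⟨g, rfl, orderOf_eq_prime (M.mat_inj (by rw [map_pow, h.2.2, map_one]))
    fun e => h.2.1 (by rw [e, map_one])⟩

theorem orderOf_G (g : G) : orderOf g ∣ 4 ∨ orderOf g ∣ 7 ∨ orderOf g ∣ 13 ∨ orderOf g ∣ 5 := by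
  rcases M.orderOf_dvd g with h | h | h
  · exact Or.inl h
  · exact Or.inr (Or.inl (by rwa [card8] at h))
  by_cases h1 : g = 1
  · simp [h1]
  have h2 := (M.ell_of_orderOf_dvd h1 h).card_centralizer (m := 1) le_rfl card8
  have h3 := Subgroup.orderOf_dvd_natCard (Subgroup.centralizer {g})
    (Subgroup.mem_centralizer_singleton_iff.mpr rfl : g ∈ _)
  rcases h2 with h2 | h2 <;> rw [h2] at h3
  · exact Or.inr (Or.inr (Or.inl h3))
  · exact Or.inr (Or.inr (Or.inr h3))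

theorem exists_inl {x : H} (h : (orderOf x).Coprime 3) : ∃ g, x = inl g := by
  have h1 : orderOf x.right ∣ 3 := card_aut ▸ orderOf_dvd_natCard _
  have h2 : orderOf x.right ∣ orderOf x := orderOf_map_dvd rightHom x
  have h3 : x.right = 1 := orderOf_eq_one_iff.mp (Nat.eq_one_of_dvd_coprimes h h2 h1)
  exact ⟨x.left, by ext <;> simp [h3]⟩

theorem eq_one_of_fix {φ : K8 ≃+* K8} {x : K8} (h : φ x = x) (h0 : x ≠ 0) (h1 : x ≠ 1) :
    φ = 1 := by
  have key : ∀ x y : K8, x ≠ 0 → x ≠ 1 → y = 0 ∨ ∃ n : Fin 7, y = x ^ n.1 := by decide +kernel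
  ext y
  rcases key x y h0 h1 with rfl | ⟨n, rfl⟩ <;> simp [h]

theorem orderOf_dvd_of_fix {φ : K8 ≃+* K8} (hφ : φ ≠ 1) {g : G} (h : M.fieldAut φ g = g) :
    orderOf g ∣ 20 := by
  let T2 : Tits (ZMod 2) := ⟨RingHom.id _, by decide⟩
  let ι : ZMod 2 →+* K8 := ZMod.castHom dvd_rfl K8
  have hι : ∀ x, ι (T2.model.σ x) = M.σ (ι x) := T.map_σ T2 ι
  let A : Matrix (Fin 4) (Fin 4) (ZMod 2) := of fun i j => if M.mat g i j = 0 then 0 else 1
  have hA : A.map ι = M.mat g := by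
    ext1 i j
    have h1 : φ (M.mat g i j) = M.mat g i j := by
      have := M.mat_fieldAut φ g
      rw [h] at this
      exact (congrFun₂ this i j).symm
    simp only [A, map_apply, of_apply]
    split_ifs with h2
    · rw [h2, map_zero]
    · rw [map_one]
      by_contra h3
      exact hφ (eq_one_of_fix h1 h2 (Ne.symm h3))
  obtain ⟨g', hg'⟩ := (T2.model.range_iff A).2
    ((T.isSz_map_iff T2 ι hι A).1 (hA ▸ M.isSz_mat g))
  have h1 : M.embed T2.model ι hι g' = g := M.mat_inj (by rw [M.mat_embed, hg', hA])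
  rw [← h1, orderOf_injective _ (M.embed_inj _ _ _)]
  have := orderOf_dvd_natCard g'
  rwa [T2.model.card_G, Nat.card_zmod] at this

theorem not_mem_of_coprime {n : ℕ} (h : n.Coprime 3)
    (h' : ¬ (n ∣ 4 ∨ n ∣ 7 ∨ n ∣ 13 ∨ n ∣ 5)) : n ∉ sp H := by
  rintro ⟨x, rfl⟩
  obtain ⟨g, rfl⟩ := exists_inl h
  rw [orderOf_injective _ inl_injective] at h'
  exact h' (orderOf_G g)

theorem exists_three : ∃ φ : K8 ≃+* K8, orderOf φ = 3 :=
  have : Fact (Nat.Prime 3) := ⟨Nat.prime_three⟩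
  exists_prime_orderOf_dvd_card' 3 (card_aut ▸ dvd_rfl)

theorem not_mem_three {n : ℕ} (h : n.Coprime 3) (h' : ¬ n ∣ 20) : 3 * n ∉ sp H := by
  rintro ⟨x, hx⟩
  have : Fact (Nat.Prime 3) := ⟨Nat.prime_three⟩
  have hn : n ≠ 0 := by rintro rfl; simp at h
  obtain ⟨φ, hφ⟩ := exists_three
  have h1 : orderOf (x ^ n) = 3 := by
    rw [orderOf_pow' _ hn, hx, Nat.gcd_mul_left_left, Nat.mul_div_cancel _ (Nat.pos_of_ne_zero hn)]
  have h2 : orderOf (x ^ 3) = n := by
    rw [orderOf_pow' _ three_ne_zero, hx, Nat.gcd_mul_right_left]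
    simp
  obtain ⟨k, hk⟩ := exists_zpowers_eq_conj (by rw [card_H]; norm_num)
    ((orderOf_injective _ inr_injective φ).trans hφ : orderOf (inr φ : H) = 3) h1
  have h3 : orderOf (k * x ^ 3 * k⁻¹) = n := ((MulAut.conj k).orderOf_eq _).trans h2
  obtain ⟨g, hg⟩ := exists_inl (h3 ▸ h : (orderOf (k * x ^ 3 * k⁻¹)).Coprime 3)
  obtain ⟨i, hi⟩ : (inr φ : H) ∈ Subgroup.zpowers (k * x ^ n * k⁻¹) :=
    hk ▸ Subgroup.mem_zpowers _
  have h4 : Commute (inr φ : H) (inl g) := by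
    rw [← hi, ← hg]
    exact (((Commute.refl x).pow_pow n 3).map (MulAut.conj k)).zpow_left i
  have h5 : M.fieldAut φ g = g := inl_injective (φ := M.fieldAut) (by
    rw [inl_aut, h4.eq, mul_assoc, ← map_mul, mul_inv_cancel, map_one, mul_one])
  rw [hg, orderOf_injective _ inl_injective] at h3
  exact h' (h3 ▸ orderOf_dvd_of_fix (fun e => by simp [e] at hφ) h5)

theorem mem_three {g : G} (hg : (orderOf g).Coprime 3)
    (h : ∀ i j, M.mat g i j = 0 ∨ M.mat g i j = 1) : orderOf g * 3 ∈ sp H := by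
  obtain ⟨φ, hφ⟩ := exists_three
  have h5 : M.fieldAut φ g = g := M.mat_inj (by
    rw [M.mat_fieldAut]
    ext1 i j
    rcases h i j with e | e <;> simp [e])
  have h1 := orderOf_injective _ (inl_injective (φ := M.fieldAut)) g
  have h2 := (orderOf_injective _ (inr_injective (φ := M.fieldAut)) φ).trans hφ
  rw [← h1, ← h2] at hg ⊢
  refine mul_mem_sp_of_commute ?_ hg
  have := inl_aut (φ := M.fieldAut) φ g
  rw [h5, map_inv, eq_mul_inv_iff_mul_eq] at this
  exact this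

/-- A matrix coefficient of a 16-dimensional module. -/
noncomputable def f (u : H) : K8 := M.mat u.left 0 0 ^ 3

theorem sum_cube {A : Matrix (Fin 4) (Fin 4) K8} {n : ℕ}
    (h : ∀ a b c d, ∑ i ∈ range n, (A ^ i) a b * (A ^ i) c d ^ 2 = 0)
    (Y W : Matrix (Fin 4) (Fin 4) K8) : ∑ i ∈ range n, (Y * A ^ i * W) 0 0 ^ 3 = 0 := by
  have h1 : ∀ B : Matrix (Fin 4) (Fin 4) K8, (Y * B * W) 0 0 ^ 3 = ∑ a, ∑ b, ∑ c, ∑ d,
      (Y 0 a * W b 0 * (Y 0 c * W d 0) ^ 2) * (B a b * B c d ^ 2) := fun B => by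
    have h2 : (Y * B * W) 0 0 = ∑ a, ∑ b, Y 0 a * B a b * W b 0 := by
      simp only [mul_apply, sum_mul]
      exact sum_comm
    rw [pow_succ', h2]
    simp only [sum_pow_char, sum_mul]
    simp only [mul_sum]
    refine sum_congr rfl fun a _ => sum_congr rfl fun b _ => sum_congr rfl fun c _ =>
      sum_congr rfl fun d _ => by ring
  simp only [h1]
  rw [sum_comm]
  refine sum_eq_zero fun a _ => sum_comm.trans (sum_eq_zero fun b _ => sum_comm.trans
    (sum_eq_zero fun c _ => sum_comm.trans (sum_eq_zero fun d _ => ?_)))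
  rw [← mul_sum, h, mul_zero]

theorem f_eq (y w : H) (g : G) : f (y * inl g * w) =
    y.right ((M.mat (M.fieldAut y.right⁻¹ y.left) * M.mat g * M.mat w.left) 0 0 ^ 3) := by
  have : (y * inl g * w).left =
      M.fieldAut y.right (M.fieldAut y.right⁻¹ y.left * g * w.left) := by
    simp [mul_assoc]
  rw [f, this, M.mat_fieldAut, map_apply, map_pow, map_mul, map_mul]

theorem exists_unb : ∃ S, Unb S ∧ PG S := by
  obtain ⟨g, hg, og⟩ := exists_elt !![TF.of 7, TF.of 3, 0, 1; TF.of 3, 0, 1, 0; 0, 1, 0, 0; 1, 0, 0, 0]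
    (show Nat.Prime 13 by norm_num) (by decide +kernel)
  obtain ⟨a, ha, oa⟩ := exists_elt !![1, 1, 0, 1; 1, 0, 1, 0; 0, 1, 0, 0; 1, 0, 0, 0]
    Nat.prime_five (by decide +kernel)
  obtain ⟨b, hb, ob⟩ := exists_elt !![TF.of 6, TF.of 2, 0, 1; TF.of 2, 0, 1, 0; 0, 1, 0, 0; 1, 0, 0, 0]
    (show Nat.Prime 7 by norm_num) (by decide +kernel)
  obtain ⟨c, hc, oc⟩ := exists_elt !![0, 0, 0, 1; 0, 0, 1, 0; 0, 1, 0, 0; 1, 0, 0, 0]
    Nat.prime_two (by decide +kernel)
  have key : ∀ a b c d, ∑ i ∈ range 13, (M.mat g ^ i) a b * (M.mat g ^ i) c d ^ 2 = 0 := by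
    rw [hg]; decide +kernel
  have k5 : ∑ i ∈ range 5, (M.mat g * M.mat a ^ i) 0 0 ^ 3 ≠ 0 := by
    rw [hg, ha]; decide +kernel
  have k7 : ∑ i ∈ range 7, (M.mat g * M.mat b ^ i) 0 0 ^ 3 ≠ 0 := by
    rw [hg, hb]; decide +kernel
  have h6 := mem_three (g := c) (by rw [oc]; norm_num) (by rw [hc]; simp [Fin.forall_fin_succ])
  have h15 := mem_three (g := a) (by rw [oa]; norm_num) (by rw [ha]; simp [Fin.forall_fin_succ])
  have oi := orderOf_injective _ (inl_injective (φ := M.fieldAut))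
  have hp : Fact (Nat.Prime 13) := ⟨by norm_num⟩
  obtain ⟨S, hS, h1, h2, h3⟩ := exists_unb_cusp (G := H) Nat.prime_two {13} (f := f)
    (fun e => one_ne_zero (α := K8) (by simpa [f] using congrFun e 1))
    (fun x => by rw [two_nsmul, CharTwo.add_self_eq_zero]) (by
      rintro _ rfl x hx
      refine sum_eq_zero_of_sylow (by rw [card_H]; norm_num) ((oi g).trans og) (fun y w => ?_) hx
      simp only [← map_pow inl, f_eq, map_pow M.mat]
      rw [← map_sum, sum_cube key, map_zero])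
  have h4 : ∀ x : G, ∑ i ∈ range (orderOf x), (M.mat g * M.mat x ^ i) 0 0 ^ 3 ≠ 0 →
      orderOf x * 2 ∈ S := fun x hx => by
    rw [← oi x]
    refine h3 _ (inl g) 1 ?_
    simpa only [← map_pow inl, mul_one, ← map_mul inl, f, left_inl, map_mul M.mat, map_pow M.mat,
      oi] using hx
  have h5 : ∀ n, Odd n → n ∉ sp H → n ∉ S := fun n hn h h' =>
    (h2 n h').elim h fun ⟨m, _, e, _⟩ => by rw [e, Nat.odd_mul] at hn; exact absurd hn.2 (by decide)
  rw [oc] at h6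
  rw [oa] at h15
  refine ⟨S, hS, fun m n h hn => ?_, fun p hp h => ?_, h1 ⟨_, (oi g).trans og⟩,
    ⟨h1 h6, by simpa [oa] using h4 a (oa ▸ k5), by simpa [ob] using h4 b (ob ▸ k7), h1 h15⟩,
    h5 _ (by decide) (not_mem_three (n := 7) (by norm_num) (by norm_num)),
    h5 _ (by decide) (not_mem_of_coprime (by norm_num) (by norm_num)),
    h5 _ (by decide) (not_mem_of_coprime (by norm_num) (by norm_num)), fun h => ?_,
    h5 _ (by decide) (not_mem_three (n := 13) (by norm_num) (by norm_num)),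
    h5 _ (by decide) (not_mem_of_coprime (by norm_num) (by norm_num))⟩
  · obtain ⟨K, _, _, -, rfl⟩ := hS 0
    exact mem_sp_of_dvd hn h
  · rcases h2 p h with h | ⟨m, -, e, -⟩
    · have := dvd_card_of_mem_sp h
      rw [card_H] at this
      exact hp.dvd_of_dvd_pow (n := 6) (this.trans (by norm_num))
    · rw [← (Nat.prime_dvd_prime_iff_eq Nat.prime_two hp).mp ⟨m, e.trans (mul_comm _ _)⟩]
      norm_num
  · rcases h2 _ h with h | ⟨m, -, e, h⟩
    · exact not_mem_of_coprime (by norm_num) (by norm_num) h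
    · exact h 13 rfl (by omega)

end Cfsg.Lib.Unitary.Sz8
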