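import Cfsg.Agent.Lib.Unitary.SmallField

/-!
# A computation in the Hermitian unital of order four
-/

namespace Cfsg.Lib.Unitary.U34

open Cfsg.Lib.Calc

/-- Conjugation. -/
def cj (x : K16) : K16 := TF.of (get 4 0x89badcef76452310 x.val)

/-- Cubing. -/
def cb (x : K16) : K16 := TF.of (get 4 0xc8a8cffa11acf810 x.val)

theorem cj_eq : ∀ x, cj x = x ^ 4 := by decide +kernel

theorem cb_eq : ∀ x, cb x = x ^ 3 := by decide +kernel

/-- Evaluate before passing on. -/
noncomputable def fk (x : K16) (k : K16 → K16) : K16 :=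
  TF.of (forceN x.val fun n => (k (TF.of n)).val)

theorem fk_eq (x : K16) (k : K16 → K16) : fk x k = k x := by simp [fk]

/-- The form, or the ratio of proportional vectors. -/
noncomputable def gc (a0 a1 a2 u0 u1 u2 : K16) : K16 :=
  fk (cj a0 * u0 + cj a1 * u1 + cj a2 * u2) fun b =>
    if b = 0 then (if a0 = 1 then u0 else if a1 = 1 then u1 else u2) else b

/-- The product over an orbit of the element of order 13. -/
noncomputable def go (a0 a1 a2 : K16) (n : ℕ) : K16 → K16 → K16 → K16 :=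
  Nat.rec (motive := fun _ => K16 → K16 → K16 → K16) (fun _ _ _ => 1)
    (fun _ ih u0 u1 u2 => (fk (TF.of 15 * u0 + TF.of 15 * u1 + TF.of 12 * u2) fun w0 =>
      fk (TF.of 13 * u0 + TF.of 15 * u1 + TF.of 7 * u2) fun w1 =>
      fk (TF.of 2 * u0 + TF.of 15 * u1 + TF.of 11 * u2) fun w2 => ih w0 w1 w2) *
      cb (gc a0 a1 a2 u0 u1 u2)) n

/-- A check over the normalised isotropic vectors. -/
noncomputable def allN (k : K16 → K16 → K16 → Bool) : Bool :=
  band (TF.all fun y => TF.all fun z => bor (decide (1 + cj y * y + cj z * z ≠ 0)) (k 1 y z))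
    (TF.all fun z => bor (decide (1 + cj z * z ≠ 0)) (k 0 1 z))

theorem chk : allN (fun v0 v1 v2 => TF.force (go 0 1 1 13 v0 v1 v2) fun b =>
    allN fun a0 a1 a2 => decide (go a0 a1 a2 13 v0 v1 v2 = go a0 a1 a2 13 0 1 1 * b)) = true := by
  decide +kernel

end Cfsg.Lib.Unitary.U34
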